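import Mathlib.GroupTheory.SpecificGroups.Alternating
import Mathlib.GroupTheory.SpecificGroups.KleinFour
import Mathlib.GroupTheory.GroupAction.Quotient
import Mathlib.Tactic.IntervalCases

/-! Abelian subgroups of symmetric and alternating groups: orders. -/

set_option autoImplicit false

namespace Cfsg.Agent.H62

open Equiv MulAction Subgroup

section Upper
variable {α : Type*} [Fintype α] [DecidableEq α]

/-- elements fixing every point outside `s` -/
def fixOut (A : Subgroup (Perm α)) (s : Set α) : Subgroup (Perm α) where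
  carrier := {a | a ∈ A ∧ ∀ x ∉ s, a x = x}
  one_mem' := ⟨one_mem _, fun _ _ => rfl⟩
  mul_mem' := fun {a b} ha hb => ⟨mul_mem ha.1 hb.1, fun x hx => by
    rw [Perm.mul_apply, hb.2 x hx, ha.2 x hx]⟩
  inv_mem' := fun {a} ha => ⟨inv_mem ha.1, fun x hx => by rw [Perm.inv_eq_iff_eq, ha.2 x hx]⟩

theorem card_fixOut_le (A : Subgroup (Perm α)) (hA : ∀ a ∈ A, ∀ b ∈ A, a * b = b * a)
    (h : ℕ → ℕ) (h0 : 1 ≤ h 0) (n : ℕ) : ∀ s : Set α, s.ncard = n → (∀ a ∈ A, ∀ x ∈ s, a x ∈ s) →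
    (∀ x ∈ s, ∀ k, (orbit A x).ncard * h k ≤ h ((orbit A x).ncard + k)) →
    Nat.card (fixOut A s) ≤ h n := by
  induction n using Nat.strong_induction_on with
  | _ n ih =>
  intro s hs hinv hh
  rcases s.eq_empty_or_nonempty with rfl | ⟨x, hx⟩
  · rw [show fixOut A ∅ = ⊥ from eq_bot_iff.2 fun a ha => Perm.ext fun y => ha.2 y (by simp),
      card_bot, ← hs]
    simpa using h0
  have hO : orbit A x ⊆ s := by rintro _ ⟨a, rfl⟩; exact hinv a a.2 x hx
  have h1 := Set.ncard_diff_add_ncard_of_subset hO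
  have h2 : 0 < (orbit A x).ncard := (Set.ncard_pos).2 ⟨x, mem_orbit_self x⟩
  have h3 := ih _ (by omega) (s \ orbit A x) rfl (fun a ha y hy => ⟨hinv a ha y hy.1, fun h =>
    hy.2 (inv_smul_smul (⟨a, ha⟩ : A) y ▸ mem_orbit_of_mem_orbit (⟨a, ha⟩ : A)⁻¹ h)⟩)
    fun y hy => hh y hy.1
  have h4 : Nat.card (stabilizer (fixOut A s) x) ≤ Nat.card (fixOut A (s \ orbit A x)) := by
    rw [← card_map_of_injective (fixOut A s).subtype_injective]
    refine card_le_of_le ?_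
    rintro _ ⟨a, ha, rfl⟩
    refine ⟨a.2.1, fun y hy => ?_⟩
    by_cases hy' : y ∈ s
    · obtain ⟨b, rfl⟩ : y ∈ orbit A x := by simpa [hy'] using hy
      change (a.1 * b.1) x = b.1 x
      rw [hA _ a.2.1 _ b.2, Perm.mul_apply]
      exact congrArg _ ha
    · exact a.2.2 y hy'
  have h5 : (orbit (fixOut A s) x).ncard ≤ (orbit A x).ncard :=
    Set.ncard_le_ncard (by rintro _ ⟨a, rfl⟩; exact ⟨⟨a, a.2.1⟩, rfl⟩)
  rw [← (stabilizer (fixOut A s) x).index_mul_card, index_stabilizer, ← hs, ← h1, add_comm]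
  exact (Nat.mul_le_mul h5 (h4.trans h3)).trans (hh x hx _)

theorem fixOut_univ (A : Subgroup (Perm α)) : fixOut A Set.univ = A := by
  ext a; exact ⟨fun h => h.1, fun h => ⟨h, by simp⟩⟩

theorem super_of {h : ℕ → ℕ} {c : ℕ} (h1 : ∀ n, 3 * h n ≤ h (n + 3))
    (h2 : ∀ n, c ≤ n → h (n + 3) = 3 * h n)
    (h3 : ∀ a < c + 3, ∀ b < c + 3, h a * h b ≤ h (a + b)) (a b : ℕ) : h a * h b ≤ h (a + b) := by
  have key : ∀ b, (∀ a < c + 3, h a * h b ≤ h (a + b)) → ∀ a, h a * h b ≤ h (a + b) :=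
    fun b H a => by
      induction a using Nat.strong_induction_on with
      | _ a ih =>
      by_cases ha : a < c + 3
      · exact H a ha
      obtain ⟨a, rfl⟩ : ∃ d, a = d + 3 := ⟨a - 3, by omega⟩
      rw [h2 a (by omega), mul_assoc, add_right_comm]
      exact (Nat.mul_le_mul_left _ (ih a (by omega))).trans (h1 _)
  refine key b (fun a ha => ?_) a
  rw [mul_comm, add_comm]
  exact key a (fun b hb => h3 b hb a ha) b

/-- the largest product of a partition -/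
def gP : ℕ → ℕ
  | 0 => 1 | 1 => 1 | 2 => 2 | 3 => 3 | 4 => 4
  | n + 5 => 3 * gP (n + 2)

/-- the largest product of a partition without parts equal to two -/
def hP : ℕ → ℕ
  | 0 => 1 | 1 => 1 | 2 => 1 | 3 => 3 | 4 => 4 | 5 => 5 | 6 => 9 | 7 => 12 | 8 => 16
  | n + 9 => 3 * hP (n + 6)

theorem gP_eq (n : ℕ) (h : 2 ≤ n) : gP (n + 3) = 3 * gP n := by
  obtain ⟨n, rfl⟩ : ∃ d, n = d + 2 := ⟨n - 2, by omega⟩
  rfl

theorem hP_eq (n : ℕ) (h : 6 ≤ n) : hP (n + 3) = 3 * hP n := by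
  obtain ⟨n, rfl⟩ : ∃ d, n = d + 6 := ⟨n - 6, by omega⟩
  rfl

theorem le_of_step {h : ℕ → ℕ} {c : ℕ} (hc : 2 ≤ c) (h2 : ∀ n, c ≤ n → h (n + 3) = 3 * h n)
    (h3 : ∀ a, c ≤ a → a < c + 3 → a ≤ h a) (a : ℕ) (ha : c ≤ a) : a ≤ h a := by
  induction a using Nat.strong_induction_on with
  | _ a ih =>
  by_cases ha' : a < c + 3
  · exact h3 a ha ha'
  obtain ⟨a, rfl⟩ : ∃ d, a = d + 3 := ⟨a - 3, by omega⟩
  have := ih a (by omega) (by omega)
  rw [h2 a (by omega)]; omega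

theorem mul_gP_le (m k : ℕ) : m * gP k ≤ gP (m + k) := by
  refine (Nat.mul_le_mul_right _ ?_).trans (super_of (c := 2) (fun n => ?_) gP_eq (by decide) m k)
  · by_cases h : 2 ≤ m
    · exact le_of_step le_rfl gP_eq (fun a _ _ => by interval_cases a <;> decide) m h
    · interval_cases m <;> decide
  · by_cases h : 2 ≤ n
    · exact (gP_eq n h).ge
    · interval_cases n <;> decide

theorem mul_hP_le {m : ℕ} (hm : m ≠ 2) (k : ℕ) : m * hP k ≤ hP (m + k) := by
  refine (Nat.mul_le_mul_right _ ?_).trans (super_of (c := 6) (fun n => ?_) hP_eq (by decide) m k)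
  · by_cases h : 6 ≤ m
    · exact le_of_step (by norm_num) hP_eq (fun a _ _ => by interval_cases a <;> decide) m h
    · interval_cases m <;> first | decide | omega
  · by_cases h : 6 ≤ n
    · exact (hP_eq n h).ge
    · interval_cases n <;> decide

theorem gP_val (k : ℕ) : gP (3 * (k + 1)) = 3 ^ (k + 1) ∧ gP (3 * (k + 1) + 1) = 4 * 3 ^ k ∧
    gP (3 * k + 2) = 2 * 3 ^ k := by
  induction k with
  | zero => decide
  | succ k ih =>
    refine ⟨(gP_eq (3 * (k + 1)) (by omega)).trans ?_, (gP_eq (3 * (k + 1) + 1) (by omega)).trans ?_,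
      (gP_eq (3 * k + 2) (by omega)).trans ?_⟩
    · rw [ih.1]; ring
    · rw [ih.2.1]; ring
    · rw [ih.2.2]; ring

theorem hP_val (k : ℕ) : hP (3 * (k + 2) + 2) = 16 * 3 ^ k := by
  induction k with
  | zero => decide
  | succ k ih => exact (hP_eq (3 * (k + 2) + 2) (by omega)).trans (by rw [ih]; ring)

theorem card_le_gP (A : Subgroup (Perm α)) (hA : ∀ a ∈ A, ∀ b ∈ A, a * b = b * a) :
    Nat.card A ≤ gP (Fintype.card α) := by
  simpa [fixOut_univ] using card_fixOut_le A hA gP le_rfl _ Set.univ rfl (by simp)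
    fun _ _ => mul_gP_le _

theorem card_le_alt (A : Subgroup (Perm α)) (hA : ∀ a ∈ A, ∀ b ∈ A, a * b = b * a)
    (he : A ≤ alternatingGroup α) {k : ℕ} (hk : Fintype.card α = 3 * (k + 2) + 2) :
    Nat.card A ≤ 16 * 3 ^ k := by
  by_cases h : ∀ x : α, (orbit A x).ncard ≠ 2
  · simpa [fixOut_univ, hk, hP_val] using card_fixOut_le A hA hP le_rfl _ Set.univ rfl (by simp)
      fun x _ => mul_hP_le (h x)
  push Not at h
  obtain ⟨x, hx⟩ := h
  obtain ⟨u, v, huv, e⟩ := Set.ncard_eq_two.1 hx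
  have hinv : ∀ a ∈ A, ∀ y ∈ orbit A x, a y ∈ orbit A x := fun a ha y hy =>
    mem_orbit_of_mem_orbit (⟨a, ha⟩ : A) hy
  have hp : ∀ a : A, ∀ y, (a : Perm α) y ∉ orbit A x ↔ y ∉ orbit A x := fun a y => not_congr
    ⟨fun h => by simpa using hinv _ (inv_mem a.2) _ h, hinv _ a.2 _⟩
  let φ : A →* Perm {y // y ∉ orbit A x} :=
    MonoidHom.mk' (fun a => (a : Perm α).subtypePerm (hp a)) fun _ _ => rfl
  have hφ : Function.Injective φ := (injective_iff_map_eq_one φ).2 fun a ha => by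
    have h1 : ∀ y ∉ orbit A x, (a : Perm α) y = y := fun y hy =>
      congrArg Subtype.val (Perm.congr_fun ha ⟨y, hy⟩)
    have h2 := hinv _ a.2 u (by simp [e])
    have h3 := hinv _ a.2 v (by simp [e])
    rw [e] at h1 h2 h3
    simp only [Set.mem_insert_iff, Set.mem_singleton_iff, not_or] at h1 h2 h3
    have h4 : (a : Perm α) u ≠ (a : Perm α) v := (a : Perm α).injective.ne huv
    rcases h2 with h2 | h2
    · refine Subtype.ext (Perm.ext fun y => ?_)
      by_cases a1 : y = u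
      · rw [a1, h2]; rfl
      by_cases a2 : y = v
      · rw [a2, h3.resolve_left fun h => h4 (h2.trans h.symm)]; rfl
      · exact h1 y ⟨a1, a2⟩
    · have : (a : Perm α) = swap u v := Perm.ext fun y => by
        by_cases a1 : y = u
        · rw [a1, h2, swap_apply_left]
        by_cases a2 : y = v
        · rw [a2, h3.resolve_right fun h => h4 (h2.trans h.symm), swap_apply_right]
        · rw [h1 y ⟨a1, a2⟩, swap_apply_of_ne_of_ne a1 a2]
      have h5 := Perm.mem_alternatingGroup.1 (he a.2)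
      rw [this, Perm.sign_swap huv] at h5
      exact absurd h5 (by decide)
  classical
  have h6 := card_le_gP φ.range (by
    rintro _ ⟨a, rfl⟩ _ ⟨b, rfl⟩
    rw [← map_mul, ← map_mul, show a * b = b * a from Subtype.ext (hA _ a.2 _ b.2)])
  rw [← Nat.card_congr (MonoidHom.ofInjective hφ).toEquiv, Fintype.card_subtype_compl, hk,
    ← Nat.card_eq_fintype_card, Nat.card_coe_set_eq, hx, Nat.add_sub_cancel,
    (gP_val (k + 1)).1] at h6
  exact h6.trans (by rw [pow_succ, pow_succ]; omega)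

end Upper

/-- An abelian subgroup of order `c` in degree `n`, even when `e` holds. -/
def AbS (e : Prop) (n c : ℕ) : Prop := ∃ A : Subgroup (Perm (Fin n)),
  (e → A ≤ alternatingGroup _) ∧ (∀ a ∈ A, ∀ b ∈ A, a * b = b * a) ∧ Nat.card A = c

theorem AbS.add {e : Prop} {n c m d : ℕ} (h : AbS e n c) (h' : AbS e m d) :
    AbS e (n + m) (c * d) := by
  obtain ⟨A, a1, a2, rfl⟩ := h
  obtain ⟨B, b1, b2, rfl⟩ := h'
  let φ : Perm (Fin n) × Perm (Fin m) →* Perm (Fin (n + m)) :=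
    (finSumFinEquiv.permCongrHom).toMonoidHom.comp (Perm.sumCongrHom _ _)
  have hφ : Function.Injective φ :=
    finSumFinEquiv.permCongrHom.injective.comp Perm.sumCongrHom_injective
  refine ⟨(A.prod B).map φ, fun he => ?_, ?_, ?_⟩
  · rintro _ ⟨⟨a, b⟩, ⟨ha, hb⟩, rfl⟩
    have := Perm.mem_alternatingGroup.1 (a1 he ha)
    have := Perm.mem_alternatingGroup.1 (b1 he hb)
    simp_all [φ, Perm.mem_alternatingGroup, Perm.sign_sumCongr]
  · rintro _ ⟨x, hx, rfl⟩ _ ⟨y, hy, rfl⟩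
    rw [← map_mul, ← map_mul, show x * y = y * x from
      Prod.ext (a2 _ hx.1 _ hy.1) (b2 _ hx.2 _ hy.2)]
  · rw [card_map_of_injective hφ, Nat.card_congr (Subgroup.prodEquiv _ _).toEquiv, Nat.card_prod]

theorem AbS.cast {e : Prop} {n c m d : ℕ} (h : AbS e n c) (h1 : n = m) (h2 : c = d) :
    AbS e m d := h1 ▸ h2 ▸ h

theorem abS_cyc {e : Prop} {n c : ℕ} (g : Perm (Fin n)) (h : e → Perm.sign g = 1)
    (hc : orderOf g = c) : AbS e n c :=
  ⟨zpowers g, fun he => zpowers_le.2 (h he), by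
    rintro _ ⟨i, rfl⟩ _ ⟨j, rfl⟩; exact zpow_mul_comm _ _ _, by rw [Nat.card_zpowers, hc]⟩

theorem abS_three (e : Prop) (k : ℕ) : AbS e (3 * k) (3 ^ k) := by
  induction k with
  | zero => exact abS_cyc 1 (by simp) (by simp)
  | succ k ih =>
    exact ih.add (abS_cyc (swap 0 1 * swap 1 2) (fun _ => by decide)
      (orderOf_eq_prime (hp := ⟨Nat.prime_three⟩) (by decide) (by decide)))

theorem abS_two : AbS False 2 2 :=
  abS_cyc (swap 0 1) False.elim (orderOf_eq_prime (by decide) (by decide))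

theorem abS_four (e : Prop) : AbS e 4 4 := by
  let s : Finset (Perm (Fin 4)) :=
    {1, swap 0 1 * swap 2 3, swap 0 2 * swap 1 3, swap 0 3 * swap 1 2}
  let A : Subgroup (Perm (Fin 4)) :=
    { carrier := s
      one_mem' := by simp [s]
      mul_mem' := fun {a b} ha hb => (by decide : ∀ a ∈ s, ∀ b ∈ s, a * b ∈ s) a ha b hb
      inv_mem' := fun {a} ha => (by decide : ∀ a ∈ s, a⁻¹ ∈ s) a ha }
  exact ⟨A, fun _ => (by decide : ∀ a ∈ s, Perm.sign a = 1),
    (by decide : ∀ a ∈ s, ∀ b ∈ s, a * b = b * a),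
    (Nat.card_eq_card_toFinset (s : Set (Perm (Fin 4)))).trans (by decide)⟩

theorem AbS.isGreatest {n c : ℕ} (h : AbS False n c) (hc : gP n = c) :
    IsGreatest {c : ℕ | ∃ A : Subgroup (Perm (Fin n)), IsMulCommutative A ∧ Nat.card A = c} c := by
  obtain ⟨A, -, a2, a3⟩ := h
  refine ⟨⟨A, ⟨⟨fun a b => Subtype.ext (a2 _ a.2 _ b.2)⟩⟩, a3⟩, ?_⟩
  rintro _ ⟨B, hB, rfl⟩
  simpa [hc] using card_le_gP B fun a ha b hb =>
    congrArg Subtype.val (hB.is_comm.comm ⟨a, ha⟩ ⟨b, hb⟩)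

theorem AbS.isGreatest_alt {n c : ℕ} (h : AbS True n c) (hc : ∀ A : Subgroup (Perm (Fin n)),
    (∀ a ∈ A, ∀ b ∈ A, a * b = b * a) → A ≤ alternatingGroup _ → Nat.card A ≤ c) :
    IsGreatest {c : ℕ | ∃ A : Subgroup (alternatingGroup (Fin n)),
      IsMulCommutative A ∧ Nat.card A = c} c := by
  obtain ⟨A, a1, a2, a3⟩ := h
  refine ⟨⟨A.subgroupOf _, ⟨⟨fun a b => Subtype.ext (Subtype.ext (a2 _ a.2 _ b.2))⟩⟩,
    (Nat.card_congr (subgroupOfEquivOfLe (a1 trivial)).toEquiv).trans a3⟩, ?_⟩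
  rintro _ ⟨B, hB, rfl⟩
  rw [← card_map_of_injective (alternatingGroup (Fin n)).subtype_injective]
  refine hc _ ?_ (map_subtype_le _)
  rintro _ ⟨a, ha, rfl⟩ _ ⟨b, hb, rfl⟩
  exact congrArg (fun x : B => (x.1 : Perm (Fin n))) (hB.is_comm.comm ⟨a, ha⟩ ⟨b, hb⟩)

end Cfsg.Agent.H62
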