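import Cfsg.Agent.H62.AbSym
import Cfsg.Agent.H46.AltOn
import Cfsg.Agent.H49.Prod

/-! Abelian subgroups of largest order in alternating groups are conjugate. -/

set_option autoImplicit false

namespace Cfsg.Agent.H62.AbAlt

open Equiv MulAction Subgroup H46

variable {α : Type*} [Fintype α] [DecidableEq α]

/-- abelian, elementwise -/
def Ab (A : Subgroup (Perm α)) : Prop := ∀ a ∈ A, ∀ b ∈ A, a * b = b * a

/-- abelian of largest order in `Alt(s)` -/
structure MaxAb (s : Finset α) (A : Subgroup (Perm α)) : Prop where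
  le : A ≤ AltOn s
  ab : Ab A
  max : ∀ C, C ≤ AltOn s → Ab C → Nat.card C ≤ Nat.card A

theorem Ab.sup {A B : Subgroup (Perm α)} (hA : Ab A) (hB : Ab B) (h : ∀ a ∈ A, ∀ b ∈ B, a * b = b * a) :
    Ab (A ⊔ B) := by
  have h1 : A ⊔ B ≤ centralizer (A : Set (Perm α)) ⊓ centralizer (B : Set (Perm α)) :=
    sup_le (fun a ha => ⟨fun b hb => hA b hb a ha, fun b hb => (h a ha b hb).symm⟩)
      (fun a ha => ⟨fun b hb => h b hb a ha, fun b hb => hB b hb a ha⟩)
  have h2 : A ⊔ B ≤ centralizer ((A ⊔ B : Subgroup (Perm α)) : Set (Perm α)) :=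
    sup_le (le_centralizer_iff.1 (h1.trans inf_le_left)) (le_centralizer_iff.1 (h1.trans inf_le_right))
  exact fun a ha b hb => h2 hb a ha

theorem Ab.mono {A B : Subgroup (Perm α)} (hA : Ab A) (h : B ≤ A) : Ab B := fun a ha b hb => hA a (h ha) b (h hb)

theorem mem_of_altOn {s : Finset α} {g : Perm α} (hg : ∀ x, x ∉ s → g x = x) {x : α} (hx : x ∈ s) : g x ∈ s := by
  by_contra h
  exact h (by rw [g.injective (hg _ h)]; exact hx)

theorem AltOn_mono {s t : Finset α} (h : s ⊆ t) : AltOn s ≤ AltOn t := fun _ hg =>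
  mem_AltOn.2 ⟨(mem_AltOn.1 hg).1.trans h, (mem_AltOn.1 hg).2⟩

theorem card_le (A : Subgroup (Perm α)) (hA : Ab A) {s : Finset α} (hs : ∀ a ∈ A, ∀ x, x ∉ s → a x = x)
    (h : ℕ → ℕ) (h0 : 1 ≤ h 0)
    (hh : ∀ x ∈ s, ∀ k, (orbit A x).ncard * h k ≤ h ((orbit A x).ncard + k)) : Nat.card A ≤ h s.card := by
  have := card_fixOut_le A hA h h0 s.card s (Set.ncard_coe_finset s)
    (fun a ha x hx => mem_of_altOn (hs a ha) hx) hh
  rwa [show fixOut A s = A from le_antisymm (fun a ha => ha.1) fun a ha => ⟨ha, hs a ha⟩] at this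

theorem card_altOn {s : Finset α} (h : 2 ≤ s.card) : 2 * Nat.card (AltOn s) = s.card.factorial := by
  haveI : Nontrivial (Fin s.card) := Fin.nontrivial_iff_two_le.2 h
  rw [Nat.card_congr (altOnEquiv s).toEquiv, two_mul_nat_card_alternatingGroup, Nat.card_perm]; simp

theorem MaxAb.ge {s : Finset α} {A : Subgroup (Perm α)} (h : MaxAb s A) {c : ℕ} (hc : AbS True s.card c) :
    c ≤ Nat.card A := by
  obtain ⟨C, c1, c2, rfl⟩ := hc
  let f : alternatingGroup (Fin s.card) →* Perm α := (AltOn s).subtype.comp (altOnEquiv s).symm.toMonoidHom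
  have hf : Function.Injective f := Subtype.val_injective.comp (altOnEquiv s).symm.injective
  rw [← Nat.card_congr (subgroupOfEquivOfLe (c1 trivial)).toEquiv, ← card_map_of_injective hf]
  refine h.max _ ?_ ?_
  · rintro _ ⟨x, -, rfl⟩; exact ((altOnEquiv s).symm x).2
  · rintro _ ⟨x, hx, rfl⟩ _ ⟨y, hy, rfl⟩
    rw [← map_mul, ← map_mul, show x * y = y * x from Subtype.ext (c2 _ hx _ hy)]

theorem two_orbit {s : Finset α} {A : Subgroup (Perm α)} (h1 : A ≤ AltOn s) (hA : Ab A) {x : α}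
    (hx : (orbit A x).ncard = 2) : 2 * Nat.card A ≤ gP s.card := by
  obtain ⟨u, v, huv, e⟩ := Set.ncard_eq_two.1 hx
  have hinv : ∀ a ∈ A, ∀ y ∈ orbit A x, a y ∈ orbit A x := fun a ha y hy =>
    mem_orbit_of_mem_orbit (⟨a, ha⟩ : A) hy
  have hxs : x ∈ s := by
    by_contra h
    have : orbit A x = {x} := Set.eq_singleton_iff_unique_mem.2 ⟨mem_orbit_self x, by
      rintro _ ⟨a, rfl⟩; exact (mem_AltOn'.1 (h1 a.2)).1 x h⟩
    simp [this] at hx
  have hO : ∀ y ∈ orbit A x, y ∈ s := by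
    rintro _ ⟨a, rfl⟩; exact mem_of_altOn (mem_AltOn'.1 (h1 a.2)).1 hxs
  have hc : ∀ a ∈ A, Commute a (swap u v) := by
    intro a ha
    have h2 := hinv a ha u (by simp [e])
    have h3 := hinv a ha v (by simp [e])
    have h4 : a u ≠ a v := a.injective.ne huv
    rw [e] at h2 h3
    rw [Commute, SemiconjBy, mul_swap_eq_swap_mul]
    rcases h2 with h2 | h2 <;> rcases h3 with h3 | h3
    · exact absurd (h2.trans h3.symm) h4
    · rw [h2, h3]
    · rw [h2, h3, swap_comm]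
    · exact absurd (h2.trans (Set.mem_singleton_iff.1 h3).symm) h4
  have hab : Ab (A ⊔ zpowers (swap u v)) := hA.sup
    (by rintro _ ⟨i, rfl⟩ _ ⟨j, rfl⟩; exact zpow_mul_comm _ _ _)
    (by rintro a ha _ ⟨j, rfl⟩; exact (hc a ha).zpow_right j)
  have hb := card_le _ hab (s := s) (fun a ha y hy => by
    have : A ⊔ zpowers (swap u v) ≤ stabilizer (Perm α) y := sup_le
      (fun a ha => (mem_AltOn'.1 (h1 ha)).1 y hy) (zpowers_le.2 (swap_apply_of_ne_of_ne
        (fun h => hy (h ▸ hO u (by simp [e]))) (fun h => hy (h ▸ hO v (by simp [e])))))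
    exact this ha) gP le_rfl fun _ _ => mul_gP_le _
  refine le_trans ?_ hb
  obtain ⟨k, hk⟩ := card_dvd_of_le (le_sup_left : A ≤ A ⊔ zpowers (swap u v))
  have h0 : 0 < Nat.card ↥(A ⊔ zpowers (swap u v)) := Nat.card_pos
  have : k ≠ 1 := by
    rintro rfl
    have := eq_of_le_of_card_ge (le_sup_left : A ≤ A ⊔ zpowers (swap u v)) (by omega)
    have h5 := (mem_AltOn.1 (h1 (this ▸ mem_sup_right (mem_zpowers _)))).2
    rw [Perm.sign_swap huv] at h5
    exact absurd h5 (by decide)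
  have : k ≠ 0 := by rintro rfl; omega
  rw [hk, mul_comm]
  exact Nat.mul_le_mul_left _ (by omega)

theorem fix_orbit {A : Subgroup (Perm α)} (hA : Ab A) {a : Perm α} (ha : a ∈ A) {x y : α} (h : a x = x)
    (hy : y ∈ orbit A x) : a y = y := by
  obtain ⟨b, rfl⟩ := hy
  change (a * b.1) x = b.1 x
  rw [hA _ ha _ b.2, Perm.mul_apply, h]

theorem card_orbit_mul {s O : Finset α} {A : Subgroup (Perm α)} (h1 : A ≤ AltOn s) (hA : Ab A) {x : α}
    (hO : (O : Set α) = orbit A x) : O.card * Nat.card ↥(A ⊓ AltOn (s \ O)) = Nat.card A := by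
  rw [← (stabilizer A x).index_mul_card, index_stabilizer, ← hO, Set.ncard_coe_finset,
    ← card_map_of_injective A.subtype_injective]
  congr 3
  ext a
  constructor
  · rintro ⟨ha, h⟩
    refine ⟨⟨a, ha⟩, (mem_AltOn'.1 h).1 x fun hx => (Finset.mem_sdiff.1 hx).2 ?_, rfl⟩
    rw [← Finset.mem_coe, hO]; exact mem_orbit_self x
  · rintro ⟨a, ha, rfl⟩
    refine ⟨a.2, mem_AltOn'.2 ⟨fun y hy => ?_, (mem_AltOn.1 (h1 a.2)).2⟩⟩
    by_cases hs : y ∈ s
    · refine fix_orbit hA a.2 ha ?_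
      rw [← hO]; simpa [hs] using hy
    · exact (mem_AltOn'.1 (h1 a.2)).1 y hs

theorem card_sup_disj {O t : Finset α} (hd : Disjoint O t) {R B : Subgroup (Perm α)} (hR : R ≤ AltOn O)
    (hB : B ≤ AltOn t) : (∀ a ∈ R, ∀ b ∈ B, a * b = b * a) ∧ Nat.card ↥(R ⊔ B) = Nat.card R * Nat.card B := by
  have hc : ∀ a ∈ R, ∀ b ∈ B, a * b = b * a := fun a ha b hb =>
    commute_of_fix (fun x hx => (mem_AltOn'.1 (hR ha)).1 x (Finset.disjoint_right.1 hd hx)) (hB hb)
  refine ⟨hc, ?_⟩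
  have := H49.card_sup_mul_card_inf (H := R) (K := B)
    (Or.inl fun a ha => centralizer_le_normalizer _ fun b hb => (hc a ha b hb).symm)
  rwa [show R ⊓ B = ⊥ from eq_bot_iff.2 fun a ha => Perm.ext fun x => by
    by_cases hx : x ∈ O
    · exact (mem_AltOn'.1 (hB ha.2)).1 x (Finset.disjoint_left.1 hd hx)
    · exact (mem_AltOn'.1 (hR ha.1)).1 x hx, card_bot, mul_one] at this

/-- a good splitting -/
def Spl (s : Finset α) (A : Subgroup (Perm α)) (d : ℕ) : Prop :=
  ∃ (O : Finset α) (R A' : Subgroup (Perm α)), O ⊆ s ∧ O.card = d ∧ R ≤ AltOn O ∧ Nat.card R = d ∧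
    MaxAb (s \ O) A' ∧ A = R ⊔ A'

theorem MaxAb.spl {s O : Finset α} {A : Subgroup (Perm α)} (h : MaxAb s A) {x : α} (hx : x ∈ s)
    (hO : (O : Set α) = orbit A x) (hR : Nat.card ↥(A ⊓ AltOn O) = O.card) : Spl s A O.card := by
  have hOs : O ⊆ s := fun y hy => by
    obtain ⟨a, rfl⟩ : y ∈ orbit A x := hO ▸ hy
    exact mem_of_altOn (mem_AltOn'.1 (h.le a.2)).1 hx
  have h1 := card_orbit_mul h.le h.ab hO
  have hpos : 0 < O.card := hR ▸ Nat.card_pos
  refine ⟨O, A ⊓ AltOn O, A ⊓ AltOn (s \ O), hOs, rfl, inf_le_right, hR,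
    ⟨inf_le_right, h.ab.mono inf_le_left, fun C hC hab => ?_⟩, ?_⟩
  · obtain ⟨c1, c2⟩ := card_sup_disj Finset.disjoint_sdiff (inf_le_right : A ⊓ AltOn O ≤ _) hC
    have := h.max _ (sup_le (inf_le_left.trans h.le) (hC.trans (AltOn_mono Finset.sdiff_subset)))
      ((h.ab.mono inf_le_left).sup hab c1)
    rw [c2, hR, ← h1] at this
    exact Nat.le_of_mul_le_mul_left this hpos
  · refine (eq_of_le_of_card_ge (sup_le inf_le_left inf_le_left) ?_).symm
    rw [(card_sup_disj Finset.disjoint_sdiff inf_le_right inf_le_right).2, hR, h1]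

theorem fpf3 {u v w : α} (huv : u ≠ v) (huw : u ≠ w) (hvw : v ≠ w) {g : Perm α}
    (h1 : ∀ y ∈ ({u, v, w} : Finset α), g y ∈ ({u, v, w} : Finset α))
    (h2 : ∀ y ∈ ({u, v, w} : Finset α), g y ≠ y) :
    (g u = v ∧ g v = w ∧ g w = u) ∨ (g u = w ∧ g v = u ∧ g w = v) := by
  have a1 := h1 u (by simp)
  have a2 := h1 v (by simp)
  have a3 := h1 w (by simp)
  have b1 := h2 u (by simp)
  have b2 := h2 v (by simp)
  have b3 := h2 w (by simp)
  have c1 := g.injective.ne huv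
  have c2 := g.injective.ne huw
  have c3 := g.injective.ne hvw
  simp only [Finset.mem_insert, Finset.mem_singleton] at a1 a2 a3
  rcases a1 with a1 | a1 | a1 <;> rcases a2 with a2 | a2 | a2 <;> rcases a3 with a3 | a3 | a3 <;> simp_all

theorem comm3 {O : Finset α} (hO : O.card = 3) {g c : Perm α} (h1 : ∀ y ∈ O, g y ∈ O)
    (h2 : (∀ y ∈ O, g y = y) ∨ ∀ y ∈ O, g y ≠ y) (hc : c ∈ AltOn O) : g * c = c * g := by
  rcases h2 with h2 | h2
  · exact commute_of_fix h2 hc
  by_cases hc1 : c = 1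
  · simp [hc1]
  have hs : c.support = O := by
    refine Finset.eq_of_subset_of_card_le (mem_AltOn.1 hc).1 ?_
    have h5 := Perm.two_le_card_support_of_ne_one hc1
    have h6 : c.support.card ≠ 2 := fun h => by
      have := (Perm.card_support_eq_two.1 h).sign_eq
      rw [(mem_AltOn.1 hc).2] at this
      exact absurd this (by decide)
    omega
  have hcf := (mem_AltOn'.1 hc).1
  have h3 : ∀ y, y ∉ O → g y ∉ O := fun y hy hgy => by
    obtain ⟨z, hz, e⟩ := Finset.surj_on_of_inj_on_of_card_le (s := O) (t := O) (fun a _ => g a)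
      h1 (fun _ _ _ _ h => g.injective h) le_rfl _ hgy
    exact hy (g.injective e ▸ hz)
  obtain ⟨u, v, w, huv, huw, hvw, rfl⟩ := Finset.card_eq_three.1 hO
  have e1 := fpf3 huv huw hvw h1 h2
  have e2 := fpf3 huv huw hvw (g := c) (fun y hy => mem_of_altOn hcf hy)
    (fun y hy => Perm.mem_support.1 (hs ▸ hy))
  ext y
  by_cases hy : y ∈ ({u, v, w} : Finset α)
  · simp only [Finset.mem_insert, Finset.mem_singleton] at hy
    rcases e1 with ⟨a1, a2, a3⟩ | ⟨a1, a2, a3⟩ <;> rcases e2 with ⟨b1, b2, b3⟩ | ⟨b1, b2, b3⟩ <;>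
      rcases hy with rfl | rfl | rfl <;> simp [*]
  · rw [Perm.mul_apply, Perm.mul_apply, hcf y hy, hcf _ (h3 y hy)]

theorem exists_fin (A : Subgroup (Perm α)) (x : α) : ∃ O : Finset α, (O : Set α) = orbit A x ∧
    O.card = (orbit A x).ncard :=
  ⟨(Set.toFinite _).toFinset, by simp, (Set.ncard_eq_toFinset_card _).symm⟩

theorem MaxAb.spl3 {s : Finset α} {A : Subgroup (Perm α)} (h : MaxAb s A) {x : α} (hx : x ∈ s)
    (h3 : (orbit A x).ncard = 3) : Spl s A 3 := by
  obtain ⟨O, hO, hc⟩ := exists_fin A x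
  rw [h3] at hc
  have hOs : O ⊆ s := fun y hy => by
    obtain ⟨a, rfl⟩ : y ∈ orbit A x := hO ▸ hy
    exact mem_of_altOn (mem_AltOn'.1 (h.le a.2)).1 hx
  have mO : ∀ y, y ∈ O ↔ y ∈ orbit A x := fun y => by rw [← hO]; rfl
  have c3 : Nat.card (AltOn O) = 3 := by
    have := card_altOn (s := O) (by omega)
    rw [hc] at this; simp [Nat.factorial] at this; omega
  have hab : Ab (AltOn O) := fun a ha b hb => by
    haveI : Fact (Nat.Prime 3) := ⟨Nat.prime_three⟩
    haveI := isCyclic_of_prime_card c3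
    exact congrArg Subtype.val (mul_comm' (⟨a, ha⟩ : AltOn O) ⟨b, hb⟩)
  have h4 := h.max _ (sup_le h.le (AltOn_mono hOs)) (h.ab.sup hab fun a ha b hb =>
    comm3 hc (fun y hy => (mO _).2 (mem_orbit_of_mem_orbit (⟨a, ha⟩ : A) ((mO _).1 hy))) (by
      by_contra hn
      push Not at hn
      obtain ⟨⟨y, hy, h1⟩, z, hz, h2⟩ := hn
      exact h1 (fix_orbit h.ab ha h2 (by rw [orbit_eq_iff.2 ((mO _).1 hz)]; exact (mO _).1 hy))) hb)
  have h5 := eq_of_le_of_card_ge (le_sup_left : A ≤ A ⊔ AltOn O) h4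
  rw [← hc]
  exact h.spl hx hO (by rw [inf_eq_right.2 (h5 ▸ le_sup_right), c3, hc])

theorem abS_big (n : ℕ) (h : n = 3 ∨ n = 6 ∨ n = 7 ∨ 9 ≤ n) : ∃ c, AbS True n c ∧ 2 ^ n < c ^ 2 := by
  induction n using Nat.strong_induction_on with
  | _ n ih =>
  by_cases h1 : n = 3
  · subst h1; exact ⟨_, abS_three True 1, by norm_num⟩
  by_cases h2 : n = 7
  · subst h2; exact ⟨_, (abS_three True 1).add (abS_four _), by norm_num⟩
  by_cases h3 : n = 11
  · subst h3; exact ⟨_, ((abS_three True 1).add (abS_four _)).add (abS_four _), by norm_num⟩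
  obtain ⟨m, rfl⟩ : ∃ m, n = m + 3 := ⟨n - 3, by omega⟩
  obtain ⟨c, c1, c2⟩ := ih m (by omega) (by omega)
  refine ⟨_, c1.add (abS_three True 1), ?_⟩
  rw [pow_add, mul_pow]; norm_num; omega

theorem sq_le_two_pow (m : ℕ) (h : m ≠ 3) : m ^ 2 ≤ 2 ^ m := by
  by_cases h4 : m < 4
  · interval_cases m <;> simp_all
  · have : 4 ≤ m := by omega
    clear h h4
    induction m, this using Nat.le_induction with
    | base => norm_num
    | succ k hk ih => rw [pow_succ 2]; nlinarith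

theorem MaxAb.spl_big {s : Finset α} {A : Subgroup (Perm α)} (h : MaxAb s A)
    (hn : s.card = 3 ∨ s.card = 6 ∨ s.card = 7 ∨ 9 ≤ s.card) : Spl s A 3 := by
  by_cases h3 : ∃ x ∈ s, (orbit A x).ncard = 3
  · obtain ⟨x, hx, h3⟩ := h3
    exact h.spl3 hx h3
  push Not at h3
  obtain ⟨c, c1, c2⟩ := abS_big _ hn
  have h1 := card_le A h.ab (s := s) (fun a ha => (mem_AltOn'.1 (h.le ha)).1) (fun n => Nat.sqrt (2 ^ n))
    (by simp) fun x hx k => by
      rw [Nat.le_sqrt', mul_pow, pow_add]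
      exact Nat.mul_le_mul (sq_le_two_pow _ (h3 x hx)) (Nat.sqrt_le' _)
  rw [Nat.le_sqrt'] at h1
  have := Nat.pow_le_pow_left (h.ge c1) 2
  omega

theorem MaxAb.le_hP {s : Finset α} {A : Subgroup (Perm α)} (h : MaxAb s A) :
    Nat.card A ≤ hP s.card ∨ 2 * Nat.card A ≤ gP s.card := by
  by_cases h2 : ∃ x : α, (orbit A x).ncard = 2
  · obtain ⟨x, hx⟩ := h2
    exact Or.inr (two_orbit h.le h.ab hx)
  · push Not at h2
    exact Or.inl (card_le A h.ab (fun a ha => (mem_AltOn'.1 (h.le ha)).1) hP le_rfl fun x _ => mul_hP_le (h2 x))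

theorem MaxAb.spl8 {s : Finset α} {A : Subgroup (Perm α)} (h : MaxAb s A) (hn : s.card = 8) : Spl s A 4 := by
  have h1 : 16 ≤ Nat.card A := h.ge (hn ▸ (abS_four _).add (abS_four _))
  have h2 := h.le_hP
  rw [hn, show hP 8 = 16 from rfl, show gP 8 = 18 from rfl] at h2
  have h16 : Nat.card A = 16 := by omega
  have key : ∀ a ∈ A, ∀ x, a x ≠ x → x ∈ s ∧ ∃ O : Finset α, (O : Set α) = orbit A x ∧ O.card = 4 ∧ O ⊆ s := by
    intro a ha x hx
    have hxs : x ∈ s := by_contra fun h' => hx ((mem_AltOn'.1 (h.le ha)).1 x h')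
    obtain ⟨O, hO, hc⟩ := exists_fin A x
    have hOs : O ⊆ s := fun y hy => by
      obtain ⟨a, rfl⟩ : y ∈ orbit A x := hO ▸ hy
      exact mem_of_altOn (mem_AltOn'.1 (h.le a.2)).1 hxs
    refine ⟨hxs, O, hO, ?_, hOs⟩
    have h3 := card_orbit_mul h.le h.ab hO
    have h4 := Finset.card_le_card hOs
    have h5 : O.card ≠ 2 := fun h' => by
      have := two_orbit h.le h.ab (hc ▸ h')
      rw [hn, show gP 8 = 18 from rfl] at this; omega
    have h6 : 1 < O.card := Finset.one_lt_card.2 ⟨a x, by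
      rw [← Finset.mem_coe, hO]; exact ⟨⟨a, ha⟩, rfl⟩, x, by
      rw [← Finset.mem_coe, hO]; exact mem_orbit_self x, hx⟩
    have h7 : O.card ≠ 8 := fun h' => by
      rw [Finset.eq_of_subset_of_card_le hOs (by omega), Finset.sdiff_self,
        show A ⊓ AltOn ∅ = ⊥ from eq_bot_iff.2 fun g hg => Perm.ext fun y =>
          (mem_AltOn'.1 hg.2).1 y (by simp), card_bot] at h3
      omega
    have h8 : O.card ∣ 16 := ⟨_, by rw [h3, h16]⟩
    rw [hn] at h4
    generalize O.card = d at *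
    interval_cases d <;> omega
  have mv : ∀ B : Subgroup (Perm α), 1 < Nat.card B → ∃ a ∈ B, ∃ x, a x ≠ x := fun B hB => by
    by_contra hc
    push Not at hc
    rw [show B = ⊥ from eq_bot_iff.2 fun a ha => Perm.ext (hc a ha), card_bot] at hB
    omega
  obtain ⟨a, ha, x, hx⟩ := mv A (by omega)
  obtain ⟨-, O, hO, c4, hOs⟩ := key a ha x hx
  have h3 := card_orbit_mul h.le h.ab hO
  rw [c4, h16] at h3
  obtain ⟨b, hb, y, hy⟩ := mv (A ⊓ AltOn (s \ O)) (by omega)
  obtain ⟨hys, O', hO', c4', hOs'⟩ := key b hb.1 y hy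
  have hyO : y ∉ O := fun h' => hy ((mem_AltOn'.1 hb.2).1 y (by simp [h']))
  have : O' = s \ O := by
    refine Finset.eq_of_subset_of_card_le (fun z hz => Finset.mem_sdiff.2 ⟨hOs' hz, fun hzO => hyO ?_⟩) ?_
    · have e1 : z ∈ orbit A y := hO' ▸ hz
      have e2 : z ∈ orbit A x := hO ▸ hzO
      rw [← Finset.mem_coe, hO, ← orbit_eq_iff.2 e2, orbit_eq_iff.2 e1]
      exact mem_orbit_self y
    · rw [Finset.card_sdiff_of_subset hOs]; omega
  rw [← c4']
  exact h.spl hys hO' (by rw [c4', this]; omega)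

theorem sylow_conj {s : Finset α} {A B : Subgroup (Perm α)} (hA : A ≤ AltOn s) (hB : B ≤ AltOn s) {p k m : ℕ}
    (hp : p.Prime) (cA : Nat.card A = p ^ k) (cB : Nat.card B = p ^ k) (hm : Nat.card (AltOn s) = p ^ k * m)
    (hpm : ¬ p ∣ m) : ∃ P Q : Sylow p (AltOn s), A = (P : Subgroup _).map (AltOn s).subtype ∧
      B = (Q : Subgroup _).map (AltOn s).subtype := by
  haveI := Fact.mk hp
  have key : ∀ A : Subgroup (Perm α), A ≤ AltOn s → Nat.card A = p ^ k →
      ∃ P : Sylow p (AltOn s), A = (P : Subgroup _).map (AltOn s).subtype := fun A hA cA => by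
    refine ⟨Sylow.ofCard (A.subgroupOf _) ?_, (map_subgroupOf_eq_of_le hA).symm⟩
    rw [Nat.card_congr (subgroupOfEquivOfLe hA).toEquiv, cA, hm,
      Nat.factorization_mul (pow_ne_zero _ hp.ne_zero) (by rintro rfl; simp at hpm), Finsupp.add_apply,
      Nat.factorization_eq_zero_of_not_dvd hpm, hp.factorization_pow]
    simp
  obtain ⟨P, hP⟩ := key A hA cA
  obtain ⟨Q, hQ⟩ := key B hB cB
  exact ⟨P, Q, hP, hQ⟩

theorem uniq {O : Finset α} {d : ℕ} (hd : d = 3 ∨ d = 4) (hO : O.card = d) {R R' : Subgroup (Perm α)}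
    (h1 : R ≤ AltOn O) (h2 : R' ≤ AltOn O) (c1 : Nat.card R = d) (c2 : Nat.card R' = d) : R = R' := by
  have := card_altOn (s := O) (by omega)
  rcases hd with rfl | rfl
  · rw [hO] at this; simp [Nat.factorial] at this
    rw [eq_of_le_of_card_ge h1 (by omega), eq_of_le_of_card_ge h2 (by omega)]
  · rw [hO] at this; simp [Nat.factorial] at this
    obtain ⟨P, Q, rfl, rfl⟩ := sylow_conj h1 h2 Nat.prime_two (k := 2) (m := 3) c1 c2 (by omega) (by norm_num)
    haveI := alternatingGroup.subsingleton_two_sylow (α := Fin O.card) (by simp [hO])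
    have hs : Function.Surjective (altOnEquiv O).symm.toMonoidHom := (altOnEquiv O).symm.surjective
    obtain ⟨P, rfl⟩ := Sylow.mapSurjective_surjective hs 2 P
    obtain ⟨Q, rfl⟩ := Sylow.mapSurjective_surjective hs 2 Q
    rw [Subsingleton.elim P Q]

theorem map_altOn {s t : Finset α} {g : Perm α} (h : ∀ x, g x ∈ t ↔ x ∈ s) {A : Subgroup (Perm α)}
    (hA : A ≤ AltOn s) : A.map (MulAut.conj g).toMonoidHom ≤ AltOn t := by
  rintro _ ⟨a, ha, rfl⟩
  refine mem_AltOn'.2 ⟨fun x hx => ?_, ?_⟩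
  · show g (a (g⁻¹ x)) = x
    rw [(mem_AltOn'.1 (hA ha)).1 _ (fun h' => hx (by simpa using (h _).2 h'))]; simp
  · show Perm.sign (g * a * g⁻¹) = 1
    simp [(mem_AltOn'.1 (hA ha)).2]

theorem MaxAb.map {s t : Finset α} {g : Perm α} (h : ∀ x, g x ∈ t ↔ x ∈ s) {A : Subgroup (Perm α)}
    (hA : MaxAb s A) : MaxAb t (A.map (MulAut.conj g).toMonoidHom) := by
  have ab : ∀ (g : Perm α) (A : Subgroup (Perm α)), Ab A → Ab (A.map (MulAut.conj g).toMonoidHom) := by
    rintro g A hA _ ⟨a, ha, rfl⟩ _ ⟨b, hb, rfl⟩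
    rw [← map_mul, ← map_mul, hA a ha b hb]
  refine ⟨map_altOn h hA.le, ab g A hA.ab, fun C hC hab => ?_⟩
  rw [card_map_of_injective (MulAut.conj g).injective, 
    ← card_map_of_injective (f := (MulAut.conj g⁻¹).toMonoidHom) (MulAut.conj g⁻¹).injective]
  exact hA.max _ (map_altOn (fun x => by rw [← h]; simp) hC) (ab _ _ hab)

theorem exists_move {s O O' : Finset α} (h1 : O ⊆ s) (h2 : O' ⊆ s) (hc : O.card = O'.card) (h3 : 2 ≤ O.card) :
    ∃ g ∈ AltOn s, ∀ x, g x ∈ O' ↔ x ∈ O := by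
  obtain ⟨σ, hσ⟩ : ∃ σ : Perm s, ∀ x : s, (σ x).1 ∈ O' ↔ x.1 ∈ O := by
    obtain ⟨e⟩ : Nonempty ({x : s // x.1 ∈ O} ≃ {x : s // x.1 ∈ O'}) := by
      refine Fintype.card_eq.1 ?_
      rw [Fintype.card_congr (Equiv.subtypeSubtypeEquivSubtype (fun h => h1 h)),
        Fintype.card_congr (Equiv.subtypeSubtypeEquivSubtype (fun h => h2 h))]
      simpa using hc
    refine ⟨e.extendSubtype, fun x => ⟨fun h => by_contra fun h' => e.extendSubtype_not_mem x h' h,
      e.extendSubtype_mem x⟩⟩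
  have k1 : ∀ x, Perm.ofSubtype σ x ∈ O' ↔ x ∈ O := fun x => by
    by_cases hx : x ∈ s
    · rw [Perm.ofSubtype_apply_of_mem σ hx]; exact hσ ⟨x, hx⟩
    · rw [Perm.ofSubtype_apply_of_not_mem σ hx]; exact iff_of_false (fun h => hx (h2 h)) fun h => hx (h1 h)
  have k2 : ∀ x, x ∉ s → Perm.ofSubtype σ x = x := fun x hx => Perm.ofSubtype_apply_of_not_mem σ hx
  rcases Int.units_eq_one_or (Perm.sign (Perm.ofSubtype σ)) with h | h
  · exact ⟨_, mem_AltOn'.2 ⟨k2, h⟩, k1⟩
  obtain ⟨u, hu, v, hv, huv⟩ := Finset.one_lt_card.1 h3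
  refine ⟨Perm.ofSubtype σ * swap u v, mem_AltOn'.2 ⟨fun x hx => ?_, by simp [h, huv]⟩, fun x => ?_⟩
  · rw [Perm.mul_apply, swap_apply_of_ne_of_ne (fun h => hx (by rw [h]; exact h1 hu))
      (fun h => hx (by rw [h]; exact h1 hv)), k2 x hx]
  · rw [Perm.mul_apply, k1, swap_apply_def]
    split_ifs with a b <;> simp [*]

theorem conj_main (n : ℕ) : ∀ (s : Finset α) (A B : Subgroup (Perm α)), s.card = n → MaxAb s A → MaxAb s B →
    ∃ g ∈ AltOn s, B = A.map (MulAut.conj g).toMonoidHom := by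
  induction n using Nat.strong_induction_on with
  | _ n ih =>
  intro s A B hs hA hB
  have triv : A = B → ∃ g ∈ AltOn s, B = A.map (MulAut.conj g).toMonoidHom := by
    rintro rfl
    exact ⟨1, one_mem _, by ext; simp⟩
  have step : ∀ d, d = 3 ∨ d = 4 → Spl s A d → Spl s B d →
      ∃ g ∈ AltOn s, B = A.map (MulAut.conj g).toMonoidHom := by
    rintro d hd ⟨O, R, A', a1, a2, a3, a4, a5, rfl⟩ ⟨O', R', B', b1, b2, b3, b4, b5, rfl⟩
    obtain ⟨g, hg, hg'⟩ := exists_move a1 b1 (a2.trans b2.symm) (by omega)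
    have hgs : ∀ x, g x ∈ s ↔ x ∈ s := fun x => ⟨fun h => by_contra fun h' =>
      h' ((mem_AltOn'.1 hg).1 x h' ▸ h), mem_of_altOn (mem_AltOn'.1 hg).1⟩
    have e1 := uniq hd b2 b3 (map_altOn hg' a3) b4 (by rw [card_map_of_injective (MulAut.conj g).injective, a4])
    obtain ⟨h, hh, e2⟩ := ih _ (by
      have := Finset.card_le_card b1
      rw [Finset.card_sdiff_of_subset b1]; omega) (s \ O') _ _ rfl
      (a5.map (g := g) fun x => by simp [hgs, hg']) b5
    refine ⟨h * g, mul_mem (AltOn_mono Finset.sdiff_subset hh) hg, ?_⟩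
    have e3 : (MulAut.conj (h * g)).toMonoidHom =
        (MulAut.conj h).toMonoidHom.comp (MulAut.conj g).toMonoidHom := by ext; simp [mul_assoc]
    rw [e3, ← Subgroup.map_map, Subgroup.map_sup, Subgroup.map_sup, ← e1, ← e2]
    congr 1
    have hc : ∀ r ∈ R', h * r * h⁻¹ = r := fun r hr => by
      rw [commute_of_fix (fun x hx => (mem_AltOn'.1 hh).1 x (by simp [hx])) (b3 hr), mul_inv_cancel_right]
    exact le_antisymm (fun r hr => ⟨r, hr, hc r hr⟩) (by
      rintro _ ⟨r, hr, rfl⟩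
      show h * r * h⁻¹ ∈ R'
      rw [hc r hr]; exact hr)
  by_cases h1 : s.card = 3 ∨ s.card = 6 ∨ s.card = 7 ∨ 9 ≤ s.card
  · exact step 3 (Or.inl rfl) (hA.spl_big h1) (hB.spl_big h1)
  by_cases h2 : s.card = 8
  · exact step 4 (Or.inr rfl) (hA.spl8 h2) (hB.spl8 h2)
  by_cases h3 : s.card = 4
  · have k : ∀ A, MaxAb s A → Nat.card A = 4 := fun A hA => by
      have a1 := hA.ge (h3 ▸ abS_four _)
      have a2 := hA.le_hP
      rw [h3, show hP 4 = 4 from rfl, show gP 4 = 4 from rfl] at a2; omega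
    exact triv (uniq (Or.inr rfl) h3 hA.le hB.le (k A hA) (k B hB))
  by_cases h4 : s.card = 5
  · have k : ∀ A, MaxAb s A → Nat.card A = 5 ^ 1 := fun A hA => by
      have a0 : AbS True 5 5 := abS_cyc (finRotate 5) (fun _ => by decide)
        (orderOf_eq_prime (hp := ⟨by norm_num⟩) (by decide) (by decide))
      have a1 := hA.ge (c := 5) (h4 ▸ a0)
      have a2 := hA.le_hP
      rw [h4, show hP 5 = 5 from rfl, show gP 5 = 6 from rfl] at a2; omega
    have := card_altOn (s := s) (by omega)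
    rw [h4] at this; simp [Nat.factorial] at this
    obtain ⟨P, Q, rfl, rfl⟩ := sylow_conj hA.le hB.le (by norm_num) (m := 12) (k A hA) (k B hB) (by omega)
      (by norm_num)
    haveI : Fact (Nat.Prime 5) := ⟨by norm_num⟩
    obtain ⟨g, rfl⟩ := exists_smul_eq (AltOn s) P Q
    refine ⟨g, g.2, ?_⟩
    rw [Subgroup.map_map]
    exact Subgroup.map_map _ _ (MulAut.conj g).toMonoidHom
  have k : AltOn s = ⊥ := eq_bot_iff.2 fun g hg => by
    by_contra h
    have h5 := Perm.two_le_card_support_of_ne_one h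
    have h7 := Finset.card_le_card (mem_AltOn.1 hg).1
    have := ((Perm.card_support_eq_two (f := g)).1 (by omega)).sign_eq
    rw [(mem_AltOn.1 hg).2] at this
    exact absurd this (by decide)
  exact triv ((eq_bot_iff.2 (k ▸ hA.le)).trans (eq_bot_iff.2 (k ▸ hB.le)).symm)

end Cfsg.Agent.H62.AbAlt
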