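import Mathlib

/-! Number theory for Hall subgroups of symmetric groups: `choose (a+b) b` with `a > b ≥ 2` has a prime
factor at most `a` unless `(a,b) = (4,3)`. -/

namespace Cfsg.Agent.H62.HallNT

open Finset Nat

/-- product of an arithmetic progression of difference two -/
def P (c k : ℕ) : ℕ := ∏ i ∈ range k, (c + 2 * i)

theorem P_succ (c k : ℕ) : P c (k + 1) = P c k * (c + 2 * k) := prod_range_succ _ _

theorem asc_even (c k : ℕ) : c.ascFactorial (2 * k) = P c k * P (c + 1) k := by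
  induction k with
  | zero => simp [P]
  | succ k ih =>
    rw [show 2 * (k + 1) = 2 * k + 1 + 1 by ring, ascFactorial_succ, ascFactorial_succ, ih, P_succ, P_succ]
    ring

theorem asc_odd (c k : ℕ) : c.ascFactorial (2 * k + 1) = P c (k + 1) * P (c + 1) k := by
  rw [ascFactorial_succ, asc_even, P_succ]
  ring

theorem P_even (h k : ℕ) : P (2 * h) k = 2 ^ k * h.ascFactorial k := by
  induction k with
  | zero => simp [P]
  | succ k ih => rw [P_succ, ih, ascFactorial_succ]; ring

theorem dvd_P {o k w : ℕ} (ho : Odd o) (hw : Odd w) (hk : w ∣ k !) : w ∣ P o k := by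
  obtain ⟨z, hz⟩ : Even (o + w) := ho.add_odd hw
  have h1 : P (o + w) k ≡ P o k [MOD w] := by
    unfold P
    refine Nat.ModEq.prod fun i _ => ?_
    exact (Nat.ModEq.add_right _ (by simp [Nat.ModEq]))
  have h2 : w ∣ P (o + w) k := by
    rw [hz, ← two_mul, P_even]
    exact Dvd.dvd.mul_left (hk.trans (factorial_dvd_ascFactorial z k)) _
  exact (Nat.modEq_zero_iff_dvd.1 (h1.symm.trans (Nat.modEq_zero_iff_dvd.2 h2)))

theorem prime_le_of_dvd_asc {p h k : ℕ} (hp : p.Prime) (hd : p ∣ (h + 1).ascFactorial k) : p ≤ h + k := by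
  have : p ∣ (h + k)! := by
    rw [← factorial_mul_ascFactorial]
    exact hd.mul_left _
  exact (hp.dvd_factorial).1 this

theorem asc_mono {h h' : ℕ} (hh : h ≤ h') (k : ℕ) : h.ascFactorial k ≤ h'.ascFactorial k := by
  induction k with
  | zero => simp
  | succ k ih => rw [ascFactorial_succ, ascFactorial_succ]; exact Nat.mul_le_mul (by omega) ih

theorem asc_strict {h h' : ℕ} (hh : h < h') (k : ℕ) :
    (h + 1).ascFactorial (k + 1) < (h' + 1).ascFactorial (k + 1) := by
  rw [ascFactorial_succ, ascFactorial_succ]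
  exact Nat.mul_lt_mul_of_lt_of_le (by omega) (asc_mono (by omega) k) (ascFactorial_pos _ _)

theorem core {B a o h k k' : ℕ} (hB : ∀ p : ℕ, p.Prime → p ≤ a → ¬ p ∣ B) (ha : 2 ≤ a) (ho : Odd o)
    (hk : k ≠ 0) (hka : k ≤ a) (hh : h + k' ≤ a)
    (e : (k + k')! * B = P o k * (2 ^ k' * (h + 1).ascFactorial k')) :
    2 * (2 ^ k' * (h + 1).ascFactorial k') ≤ 2 ^ k * (k + 1).ascFactorial k' := by
  set E := 2 ^ k' * (h + 1).ascFactorial k' with hE
  obtain ⟨f, w, hw, hf⟩ := Nat.exists_eq_two_pow_mul_odd (factorial_ne_zero k)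
  have hfk : f < k := by
    by_contra hc
    have h1 : 2 ^ k ∣ k ! := hf ▸ (pow_dvd_pow 2 (by omega)).mul_right w
    have h2 := Nat.emultiplicity_two_factorial_lt hk
    exact absurd (pow_dvd_iff_le_emultiplicity.1 h1) (not_le.2 h2)
  have hBE : B.Coprime E := by
    refine Nat.Coprime.symm (Nat.coprime_of_dvd fun p hp hd => hB p hp ?_)
    rcases (Nat.Prime.dvd_mul hp).1 hd with h1 | h1
    · exact ((Nat.prime_dvd_prime_iff_eq hp Nat.prime_two).1 (hp.dvd_of_dvd_pow h1)) ▸ ha
    · exact (prime_le_of_dvd_asc hp h1).trans hh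
  have hwk : w ∣ k ! := hf ▸ Dvd.intro_left _ rfl
  have hBw : B.Coprime w := by
    refine Nat.Coprime.symm (Nat.coprime_of_dvd fun p hp hd => hB p hp ?_)
    exact ((hp.dvd_factorial).1 (hd.trans hwk)).trans hka
  have h1 : B ∣ P o k := hBE.dvd_of_dvd_mul_right (e ▸ Dvd.intro_left _ rfl)
  have h2 : B * w ∣ P o k := hBw.mul_dvd_of_dvd_of_dvd h1 (dvd_P ho hw hwk)
  have hP : 0 < P o k := prod_pos fun i _ => by have := ho.pos; omega
  have h3 : B * w ≤ P o k := Nat.le_of_dvd hP h2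
  have hB0 : 0 < B := Nat.pos_of_ne_zero fun h0 => hB 2 Nat.prime_two ha (h0 ▸ dvd_zero 2)
  have h4 : w * E ≤ (k + k')! := by
    refine Nat.le_of_mul_le_mul_left ?_ hB0
    calc B * (w * E) = B * w * E := by ring
      _ ≤ P o k * E := Nat.mul_le_mul_right _ h3
      _ = B * (k + k')! := by rw [← e]; ring
  rw [← factorial_mul_ascFactorial, hf] at h4
  have h5 : E ≤ 2 ^ f * (k + 1).ascFactorial k' := by
    refine Nat.le_of_mul_le_mul_left ?_ hw.pos
    calc w * E ≤ _ := h4
      _ = _ := by ring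
  have h6 : 2 * 2 ^ f ≤ 2 ^ k := by
    rw [← _root_.pow_succ']
    exact Nat.pow_le_pow_right (by norm_num) hfk
  calc 2 * E ≤ 2 * (2 ^ f * (k + 1).ascFactorial k') := Nat.mul_le_mul_left _ h5
    _ = 2 * 2 ^ f * (k + 1).ascFactorial k' := by ring
    _ ≤ _ := Nat.mul_le_mul_right _ h6

theorem last {j : ℕ} (hj : 1 ≤ j)
    (hB : ∀ p : ℕ, p.Prime → p ≤ 2 * (j + 1) → ¬ p ∣ (2 * (j + 1) + (2 * j + 1)).choose (2 * j + 1)) :
    j = 1 := by
  set N := 2 * (j + 1) + (2 * j + 1) with hN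
  set B := N.choose (2 * j + 1) with hBd
  have e0 : N.choose (2 * j + 2) = B := by
    rw [hBd]; exact Nat.choose_symm_of_eq_add (by omega)
  have e1 := Nat.choose_succ_right_eq N (2 * j + 2)
  have e2 := Nat.choose_succ_right_eq N (2 * j + 2 + 1)
  rw [e0, show N - (2 * j + 2) = 2 * j + 1 by omega] at e1
  rw [show N - (2 * j + 2 + 1) = 2 * j by omega] at e2
  have hc : (j + 2).Coprime B :=
    Nat.coprime_of_dvd fun p hp hd => hB p hp ((Nat.le_of_dvd (by omega) hd).trans (by omega))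
  have h1 : j + 2 ∣ B * ((2 * j + 1) * j) := by
    refine ⟨N.choose (2 * j + 2 + 1 + 1) * (2 * j + 2 + 1), ?_⟩
    have : 2 * (B * ((2 * j + 1) * j)) = 2 * ((j + 2) * (N.choose (2 * j + 2 + 1 + 1) * (2 * j + 2 + 1))) := by
      calc 2 * (B * ((2 * j + 1) * j)) = B * (2 * j + 1) * (2 * j) := by ring
        _ = N.choose (2 * j + 2 + 1) * (2 * j) * (2 * j + 2 + 1) := by rw [← e1]; ring
        _ = _ := by rw [← e2]; ring
    omega
  have h2 : j + 2 ∣ (2 * j + 1) * j := hc.dvd_of_dvd_mul_left h1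
  have h3 : j + 2 ∣ 6 := by
    obtain ⟨i, rfl⟩ : ∃ i, j = i + 1 := ⟨j - 1, by omega⟩
    have : (2 * (i + 1) + 1) * (i + 1) + (i + 1 + 2) = (i + 1 + 2) * (2 * i) + 6 := by ring
    exact (Nat.dvd_add_right (Dvd.intro _ rfl)).1 (this ▸ (h2.add dvd_rfl))
  have h4 : j + 2 ≤ 6 := Nat.le_of_dvd (by norm_num) h3
  have h5 : j ≤ 4 := by omega
  interval_cases j
  · rfl
  · omega
  · omega
  · exact absurd (by norm_num [hBd, hN, Nat.choose]) (hB 2 Nat.prime_two (by norm_num))

theorem nt {a b : ℕ} (hab : b < a) (hb : 2 ≤ b)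
    (hB : ∀ p : ℕ, p.Prime → p ≤ a → ¬ p ∣ (a + b).choose b) : a = 4 ∧ b = 3 := by
  have e := ascFactorial_eq_factorial_mul_choose a b
  obtain ⟨h, rfl | rfl⟩ := Nat.even_or_odd' a <;> obtain ⟨j, rfl | rfl⟩ := Nat.even_or_odd' b
  · exfalso
    rw [asc_even, show 2 * h + 1 + 1 = 2 * (h + 1) by ring, P_even] at e
    have := core (o := 2 * h + 1) (h := h) (k := j) (k' := j) hB (by omega) (by simp) (by omega) (by omega)
      (by omega) (by rw [← two_mul, e])
    have h2 := asc_mono (show j + 1 ≤ h + 1 by omega) j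
    have h3 : 0 < 2 ^ j * (h + 1).ascFactorial j := Nat.mul_pos (by positivity) (ascFactorial_pos _ _)
    have h4 := Nat.mul_le_mul_left (2 ^ j) h2
    omega
  · rw [asc_odd, show 2 * h + 1 + 1 = 2 * (h + 1) by ring, P_even] at e
    have := core (o := 2 * h + 1) (h := h) (k := j + 1) (k' := j) hB (by omega) (by simp) (by omega) (by omega)
      (by omega) (by rw [show j + 1 + j = 2 * j + 1 by ring, e])
    obtain rfl : h = j + 1 := by
      by_contra hc
      obtain ⟨i, rfl⟩ : ∃ i, j = i + 1 := ⟨j - 1, by omega⟩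
      have h2 := asc_strict (show i + 1 + 1 < h by omega) i
      have h3 := Nat.mul_lt_mul_of_pos_left h2 (show 0 < 2 ^ (i + 1 + 1) by positivity)
      rw [← mul_assoc, ← _root_.pow_succ'] at this
      omega
    have := last (j := j) (by omega) hB
    omega
  · exfalso
    rw [asc_even, show 2 * h + 1 + 1 = 2 * (h + 1) by ring, P_even] at e
    have := core (o := 2 * (h + 1) + 1) (h := h) (k := j) (k' := j) hB (by omega) (by simp) (by omega) (by omega)
      (by omega) (by rw [mul_comm (P _ _), ← two_mul, e])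
    have h2 := asc_mono (show j + 1 ≤ h + 1 by omega) j
    have h3 : 0 < 2 ^ j * (h + 1).ascFactorial j := Nat.mul_pos (by positivity) (ascFactorial_pos _ _)
    have h4 := Nat.mul_le_mul_left (2 ^ j) h2
    omega
  · exfalso
    rw [asc_odd, show 2 * h + 1 + 1 = 2 * (h + 1) by ring, P_even] at e
    have := core (o := 2 * (h + 1) + 1) (h := h) (k := j) (k' := j + 1) hB (by omega) (by simp) (by omega)
      (by omega) (by omega) (by rw [mul_comm (P _ _), show j + (j + 1) = 2 * j + 1 by ring, e])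
    have h2 := asc_mono (show j + 1 ≤ h + 1 by omega) (j + 1)
    have h3 : 0 < 2 ^ j * (h + 1).ascFactorial (j + 1) := Nat.mul_pos (by positivity) (ascFactorial_pos _ _)
    have h4 := Nat.mul_le_mul_left (2 ^ j) h2
    rw [_root_.pow_succ, mul_right_comm] at this
    omega

end Cfsg.Agent.H62.HallNT
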