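import Mathlib
import Cfsg.Agent.H92.SylIn

/-! Hall subgroups of symmetric and alternating groups, part 1: two primes force `2` and `3`. -/

namespace Cfsg.Agent.H62.HallSym

open Equiv Equiv.Perm Subgroup MulAction

variable {α : Type*} [Fintype α] [DecidableEq α]

/-- `c` is a cycle of length `p` -/
def PC (p : ℕ) (c : Perm α) : Prop := c.IsCycle ∧ c.support.card = p

omit [Fintype α] [DecidableEq α] in
theorem pow_inv_set {c : Perm α} {X : Finset α} (hX : ∀ x ∈ X, c x ∈ X) (j : ℕ) : ∀ x ∈ X, (c ^ j) x ∈ X := by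
  induction j with
  | zero => simp
  | succ j ih => intro x hx; rw [pow_succ', Perm.mul_apply]; exact hX _ (ih x hx)

theorem supp_sub {c : Perm α} (hc : c.IsCycle) {X : Finset α} (hX : ∀ x ∈ X, c x ∈ X) {x : α} (hx : x ∈ X)
    (h : c x ≠ x) : c.support ⊆ X := by
  intro y hy
  obtain ⟨i, rfl⟩ := hc.exists_pow_eq h (mem_support.1 hy)
  exact pow_inv_set hX i x hx

theorem fix_of_small {p : ℕ} {c : Perm α} (hc : PC p c) {X : Finset α} (hX : ∀ x ∈ X, c x ∈ X)
    (hlt : X.card < p) : ∀ x ∈ X, c x = x := by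
  intro x hx
  by_contra h
  have := Finset.card_le_card (supp_sub hc.1 hX hx h)
  rw [hc.2] at this
  omega

theorem inv_of_pow {p : ℕ} (hp : p.Prime) {c : Perm α} (hc : PC p c) {X : Finset α} {i : ℕ} (hi : c ^ i ≠ 1)
    (hX : ∀ x ∈ X, (c ^ i) x ∈ X) : ∀ x ∈ X, c x ∈ X := by
  have ho : orderOf c = p := hc.1.orderOf.trans hc.2
  have hco : i.Coprime (orderOf c) := by
    rw [ho, Nat.coprime_comm, hp.coprime_iff_not_dvd, ← ho, orderOf_dvd_iff_pow_eq_one]
    exact hi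
  obtain ⟨m, hm⟩ := exists_pow_eq_self_of_coprime hco
  rw [← hm]
  exact pow_inv_set hX m

theorem block {p : ℕ} (hp : p.Prime) {c : Perm α} (hc : PC p c) {X : Finset α} (h2 : 2 ≤ X.card)
    (hX : ∀ i : ℕ, (∃ x ∈ X, (c ^ i) x ∈ X) → ∀ x ∈ X, (c ^ i) x ∈ X) : ∀ x ∈ X, c x ∈ X := by
  obtain ⟨a, ha, b, hb, hab⟩ := Finset.one_lt_card.1 h2
  by_cases h1 : c a = a
  · simpa using hX 1 ⟨a, ha, by simpa [h1] using ha⟩
  by_cases h3 : c b = b
  · simpa using hX 1 ⟨b, hb, by simpa [h3] using hb⟩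
  obtain ⟨i, hi⟩ := hc.1.exists_pow_eq h1 h3
  refine inv_of_pow hp hc (i := i) (fun h => hab ?_) (hX i ⟨a, ha, hi ▸ hb⟩)
  rw [← hi, h]; rfl

theorem PC.conj {p : ℕ} {c : Perm α} (hc : PC p c) (g : Perm α) : PC p (g * c * g⁻¹) :=
  ⟨hc.1.conj, card_support_conj.trans hc.2⟩

omit [Fintype α] [DecidableEq α] in
theorem mem_of_fix {s : Finset α} {g : Perm α} (hg : ∀ x, x ∉ s → g x = x) {x : α} (hx : x ∈ s) : g x ∈ s := by
  by_contra h
  have := g.injective (hg _ h)
  exact h (this.symm ▸ hx)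

omit [DecidableEq α] in
theorem orbit_dvd {M : Subgroup (Perm α)} {U : Finset α} {x : α} (hx : x ∈ U)
    (h : ∀ y ∈ U, ∃ g ∈ M, (∀ z ∈ U, g z ∈ U) ∧ g x = y) : U.card ∣ Nat.card M := by
  classical
  let S : Subgroup (Perm α) :=
    { carrier := {g | ∀ z ∈ U, g z ∈ U}
      one_mem' := fun z hz => hz
      mul_mem' := fun ha hb z hz => ha _ (hb z hz)
      inv_mem' := by
        intro g hg z hz
        have : g⁻¹ = g ^ (orderOf g - 1) := by
          rw [inv_eq_iff_mul_eq_one, ← pow_succ', Nat.sub_add_cancel (orderOf_pos g), pow_orderOf_eq_one]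
        rw [this]
        exact pow_inv_set hg _ z hz }
  have h1 : orbit ↥(M ⊓ S) x = (U : Set α) := by
    ext y
    constructor
    · rintro ⟨g, rfl⟩
      exact g.2.2 x hx
    · intro hy
      obtain ⟨g, hg, h1, h2⟩ := h y hy
      exact ⟨⟨g, hg, h1⟩, h2⟩
  have h2 := index_stabilizer (↥(M ⊓ S)) x
  rw [h1, Set.ncard_coe_finset] at h2
  exact (h2 ▸ index_dvd_card _).trans (card_dvd_of_le inf_le_left)

theorem exists_conj {p : ℕ} [hp : Fact p.Prime] {M Q : Subgroup (Perm α)}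
    (hi : ¬ p ∣ M.relIndex (alternatingGroup α)) (hQ : IsPGroup p Q) (hA : Q ≤ alternatingGroup α) :
    ∃ g : Perm α, ∀ x ∈ Q, g * x * g⁻¹ ∈ M := by
  obtain ⟨R, hR⟩ := H92.exists_sylIn p (M ⊓ alternatingGroup α)
  have h1 := relIndex_mul_relIndex R _ _ hR.1 (inf_le_right : M ⊓ alternatingGroup α ≤ _)
  rw [inf_relIndex_right] at h1
  have h2 : H92.SylIn p R (alternatingGroup α) := by
    refine H92.sylIn_of_not_dvd_relIndex (hR.1.trans inf_le_right) hR.2 fun h => ?_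
    rw [← h1] at h
    rcases (Nat.Prime.dvd_mul hp.out).1 h with h | h
    · exact hR.not_dvd_relIndex h
    · exact hi h
  obtain ⟨g, -, hg⟩ := h2.exists_conj hA hQ
  exact ⟨g, fun x hx => (hR.1 (hg x hx)).1⟩

omit [Fintype α] [DecidableEq α] in
theorem via_conj {β : Type*} (e : β ↪ α) (g : Perm α) (σ : Perm β) :
    σ.viaEmbedding (e.trans g.toEmbedding) = g * σ.viaEmbedding e * g⁻¹ := by
  ext x
  by_cases hx : x ∈ Set.range (e.trans g.toEmbedding)
  · obtain ⟨y, rfl⟩ := hx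
    rw [viaEmbedding_apply]
    simp [viaEmbedding_apply]
  · rw [viaEmbedding_apply_of_notMem _ _ _ hx, Perm.mul_apply, Perm.mul_apply, viaEmbedding_apply_of_notMem]
    · simp
    · rintro ⟨y, hy⟩
      exact hx ⟨y, by simp [hy]⟩

omit [Fintype α] in
theorem via_swap {β : Type*} [DecidableEq β] (e : β ↪ α) (a b : β) :
    (swap a b).viaEmbedding e = swap (e a) (e b) := by
  ext x
  by_cases hx : x ∈ Set.range e
  · obtain ⟨y, rfl⟩ := hx
    rw [viaEmbedding_apply, e.injective.swap_apply]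
  · rw [viaEmbedding_apply_of_notMem _ _ _ hx, swap_apply_of_ne_of_ne]
    · rintro rfl; exact hx ⟨a, rfl⟩
    · rintro rfl; exact hx ⟨b, rfl⟩

theorem fam {β : Type} [Fintype β] [DecidableEq β] [Nonempty β] {p : ℕ} [hp : Fact p.Prime]
    (E : Subgroup (Perm β)) (hE : IsPGroup p E) (hA : ∀ σ ∈ E, sign σ = 1) {M : Subgroup (Perm α)}
    (hi : ¬ p ∣ M.relIndex (alternatingGroup α)) :
    ∃ F : Finset α, F.card < Fintype.card β ∧
      ∀ x ∉ F, ∃ e : β ↪ α, x ∈ Set.range e ∧ ∀ σ ∈ E, σ.viaEmbedding e ∈ M := by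
  classical
  set k := Fintype.card α / Fintype.card β with hk
  obtain ⟨e0⟩ : Nonempty (Fin k × β ↪ α) := by
    refine Function.Embedding.nonempty_of_card_le ?_
    rw [Fintype.card_prod, Fintype.card_fin]
    exact Nat.div_mul_le_self _ _
  let e : Fin k → β ↪ α := fun i => (Function.Embedding.sectR i β).trans e0
  let H : Fin k → Subgroup (Perm α) := fun i => E.map (viaEmbeddingHom (e i))
  have hcomm : Pairwise fun i j => ∀ x y : Perm α, x ∈ H i → y ∈ H j → Commute x y := by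
    rintro i j hij _ _ ⟨σ, -, rfl⟩ ⟨τ, -, rfl⟩
    refine Perm.Disjoint.commute fun x => ?_
    by_cases hx : x ∈ Set.range (e i)
    · right
      refine viaEmbedding_apply_of_notMem _ _ _ ?_
      obtain ⟨y, rfl⟩ := hx
      rintro ⟨z, hz⟩
      exact hij (congrArg Prod.fst (e0.injective hz)).symm
    · exact Or.inl (viaEmbedding_apply_of_notMem _ _ _ hx)
  have hP : IsPGroup p (∀ i, H i) := by
    intro g
    choose f hf using fun i => hE.map (viaEmbeddingHom (e i)) (g i)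
    refine ⟨∑ i, f i, funext fun i => ?_⟩
    obtain ⟨t, ht⟩ := pow_dvd_pow p (Finset.single_le_sum (f := f) (fun _ _ => Nat.zero_le _) (Finset.mem_univ i))
    rw [Pi.pow_apply, ht, pow_mul, hf, one_pow]; rfl
  have hQ : IsPGroup p ↥(⨆ i, H i) := by
    rw [← Subgroup.noncommPiCoprod_range (hcomm := hcomm), MonoidHom.range_eq_map]
    exact (hP.to_subgroup ⊤).map _
  have hQA : (⨆ i, H i) ≤ alternatingGroup α := by
    refine iSup_le ?_
    rintro i _ ⟨σ, hσ, rfl⟩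
    rw [mem_alternatingGroup, viaEmbeddingHom_apply, viaEmbedding, sign_extendDomain]
    exact hA σ hσ
  obtain ⟨g, hg⟩ := exists_conj hi hQ hQA
  refine ⟨(Finset.univ.map (e0.trans g.toEmbedding))ᶜ, ?_, fun x hx => ?_⟩
  · rw [Finset.card_compl, Finset.card_map, Finset.card_univ, Fintype.card_prod, Fintype.card_fin]
    have h1 := Nat.div_add_mod (Fintype.card α) (Fintype.card β)
    have h2 := Nat.mod_lt (Fintype.card α) (Fintype.card_pos (α := β))
    rw [← hk, mul_comm] at h1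
    omega
  · rw [Finset.mem_compl, not_not, Finset.mem_map] at hx
    obtain ⟨⟨i, y⟩, -, rfl⟩ := hx
    refine ⟨(e i).trans g.toEmbedding, ⟨y, rfl⟩, fun σ hσ => ?_⟩
    rw [via_conj]
    exact hg _ (mem_iSup_of_mem i ⟨σ, hσ, rfl⟩)

/-- all but fewer than `p` points are moved by a `p`-cycle of `M` -/
def Cov (p : ℕ) (M : Subgroup (Perm α)) : Prop :=
  ∃ F : Finset α, F.card < p ∧ ∀ x ∉ F, ∃ c ∈ M, PC p c ∧ c x ≠ x

theorem cov {p : ℕ} (hp : p.Prime) (h2 : p ≠ 2) {M : Subgroup (Perm α)}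
    (hi : ¬ p ∣ M.relIndex (alternatingGroup α)) : Cov p M := by
  classical
  haveI := Fact.mk hp
  obtain ⟨m, rfl⟩ : ∃ m, p = m + 2 := ⟨p - 2, by have := hp.two_le; omega⟩
  have hc : (finRotate (m + 2)).IsCycle := isCycle_finRotate
  have hs : (finRotate (m + 2)).support = Finset.univ := support_finRotate
  have hcard : (finRotate (m + 2)).support.card = m + 2 := by rw [hs]; simp
  obtain ⟨F, hF, h⟩ := fam (p := m + 2) (zpowers (finRotate (m + 2)))
    (IsPGroup.of_card (n := 1) (by rw [Nat.card_zpowers, hc.orderOf, hcard, pow_one])) (by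
      rintro _ ⟨j, rfl⟩
      have : sign (finRotate (m + 2)) = 1 := by
        rw [hc.sign, hcard, (hp.odd_of_ne_two h2).neg_one_pow, neg_neg]
      simp [this]) hi
  refine ⟨F, by simpa using hF, fun x hx => ?_⟩
  obtain ⟨e, ⟨y, rfl⟩, he⟩ := h x hx
  refine ⟨_, he _ (mem_zpowers _), ⟨@IsCycle.extendDomain _ _ _ _ (_) _ hc, ?_⟩, ?_⟩
  · exact (@card_support_extend_domain _ _ _ _ _ _ _ (_) _ _).trans hcard
  · rw [viaEmbedding_apply]
    exact fun h => mem_support.1 (hs ▸ Finset.mem_univ y) (e.injective h)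

theorem Cov.exists {p : ℕ} {M : Subgroup (Perm α)} (h : Cov p M) (hp : p ≤ Fintype.card α) :
    ∃ c ∈ M, PC p c := by
  obtain ⟨F, hF, h⟩ := h
  obtain ⟨x, -, hx⟩ := Finset.exists_mem_notMem_of_card_lt_card (s := F) (t := Finset.univ) (by simp; omega)
  obtain ⟨c, hc, h1, -⟩ := h x hx
  exact ⟨c, hc, h1⟩

/-- `M` contains the Klein four group on the `4`-set `X` -/
def V (M : Subgroup (Perm α)) (X : Finset α) : Prop :=
  X.card = 4 ∧ ∀ a ∈ X, ∀ b ∈ X, ∀ c ∈ X, ∀ d ∈ X, a ≠ b → a ≠ c → a ≠ d → b ≠ c → b ≠ d → c ≠ d →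
    swap a b * swap c d ∈ M

/-- the Klein four group -/
def K4 : Subgroup (Perm (Fin 4)) where
  carrier := {σ | σ * σ = 1 ∧ sign σ = 1}
  one_mem' := by simp
  mul_mem' := by
    have : ∀ σ τ : Perm (Fin 4), σ * σ = 1 ∧ sign σ = 1 → τ * τ = 1 ∧ sign τ = 1 →
      (σ * τ) * (σ * τ) = 1 := by decide +kernel
    intro a b ha hb
    exact ⟨this a b ha hb, by rw [map_mul, ha.2, hb.2, mul_one]⟩
  inv_mem' := by
    intro a ha
    rw [inv_eq_of_mul_eq_one_right ha.1]
    exact ha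

theorem cov4 {M : Subgroup (Perm α)} (hi : ¬ 2 ∣ M.relIndex (alternatingGroup α)) :
    ∃ F : Finset α, F.card < 4 ∧ ∀ x ∉ F, ∃ X, V M X ∧ x ∈ X := by
  obtain ⟨F, hF, h⟩ := fam (p := 2) K4 (fun g => ⟨1, Subtype.ext (by simpa [pow_two] using g.2.1)⟩)
    (fun σ hσ => hσ.2) hi
  refine ⟨F, by simpa using hF, fun x hx => ?_⟩
  obtain ⟨e, ⟨y, rfl⟩, he⟩ := h x hx
  refine ⟨Finset.univ.map e, ⟨by simp, ?_⟩, by simp⟩
  simp only [Finset.mem_map, Finset.mem_univ, true_and]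
  rintro _ ⟨a, rfl⟩ _ ⟨b, rfl⟩ _ ⟨c, rfl⟩ _ ⟨d, rfl⟩ h1 h2 h3 h4 h5 h6
  have key : ∀ a b c d : Fin 4, a ≠ c ∧ a ≠ d ∧ b ≠ c ∧ b ≠ d →
      (swap a b * swap c d) * (swap a b * swap c d) = 1 := by decide +kernel
  have := he (swap a b * swap c d) ⟨key a b c d ⟨e.injective.ne_iff.1 h2,
    e.injective.ne_iff.1 h3, e.injective.ne_iff.1 h4, e.injective.ne_iff.1 h5⟩, by
      rw [map_mul, sign_swap (e.injective.ne_iff.1 h1), sign_swap (e.injective.ne_iff.1 h6)]; simp⟩
  rwa [← viaEmbeddingHom_apply, map_mul, viaEmbeddingHom_apply, viaEmbeddingHom_apply, via_swap, via_swap] at this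

omit [Fintype α] in
theorem V.conj {M : Subgroup (Perm α)} {X : Finset α} (h : V M X) {g : Perm α} (hg : g ∈ M) :
    V M (X.map g.toEmbedding) := by
  refine ⟨by simpa using h.1, ?_⟩
  simp only [Finset.mem_map, Equiv.coe_toEmbedding]
  rintro _ ⟨a, ha, rfl⟩ _ ⟨b, hb, rfl⟩ _ ⟨c, hc, rfl⟩ _ ⟨d, hd, rfl⟩ h1 h2 h3 h4 h5 h6
  have := h.2 a ha b hb c hc d hd (g.injective.ne_iff.1 h1) (g.injective.ne_iff.1 h2)
    (g.injective.ne_iff.1 h3) (g.injective.ne_iff.1 h4) (g.injective.ne_iff.1 h5) (g.injective.ne_iff.1 h6)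
  rw [swap_apply_apply, swap_apply_apply]
  convert M.mul_mem (M.mul_mem hg this) (M.inv_mem hg) using 1
  group

omit [Fintype α] in
theorem V.trans {M : Subgroup (Perm α)} {X : Finset α} (h : V M X) {x y : α} (hx : x ∈ X) (hy : y ∈ X) :
    ∃ g ∈ M, (∀ z ∉ X, g z = z) ∧ g x = y := by
  by_cases hxy : x = y
  · exact ⟨1, M.one_mem, fun _ _ => rfl, hxy⟩
  have h2 : ((X.erase x).erase y).card = 2 := by
    rw [Finset.card_erase_of_mem (Finset.mem_erase.2 ⟨Ne.symm hxy, hy⟩), Finset.card_erase_of_mem hx, h.1]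
  obtain ⟨c, d, hcd, e⟩ := Finset.card_eq_two.1 h2
  have hc : c ∈ (X.erase x).erase y := by simp [e]
  have hd : d ∈ (X.erase x).erase y := by simp [e]
  simp only [Finset.mem_erase] at hc hd
  refine ⟨_, h.2 x hx y hy c hc.2.2 d hd.2.2 hxy hc.2.1.symm hd.2.1.symm hc.1.symm hd.1.symm hcd, fun z hz => ?_, ?_⟩
  · rw [Perm.mul_apply, swap_apply_of_ne_of_ne (a := c), swap_apply_of_ne_of_ne] <;> rintro rfl <;> tauto
  · rw [Perm.mul_apply, swap_apply_of_ne_of_ne (a := c) hc.2.1.symm hd.2.1.symm, swap_apply_left]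

theorem V.three {M : Subgroup (Perm α)} {X Y : Finset α} (hX : V M X) (hY : V M Y) (h : (X ∩ Y).card = 3) :
    3 ∣ Nat.card M := by
  obtain ⟨d, hd, hd'⟩ := Finset.exists_mem_notMem_of_card_lt_card (s := X ∩ Y) (t := X) (by rw [h, hX.1]; omega)
  obtain ⟨e, he, he'⟩ := Finset.exists_mem_notMem_of_card_lt_card (s := X ∩ Y) (t := Y) (by rw [h, hY.1]; omega)
  obtain ⟨a, b, c, hab, hac, hbc, E⟩ := Finset.card_eq_three.1 h
  have ha : a ∈ X ∩ Y := by simp [E]
  have hb : b ∈ X ∩ Y := by simp [E]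
  have hc : c ∈ X ∩ Y := by simp [E]
  have hde : d ≠ e := by rintro rfl; exact hd' (Finset.mem_inter.2 ⟨hd, he⟩)
  have hcd : c ≠ d := by rintro rfl; exact hd' hc
  have hce : c ≠ e := by rintro rfl; exact he' hc
  have h1 := hX.2 a (Finset.mem_inter.1 ha).1 b (Finset.mem_inter.1 hb).1 c (Finset.mem_inter.1 hc).1 d hd hab hac
    (by rintro rfl; exact hd' ha) hbc (by rintro rfl; exact hd' hb) hcd
  have h2 := hY.2 a (Finset.mem_inter.1 ha).2 b (Finset.mem_inter.1 hb).2 c (Finset.mem_inter.1 hc).2 e he hab hac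
    (by rintro rfl; exact he' ha) hbc (by rintro rfl; exact he' hb) hce
  have h3 := M.mul_mem (M.inv_mem h1) h2
  rw [mul_inv_rev, swap_inv, swap_inv, mul_assoc, swap_mul_self_mul] at h3
  have h4 := (isThreeCycle_swap_mul_swap_same hcd hce hde).orderOf
  exact h4 ▸ M.orderOf_dvd_natCard h3

theorem V.meet {M : Subgroup (Perm α)} {X Y : Finset α} (hX : V M X) (hY : V M Y) (h3 : ¬ 3 ∣ Nat.card M)
    {x : α} (hx : x ∈ X) (hy : x ∈ Y) : X = Y := by
  have h0 : 0 < (X ∩ Y).card := Finset.card_pos.2 ⟨x, Finset.mem_inter.2 ⟨hx, hy⟩⟩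
  have h4 : (X ∩ Y).card ≤ 4 := hX.1 ▸ Finset.card_le_card Finset.inter_subset_left
  have : (X ∩ Y).card = 1 ∨ (X ∩ Y).card = 2 ∨ (X ∩ Y).card = 3 ∨ (X ∩ Y).card = 4 := by omega
  rcases this with h | h | h | h
  · exfalso
    obtain ⟨b, hb, hb'⟩ := Finset.exists_mem_notMem_of_card_lt_card (s := X ∩ Y) (t := X) (by rw [h, hX.1]; omega)
    obtain ⟨g, hg, g1, g2⟩ := hX.trans hx hb
    refine h3 ((hY.conj hg).three hY ?_)
    have hu : ∀ z ∈ Y, z ∈ X → z = x := fun z h1 h2 =>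
      Finset.card_le_one.1 h.le z (Finset.mem_inter.2 ⟨h2, h1⟩) x (Finset.mem_inter.2 ⟨hx, hy⟩)
    have : Y.map g.toEmbedding ∩ Y = Y.erase x := by
      ext z
      simp only [Finset.mem_inter, Finset.mem_map, Equiv.coe_toEmbedding, Finset.mem_erase]
      constructor
      · rintro ⟨⟨w, hw, rfl⟩, h2⟩
        refine ⟨fun h5 => ?_, h2⟩
        by_cases hwX : w ∈ X
        · rw [hu w hw hwX, g2] at h2
          exact hb' (Finset.mem_inter.2 ⟨hb, h2⟩)
        · rw [g1 w hwX] at h5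
          exact hwX (h5 ▸ hx)
      · rintro ⟨h1, h2⟩
        exact ⟨⟨z, h2, g1 z fun h5 => h1 (hu z h2 h5)⟩, h2⟩
    rw [this, Finset.card_erase_of_mem hy, hY.1]
  · exfalso
    have h6 : (X ∪ Y).card = 6 := by
      have := Finset.card_union_add_card_inter X Y
      rw [hX.1, hY.1] at this; omega
    refine h3 ((show 3 ∣ (X ∪ Y).card by rw [h6]; norm_num).trans
      (orbit_dvd (Finset.mem_union_left _ hx) fun y hy' => ?_))
    rcases Finset.mem_union.1 hy' with h7 | h7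
    · obtain ⟨g, hg, g1, g2⟩ := hX.trans hx h7
      exact ⟨g, hg, fun z hz => mem_of_fix (fun w hw => g1 w fun h8 => hw (Finset.mem_union_left _ h8)) hz, g2⟩
    · obtain ⟨g, hg, g1, g2⟩ := hY.trans hy h7
      exact ⟨g, hg, fun z hz => mem_of_fix (fun w hw => g1 w fun h8 => hw (Finset.mem_union_right _ h8)) hz, g2⟩
  · exact absurd (hX.three hY h) h3
  · have h1 : X ∩ Y = X := Finset.eq_of_subset_of_card_le Finset.inter_subset_left (by rw [h, hX.1])
    have h2 : X ∩ Y = Y := Finset.eq_of_subset_of_card_le Finset.inter_subset_right (by rw [h, hY.1])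
    exact h1.symm.trans h2

theorem three_dvd {M : Subgroup (Perm α)} (hi : ¬ 2 ∣ M.relIndex (alternatingGroup α)) {s : ℕ} (hs : s.Prime)
    (h5 : 5 ≤ s) {c : Perm α} (hcM : c ∈ M) (hc : PC s c) : 3 ∣ Nat.card M := by
  by_contra h3
  obtain ⟨F, hF, h⟩ := cov4 hi
  obtain ⟨x, hx, hx'⟩ := Finset.exists_mem_notMem_of_card_lt_card (s := F) (t := c.support) (by rw [hc.2]; omega)
  obtain ⟨X, hX, hxX⟩ := h x hx'
  refine mem_support.1 hx (fix_of_small hc (block hs hc (by rw [hX.1]; omega) ?_) (by rw [hX.1]; omega) x hxX)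
  rintro i ⟨y, hy, hy'⟩ z hz
  rw [← (hX.conj (M.pow_mem hcM i)).meet hX h3 (Finset.mem_map_of_mem _ hy) hy']
  exact Finset.mem_map_of_mem _ hz

theorem odd_meet {M : Subgroup (Perm α)} (h2 : ¬ 2 ∣ Nat.card M) {r : ℕ} (hr : r.Prime) (hr2 : r ≠ 2) (n : ℕ) :
    ∀ c ∈ M, ∀ d ∈ M, PC r c → PC r d → (c.support ∪ d.support).card = n → ∀ x ∈ c.support, x ∈ d.support →
      c.support = d.support := by
  induction n using Nat.strong_induction_on with
  | _ n ih =>
  intro c hcM d hdM hc hd hn x hxc hxd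
  by_contra hne
  have hBA : ¬ d.support ⊆ c.support := fun h =>
    hne (Finset.eq_of_subset_of_card_le h (by rw [hc.2, hd.2])).symm
  have hAB : ¬ c.support ⊆ d.support := fun h =>
    hne (Finset.eq_of_subset_of_card_le h (by rw [hc.2, hd.2]))
  by_cases h1 : 1 < (c.support \ d.support).card
  · obtain ⟨u, hu, v, hv, huv⟩ := Finset.one_lt_card.1 h1
    rw [Finset.mem_sdiff] at hu hv
    obtain ⟨i, hi⟩ := hc.1.exists_pow_eq (mem_support.1 hu.1) (mem_support.1 hv.1)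
    obtain ⟨b, hb, hb'⟩ := Finset.not_subset.1 hBA
    have hs : (c ^ i * d * (c ^ i)⁻¹).support = d.support.map (c ^ i).toEmbedding := support_conj
    have hfix : ∀ z ∉ c.support, (c ^ i) z = z := fun z hz => pow_apply_eq_self_of_apply_eq_self (notMem_support.1 hz) i
    have hlt : ((c ^ i * d * (c ^ i)⁻¹).support ∪ d.support).card < n := by
      rw [← hn]
      refine Finset.card_lt_card ⟨?_, fun h => ?_⟩
      · refine Finset.union_subset ?_ Finset.subset_union_right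
        rw [hs]
        intro z hz
        obtain ⟨w, hw, rfl⟩ := Finset.mem_map.1 hz
        exact mem_of_fix (fun t ht => hfix t fun h => ht (Finset.mem_union_left _ h)) (Finset.mem_union_right _ hw)
      · rcases Finset.mem_union.1 (h (Finset.mem_union_left _ hv.1)) with h | h
        · rw [hs] at h
          obtain ⟨w, hw, hw'⟩ := Finset.mem_map.1 h
          exact hu.2 ((c ^ i).injective (hw'.trans hi.symm) ▸ hw)
        · exact hv.2 h
    have := ih _ hlt _ (M.mul_mem (M.mul_mem (M.pow_mem hcM i) hdM) (M.inv_mem (M.pow_mem hcM i))) d hdM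
      (hd.conj _) hd rfl b (by rw [hs]; exact Finset.mem_map.2 ⟨b, hb, hfix b hb'⟩) hb
    rw [hs] at this
    refine hAB (supp_sub hc.1 (inv_of_pow hr hc (i := i) (fun h => huv ?_) fun z hz => ?_) hxd (mem_support.1 hxc))
    · rw [← hi, h]; rfl
    · rw [← this]; exact Finset.mem_map_of_mem _ hz
  · have h3 : 0 < (c.support \ d.support).card := by
      obtain ⟨b, hb, hb'⟩ := Finset.not_subset.1 hAB
      exact Finset.card_pos.2 ⟨b, Finset.mem_sdiff.2 ⟨hb, hb'⟩⟩
    have h4 : (c.support ∪ d.support).card = r + 1 := by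
      have := Finset.card_sdiff_add_card c.support d.support
      rw [hd.2] at this; omega
    refine h2 ((show 2 ∣ (c.support ∪ d.support).card by
      rw [h4]; exact (hr.odd_of_ne_two hr2).add_one.two_dvd).trans
      (orbit_dvd (Finset.mem_union_left _ hxc) fun y hy => ?_))
    rcases Finset.mem_union.1 hy with h7 | h7
    · obtain ⟨i, hi⟩ := hc.1.exists_pow_eq (mem_support.1 hxc) (mem_support.1 h7)
      exact ⟨_, M.pow_mem hcM i, fun z hz => mem_of_fix (fun w hw => pow_apply_eq_self_of_apply_eq_self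
        (notMem_support.1 fun h8 => hw (Finset.mem_union_left _ h8)) i) hz, hi⟩
    · obtain ⟨i, hi⟩ := hd.1.exists_pow_eq (mem_support.1 hxd) (mem_support.1 h7)
      exact ⟨_, M.pow_mem hdM i, fun z hz => mem_of_fix (fun w hw => pow_apply_eq_self_of_apply_eq_self
        (notMem_support.1 fun h8 => hw (Finset.mem_union_right _ h8)) i) hz, hi⟩

theorem two_dvd {M : Subgroup (Perm α)} {r s : ℕ} (hr : r.Prime) (hr2 : r ≠ 2) (hs : s.Prime) (hrs : r < s)
    (hcov : Cov r M) {c : Perm α} (hcM : c ∈ M) (hc : PC s c) : 2 ∣ Nat.card M := by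
  by_contra h2
  obtain ⟨F, hF, h⟩ := hcov
  obtain ⟨x, hx, hx'⟩ := Finset.exists_mem_notMem_of_card_lt_card (s := F) (t := c.support) (by rw [hc.2]; omega)
  obtain ⟨d, hdM, hd, hxd⟩ := h x hx'
  refine mem_support.1 hx (fix_of_small hc (block hs hc (X := d.support) (by rw [hd.2]; exact hr.two_le) ?_)
    (by rw [hd.2]; omega) x (mem_support.2 hxd))
  rintro i ⟨y, hy, hy'⟩ z hz
  have hs : (c ^ i * d * (c ^ i)⁻¹).support = d.support.map (c ^ i).toEmbedding := support_conj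
  rw [← odd_meet h2 hr hr2 _ _ (M.mul_mem (M.mul_mem (M.pow_mem hcM i) hdM) (M.inv_mem (M.pow_mem hcM i))) d hdM
    (hd.conj _) hd rfl _ (by rw [hs]; exact Finset.mem_map_of_mem _ hy) hy', hs]
  exact Finset.mem_map_of_mem _ hz

/-- `M` is a `π`-group meeting the alternating group in a Hall `π`-subgroup -/
structure WH (π : Set ℕ) (M : Subgroup (Perm α)) : Prop where
  pi : ∀ p : ℕ, p.Prime → p ∣ Nat.card M → p ∈ π
  idx : ∀ p : ℕ, p.Prime → p ∈ π → ¬ p ∣ M.relIndex (alternatingGroup α)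

theorem WH.two_three {π : Set ℕ} {M : Subgroup (Perm α)} (h : WH π M) {r s : ℕ} (hr : r.Prime) (hs : s.Prime)
    (hrs : r < s) (hrπ : r ∈ π) (hsπ : s ∈ π) (hn : s ≤ Fintype.card α) : 2 ∈ π ∧ 3 ∈ π := by
  have hs2 : s ≠ 2 := by have := hr.two_le; omega
  obtain ⟨c, hcM, hc⟩ := (cov hs hs2 (h.idx s hs hsπ)).exists hn
  have h2 : 2 ∈ π := by
    by_cases hr2 : r = 2
    · exact hr2 ▸ hrπ
    · exact h.pi 2 Nat.prime_two (two_dvd hr hr2 hs hrs (cov hr hr2 (h.idx r hr hrπ)) hcM hc)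
  refine ⟨h2, ?_⟩
  by_cases hs3 : s = 3
  · exact hs3 ▸ hsπ
  · exact h.pi 3 Nat.prime_three (three_dvd (h.idx 2 Nat.prime_two h2) hs (hs.five_le_of_ne_two_of_ne_three hs2 hs3)
      hcM hc)

end Cfsg.Agent.H62.HallSym
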