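import Cfsg.Agent.H62.HallSym1
import Cfsg.Agent.H62.HallNT

/-! Hall subgroups of symmetric and alternating groups, part 2: stabilisers of partitions. -/

namespace Cfsg.Agent.H62.HallSym

open Equiv Equiv.Perm Subgroup MulAction

variable {α : Type*} [Fintype α] [DecidableEq α]

/-- stabiliser of a partition -/
def T (s : Setoid α) : Subgroup (Perm α) where
  carrier := {g | ∀ x y, s x y ↔ s (g x) (g y)}
  one_mem' := fun _ _ => Iff.rfl
  mul_mem' := fun {a b} ha hb x y => (hb x y).trans (ha _ _)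
  inv_mem' := fun {a} ha x y => by
    rw [ha (a⁻¹ x) (a⁻¹ y)]; simp

/-- permutations supported on `W` -/
def Sy (W : Finset α) : Subgroup (Perm α) where
  carrier := {g | ∀ x ∉ W, g x = x}
  one_mem' := fun _ _ => rfl
  mul_mem' := fun {a b} ha hb x hx => by rw [Perm.mul_apply, hb x hx, ha x hx]
  inv_mem' := fun {a} ha x hx => by rw [Perm.inv_eq_iff_eq, ha x hx]

open Classical in
/-- the class of a point -/
noncomputable def cls (s : Setoid α) (x : α) : Finset α := Finset.univ.filter (s x)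

omit [DecidableEq α] in
theorem mem_cls {s : Setoid α} {x y : α} : y ∈ cls s x ↔ s x y := by simp [cls]

omit [DecidableEq α] in
theorem cls_eq {s : Setoid α} {x y : α} (h : s x y) : cls s x = cls s y := by
  ext z; rw [mem_cls, mem_cls]; exact ⟨s.trans' (s.symm' h), s.trans' h⟩

omit [DecidableEq α] in
theorem self_mem_cls (s : Setoid α) (x : α) : x ∈ cls s x := mem_cls.2 (s.refl' x)

omit [DecidableEq α] in
theorem cls_map {s : Setoid α} {g : Perm α} (hg : g ∈ T s) (x : α) :
    cls s (g x) = (cls s x).map g.toEmbedding := by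
  ext z
  rw [Finset.mem_map_equiv, mem_cls, mem_cls, hg x]
  simp

omit [DecidableEq α] in
theorem card_cls_map {s : Setoid α} {g : Perm α} (hg : g ∈ T s) (x : α) :
    (cls s (g x)).card = (cls s x).card := by rw [cls_map hg, Finset.card_map]

omit [Fintype α] in
theorem swap_mem_T {s : Setoid α} {x y : α} (h : s x y) : swap x y ∈ T s := by
  have key : ∀ z, s z (swap x y z) := by
    intro z
    rw [swap_apply_def]
    split_ifs with h1 h2
    · exact h1 ▸ h
    · exact h2 ▸ s.symm' h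
    · exact s.refl' z
  intro a b
  exact ⟨fun hab => s.trans' (s.symm' (key a)) (s.trans' hab (key b)),
    fun hab => s.trans' (key a) (s.trans' hab (s.symm' (key b)))⟩

theorem card_Sy (W : Finset α) : Nat.card (Sy W) = W.card.factorial := by
  have e := Perm.subtypeEquivSubtypePerm (fun x => x ∈ W)
  have h1 : Nat.card (Sy W) = Nat.card (Perm {x // x ∈ W}) := (Nat.card_congr e).symm
  rw [h1, Nat.card_eq_fintype_card, Fintype.card_perm, Fintype.card_coe]

/-- order of the part of the partition stabiliser supported on `W` -/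
noncomputable def t (s : Setoid α) (W : Finset α) : ℕ := Nat.card ↥(T s ⊓ Sy W)

/-- its index in the symmetric group on `W` -/
noncomputable def N (s : Setoid α) (W : Finset α) : ℕ := W.card.factorial / t s W

omit [DecidableEq α] in
theorem t_pos (s : Setoid α) (W : Finset α) : 0 < t s W := Nat.card_pos

theorem N_mul (s : Setoid α) (W : Finset α) : N s W * t s W = W.card.factorial :=
  Nat.div_mul_cancel (card_Sy W ▸ card_dvd_of_le inf_le_right)

/-- union of classes -/
def Sat (s : Setoid α) (V : Finset α) : Prop := ∀ x ∈ V, ∀ y, s x y → y ∈ V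

theorem stepA {s : Setoid α} {V W : Finset α} (hVW : V ⊆ W) (hV : Sat s V)
    (hi : ∀ g ∈ T s ⊓ Sy W, ∀ x ∈ V, g x ∈ V) : t s W = t s V * t s (W \ V) := by
  unfold t
  rw [← Nat.card_prod]
  symm
  refine Nat.card_eq_of_bijective (fun ab => (⟨ab.1.1 * ab.2.1, mul_mem ab.1.2.1 ab.2.2.1, fun x hx => ?_⟩ :
    ↥(T s ⊓ Sy W))) ⟨?_, ?_⟩
  · rw [Perm.mul_apply, ab.2.2.2 x (fun h => hx (Finset.mem_sdiff.1 h).1), ab.1.2.2 x fun h => hx (hVW h)]
  · rintro ⟨a, b⟩ ⟨a', b'⟩ h
    have h1 : a.1 * b.1 = a'.1 * b'.1 := congrArg Subtype.val h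
    have h2 : a.1 = a'.1 := by
      ext x
      by_cases hx : x ∈ V
      · have := congrArg (fun g : Perm α => g x) h1
        simp only [Perm.mul_apply] at this
        rwa [b.2.2 x (fun h => (Finset.mem_sdiff.1 h).2 hx), b'.2.2 x (fun h => (Finset.mem_sdiff.1 h).2 hx)] at this
      · rw [a.2.2 x hx, a'.2.2 x hx]
    rw [h2] at h1
    exact Prod.ext (Subtype.ext h2) (Subtype.ext (mul_left_cancel h1))
  · rintro ⟨g, hg⟩
    have hiff : ∀ x, g x ∈ V ↔ x ∈ V := fun x =>
      ⟨fun h => by simpa using hi _ (inv_mem hg) _ h, hi g hg x⟩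
    let a : Perm α := ofSubtype (g.subtypePerm hiff)
    have ha1 : ∀ x ∈ V, a x = g x := fun x hx => ofSubtype_apply_of_mem _ hx
    have ha2 : ∀ x ∉ V, a x = x := fun x hx => ofSubtype_apply_of_not_mem _ hx
    have haT : a ∈ T s := by
      intro x y
      by_cases hx : x ∈ V <;> by_cases hy : y ∈ V
      · rw [ha1 x hx, ha1 y hy]; exact hg.1 x y
      · rw [ha1 x hx, ha2 y hy]
        exact ⟨fun h => absurd (hV x hx y h) hy, fun h => absurd (hV _ ((hiff x).2 hx) y h) hy⟩
      · rw [ha2 x hx, ha1 y hy]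
        exact ⟨fun h => absurd (hV y hy x (s.symm' h)) hx, fun h => absurd (hV _ ((hiff y).2 hy) x (s.symm' h)) hx⟩
      · rw [ha2 x hx, ha2 y hy]
    refine ⟨(⟨a, haT, ha2⟩, ⟨a⁻¹ * g, (T s).mul_mem ((T s).inv_mem haT) hg.1, fun x hx => ?_⟩), Subtype.ext (by simp)⟩
    rw [Perm.mul_apply, Perm.inv_eq_iff_eq]
    by_cases h : x ∈ V
    · exact (ha1 x h).symm
    · rw [ha2 x h]
      exact hg.2 x fun h' => hx (Finset.mem_sdiff.2 ⟨h', h⟩)

theorem stepB {s : Setoid α} {W O : Finset α} {x : α} (hO : (O : Set α) = orbit ↥(T s ⊓ Sy W) x) :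
    t s W = O.card * t s (W.erase x) := by
  have h1 := index_stabilizer (↥(T s ⊓ Sy W)) x
  rw [← hO, Set.ncard_coe_finset] at h1
  have h2 := (stabilizer (↥(T s ⊓ Sy W)) x).index_mul_card
  rw [h1] at h2
  unfold t
  rw [← h2]
  congr 1
  refine Nat.card_congr ⟨fun g => ⟨g.1.1, g.1.2.1, fun y hy => ?_⟩, fun g => ⟨⟨g.1, g.2.1, fun y hy => ?_⟩, ?_⟩,
    fun _ => rfl, fun _ => rfl⟩
  · by_cases h : y = x
    · subst h; exact g.2
    · exact g.1.2.2 y fun h' => hy (Finset.mem_erase.2 ⟨h, h'⟩)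
  · exact g.2.2 y fun h => hy (Finset.mem_of_mem_erase h)
  · exact g.2.2 x (Finset.notMem_erase x W)

theorem NA {s : Setoid α} {V W : Finset α} (hVW : V ⊆ W) (hV : Sat s V)
    (hi : ∀ g ∈ T s ⊓ Sy W, ∀ x ∈ V, g x ∈ V) : N s W = W.card.choose V.card * N s V * N s (W \ V) := by
  refine Nat.eq_of_mul_eq_mul_right (t_pos s W) ?_
  rw [N_mul, stepA hVW hV hi, ← Nat.choose_mul_factorial_mul_factorial (Finset.card_le_card hVW),
    ← Finset.card_sdiff_of_subset hVW, ← N_mul s V, ← N_mul s (W \ V)]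
  ring

theorem NB {s : Setoid α} {W : Finset α} {x : α} (hx : x ∈ W) (hO : (W : Set α) = orbit ↥(T s ⊓ Sy W) x) :
    N s (W.erase x) = N s W := by
  have hW : 0 < W.card := Finset.card_pos.2 ⟨x, hx⟩
  refine Nat.eq_of_mul_eq_mul_right (t_pos s W) ?_
  rw [N_mul, stepB hO, mul_left_comm, N_mul, Finset.card_erase_of_mem hx, Nat.mul_factorial_pred hW.ne']

/-- no prime of `π` divides `n` -/
def Co (π : Set ℕ) (n : ℕ) : Prop := ∀ p : ℕ, p.Prime → p ∈ π → ¬ p ∣ n

theorem Co.of_dvd {π : Set ℕ} {m n : ℕ} (h : Co π n) (hd : m ∣ n) : Co π m := fun p hp h1 h2 => h p hp h1 (h2.trans hd)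

/-- the possible shapes of a union of classes -/
def Res (π : Set ℕ) (s : Setoid α) (W : Finset α) : Prop :=
  W = ∅ ∨ (∃ x, W = cls s x) ∨ (5 ∉ π ∧ ∃ x y, W = cls s x ∪ cls s y ∧ ¬ s x y ∧ (cls s x).card = 4 ∧
    ((cls s y).card = 3 ∨ (cls s y).card = 4))

theorem card_union_cls {s : Setoid α} {x y : α} (h : ¬ s x y) :
    (cls s x ∪ cls s y).card = (cls s x).card + (cls s y).card :=
  Finset.card_union_of_disjoint (Finset.disjoint_left.2 fun _ h1 h2 =>
    h (s.trans' (mem_cls.1 h1) (s.symm' (mem_cls.1 h2))))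

theorem Res.size {π : Set ℕ} {s : Setoid α} {W : Finset α} (h : Res π s W) (h5 : 5 ∉ π)
    (hc : ∀ x, ∀ p : ℕ, p.Prime → p ≤ (cls s x).card → p ∈ π) (h3 : ∀ x ∈ W, 3 ≤ (cls s x).card) (h0 : W ≠ ∅) :
    W.card = 3 ∨ W.card = 4 ∨ W.card = 7 ∨ W.card = 8 := by
  rcases h with h | ⟨x, rfl⟩ | ⟨-, x, y, rfl, hxy, h4, h⟩
  · exact absurd h h0
  · have h1 := h3 x (self_mem_cls s x)
    have h2 : ¬ 5 ≤ (cls s x).card := fun h => h5 (hc x 5 Nat.prime_five h)
    omega
  · rw [card_union_cls hxy]; omega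

theorem res {π : Set ℕ} {s : Setoid α} (h2 : 2 ∈ π) (h3 : 3 ∈ π)
    (hc : ∀ x, ∀ p : ℕ, p.Prime → p ≤ (cls s x).card → p ∈ π) (n : ℕ) :
    ∀ W : Finset α, W.card = n → Sat s W → (∀ x ∈ W, 3 ≤ (cls s x).card) → Co π (N s W) → Res π s W := by
  induction n using Nat.strong_induction_on with
  | _ n ih =>
  intro W hn hS h3W hN
  rcases W.eq_empty_or_nonempty with h0 | ⟨x, hx⟩
  · exact Or.inl h0
  have c2 : ∀ m, Co π m → ¬ 2 ∣ m := fun m h => h 2 Nat.prime_two h2
  have c3 : ∀ m, Co π m → ¬ 3 ∣ m := fun m h => h 3 Nat.prime_three h3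
  have cnt : ∀ y b, b < (cls s y).card → 2 ≤ b → Co π (((cls s y).card + b).choose b) →
      (cls s y).card = 4 ∧ b = 3 ∧ 5 ∉ π := by
    intro y b h1 h4 h5
    obtain ⟨e1, e2⟩ := HallNT.nt h1 h4 fun p hp hle => h5 p hp (hc y p hp hle)
    refine ⟨e1, e2, fun h6 => h5 5 Nat.prime_five h6 ?_⟩
    rw [e1, e2]; decide
  obtain ⟨O, hO⟩ : ∃ O : Finset α, (O : Set α) = orbit ↥(T s ⊓ Sy W) x :=
    ⟨(Set.toFinite _).toFinset, Set.Finite.coe_toFinset _⟩
  have mO : ∀ y, y ∈ O ↔ y ∈ orbit ↥(T s ⊓ Sy W) x := fun y => by rw [← hO, Finset.mem_coe]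
  have hxO : x ∈ O := (mO x).2 (mem_orbit_self x)
  have hOW : O ⊆ W := by
    intro y hy
    obtain ⟨g, rfl⟩ := (mO y).1 hy
    exact mem_of_fix g.2.2 hx
  have hOi : ∀ g ∈ T s ⊓ Sy W, ∀ y ∈ O, g y ∈ O := by
    intro g hg y hy
    obtain ⟨k, rfl⟩ := (mO y).1 hy
    exact (mO _).2 ⟨⟨g, hg⟩ * k, rfl⟩
  by_cases hOeq : O = W
  · subst hOeq
    have hV : Sat s (O \ cls s x) := by
      intro y hy z hyz
      rw [Finset.mem_sdiff, mem_cls] at hy ⊢
      exact ⟨hS y hy.1 z hyz, fun h => hy.2 (s.trans' h (s.symm' hyz))⟩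
    have hsub : O \ cls s x ⊆ O.erase x := by
      intro y hy
      rw [Finset.mem_sdiff] at hy
      exact Finset.mem_erase.2 ⟨fun h => hy.2 (h ▸ self_mem_cls s x), hy.1⟩
    have hA := NA hsub hV (by
      intro g hg y hy
      rw [Finset.mem_sdiff, mem_cls] at hy ⊢
      have hgx : g x = x := hg.2 x (Finset.notMem_erase x O)
      refine ⟨mem_of_fix (fun z hz => hg.2 z fun h => hz (Finset.mem_of_mem_erase h)) hy.1, fun h => hy.2 ?_⟩
      rw [hg.1 x y, hgx]; exact h)
    rw [NB hx hO] at hA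
    have hcl : cls s x ⊆ O := fun y hy => hS x hx y (mem_cls.1 hy)
    have hcard := Finset.card_sdiff_add_card_eq_card hcl
    have ha := h3W x hx
    have hch : Co π ((O.erase x).card.choose (O \ cls s x).card) :=
      hN.of_dvd (hA ▸ (Dvd.intro _ rfl).mul_right _)
    rw [Finset.card_erase_of_mem hx] at hch
    have hR := ih (O \ cls s x).card (by omega) _ rfl hV (fun y hy => h3W y (Finset.mem_sdiff.1 hy).1)
      (hN.of_dvd (hA ▸ (Dvd.intro_left _ rfl).mul_right _))
    have hU : O = cls s x ∪ (O \ cls s x) := (Finset.union_sdiff_of_subset hcl).symm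
    rcases hR with h | ⟨y, hy⟩ | ⟨h5, y, z, hyz, hn', h4, h⟩
    · exact Or.inr (Or.inl ⟨x, by rw [hU, h, Finset.union_empty]⟩)
    · have hyV : y ∈ O \ cls s x := hy ▸ self_mem_cls s y
      obtain ⟨g, hg⟩ := (mO y).1 (Finset.mem_sdiff.1 hyV).1
      have he : (cls s y).card = (cls s x).card := by rw [← hg]; exact card_cls_map g.2.1 x
      rw [hy] at hch hcard
      rw [show O.card - 1 = (cls s y).card + ((cls s y).card - 1) by omega, Nat.choose_symm_add] at hch
      obtain ⟨e1, -, e3⟩ := cnt y _ (by omega) (by omega) hch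
      refine Or.inr (Or.inr ⟨e3, x, y, by rw [← hy, ← hU], fun h => (Finset.mem_sdiff.1 hyV).2 (mem_cls.2 h),
        by omega, Or.inr e1⟩)
    · exfalso
      have h6 : ¬ 5 ≤ (cls s x).card := fun h => h5 (hc x 5 Nat.prime_five h)
      have h7 := card_union_cls hn'
      rw [← hyz] at h7
      have h8 : ((O \ cls s x).card = 7 ∨ (O \ cls s x).card = 8) ∧ ((cls s x).card = 3 ∨ (cls s x).card = 4) := by
        omega
      have e2 := c2 _ hch
      have e3 := c3 _ hch
      rw [← hcard] at e2 e3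
      rcases h8 with ⟨h | h, h' | h'⟩ <;> rw [h, h'] at e2 e3 <;> revert e2 e3 <;> decide
  · have hOS : Sat s O := by
      intro y hy z hyz
      have := hOi (swap y z) ⟨swap_mem_T hyz, fun w hw => swap_apply_of_ne_of_ne
        (fun h => hw (h ▸ hOW hy)) (fun h => hw (h ▸ hS y (hOW hy) z hyz))⟩ y hy
      rwa [swap_apply_left] at this
    have hV : Sat s (W \ O) := by
      intro y hy z hyz
      rw [Finset.mem_sdiff] at hy ⊢
      exact ⟨hS y hy.1 z hyz, fun h => hy.2 (hOS z h y (s.symm' hyz))⟩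
    have hA := NA hOW hOS hOi
    have hcard := Finset.card_sdiff_add_card_eq_card hOW
    have hlt : O.card < W.card := Finset.card_lt_card (Finset.ssubset_iff_subset_ne.2 ⟨hOW, hOeq⟩)
    have hO0 : 0 < O.card := Finset.card_pos.2 ⟨x, hxO⟩
    have hch : Co π (W.card.choose O.card) := hN.of_dvd (hA ▸ (Dvd.intro _ rfl).mul_right _)
    have hR1 := ih O.card (by omega) _ rfl hOS (fun y hy => h3W y (hOW hy))
      (hN.of_dvd (hA ▸ (Dvd.intro_left _ rfl).mul_right _))
    have hR2 := ih (W \ O).card (by omega) _ rfl hV (fun y hy => h3W y (Finset.mem_sdiff.1 hy).1)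
      (hN.of_dvd (hA ▸ Dvd.intro_left _ rfl))
    have n1 : O ≠ ∅ := fun h => by rw [h] at hO0; simp at hO0
    have n2 : W \ O ≠ ∅ := fun h => by rw [h] at hcard; simp at hcard; omega
    have hU : W = O ∪ (W \ O) := (Finset.union_sdiff_of_subset hOW).symm
    have big : 5 ∉ π → 7 ≤ O.card ∨ 7 ≤ (W \ O).card → False := by
      intro h5 h7
      have s1 := hR1.size h5 hc (fun y hy => h3W y (hOW hy)) n1
      have s2 := hR2.size h5 hc (fun y hy => h3W y (Finset.mem_sdiff.1 hy).1) n2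
      have e2 := c2 _ hch
      have e3 := c3 _ hch
      rw [← hcard] at e2 e3
      rcases s1 with h | h | h | h <;> rcases s2 with h' | h' | h' | h' <;> rw [h, h'] at e2 e3 h7 <;>
        revert e2 e3 h7 <;> decide
    rcases hR1 with h | ⟨y, hy⟩ | ⟨h5, y, z, hyz, hn', h4, h⟩
    · exact absurd h n1
    · rcases hR2 with h | ⟨z, hz⟩ | ⟨h5, y', z, hyz, hn', h4, h⟩
      · exact absurd h n2
      · have hyO : y ∈ O := hy ▸ self_mem_cls s y
        have hzO : z ∈ W \ O := hz ▸ self_mem_cls s z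
        have hyz : ¬ s y z := fun h => (Finset.mem_sdiff.1 hzO).2 (hOS y hyO z h)
        have a1 := h3W y (hOW hyO)
        have a2 := h3W z (Finset.mem_sdiff.1 hzO).1
        rw [hz] at hcard hU
        rw [← hcard, hy] at hch
        rw [hy] at hU
        rcases lt_trichotomy (cls s y).card (cls s z).card with h | h | h
        · obtain ⟨e1, e2, e3⟩ := cnt z _ h (by omega) hch
          exact Or.inr (Or.inr ⟨e3, z, y, by rw [hU, Finset.union_comm], fun h => hyz (s.symm' h), e1, Or.inl e2⟩)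
        · exfalso
          rw [← h, ← two_mul] at hch
          exact c2 _ hch (Nat.two_dvd_centralBinom_of_one_le (by omega))
        · rw [← Nat.choose_symm_add, add_comm] at hch
          obtain ⟨e1, e2, e3⟩ := cnt y _ h (by omega) hch
          exact Or.inr (Or.inr ⟨e3, y, z, hU, hyz, e1, Or.inl e2⟩)
      · exact (big h5 (Or.inr (by rw [hyz, card_union_cls hn']; omega))).elim
    · exact (big h5 (Or.inl (by rw [hyz, card_union_cls hn']; omega))).elim

theorem pc_le {s : Setoid α} {p : ℕ} (hp : p.Prime) {c : Perm α} (hcT : c ∈ T s) (hc : PC p c) {F : Finset α}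
    (hF : F.card < p) (h : ∀ x ∉ F, 2 ≤ (cls s x).card) : ∃ x, p ≤ (cls s x).card := by
  obtain ⟨x, hx, hx'⟩ := Finset.exists_mem_notMem_of_card_lt_card (s := F) (t := c.support) (by rw [hc.2]; omega)
  refine ⟨x, ?_⟩
  by_contra hlt
  refine mem_support.1 hx (fix_of_small hc (block hp hc (h x hx') ?_) (by omega) x (self_mem_cls s x))
  rintro i ⟨y, hy, hy'⟩ z hz
  rw [mem_cls] at hy hy' hz ⊢
  exact s.trans' hy' (((T s).pow_mem hcT i y z).1 (s.trans' (s.symm' hy) hz))

theorem not_dvd_T {s : Setoid α} {p : ℕ} (hp : p.Prime) (hn : Fintype.card α < 2 * p) {F : Finset α}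
    (hF : F.card < p) (h : ∀ x ∉ F, 2 ≤ (cls s x).card) (h' : ∀ x, (cls s x).card < p) : ¬ p ∣ Nat.card (T s) := by
  intro hd
  haveI := Fact.mk hp
  obtain ⟨c, hc⟩ := exists_prime_orderOf_dvd_card' p hd
  have ho : orderOf (c : Perm α) = p := by rw [Subgroup.orderOf_coe, hc]
  have hcy : (c : Perm α).IsCycle := isCycle_of_prime_order' (ho ▸ hp) (ho ▸ hn)
  obtain ⟨x, hx⟩ := pc_le hp c.2 ⟨hcy, hcy.orderOf.symm.trans ho⟩ hF h
  exact absurd (h' x) (not_lt.2 hx)

theorem N_univ (s : Setoid α) : N s Finset.univ = (T s).index := by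
  have h1 : T s ⊓ Sy Finset.univ = T s := inf_eq_left.2 fun g _ x hx => absurd (Finset.mem_univ x) hx
  refine Nat.eq_of_mul_eq_mul_right (t_pos s Finset.univ) ?_
  rw [N_mul, t, h1, index_mul_card, Nat.card_eq_fintype_card, Fintype.card_perm, Finset.card_univ]

theorem relIndex_alt {K : Subgroup (Perm α)} {x y : α} (hxy : x ≠ y) (h : swap x y ∈ K) :
    K.relIndex (alternatingGroup α) = K.index := by
  haveI : Nontrivial α := ⟨x, y, hxy⟩
  have h1 : (K ⊓ alternatingGroup α).relIndex (alternatingGroup α) * (alternatingGroup α).index =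
    (K ⊓ alternatingGroup α).index := relIndex_mul_index inf_le_right
  have h2 : (K ⊓ alternatingGroup α).relIndex K * K.index = (K ⊓ alternatingGroup α).index :=
    relIndex_mul_index inf_le_left
  rw [inf_relIndex_right, alternatingGroup.index_eq_two] at h1
  rw [inf_relIndex_left] at h2
  have h3 := relIndex_dvd_index_of_normal (alternatingGroup α) K
  rw [alternatingGroup.index_eq_two] at h3
  rcases (Nat.dvd_prime Nat.prime_two).1 h3 with h4 | h4
  · have := mem_alternatingGroup.1 (relIndex_eq_one.1 h4 h)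
    rw [sign_swap hxy] at this
    exact absurd this (by decide)
  · rw [h4] at h2; omega

end Cfsg.Agent.H62.HallSym
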