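import Cfsg.Agent.H4.NPCFunctor
import Cfsg.Agent.H62.Misc

/-!
The reduction for normal `p`-complement theorems of Thompson type (`H4.NPCReduce`), carried out
inside the class of sections of a fixed group.
-/

namespace Cfsg.Agent.H62

open Subgroup Cfsg.Agent.H4

universe u

variable {p : ℕ}

/-- The generic reduction. -/
theorem npc_of_reduction [hp : Fact p.Prime] (G₀ : Type u) [Group G₀] [Finite G₀]
    (C : ∀ (G : Type u) [Group G] [Finite G], Subgroup G → Prop)
    (hsub : ∀ (G : Type u) [Group G] [Finite G] (S H : Subgroup G), IsPGroup p S → S ≤ H →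
      C G S → C H (S.subgroupOf H))
    (hloc : ∀ (G : Type u) [Group G] [Finite G] (S : Subgroup G), IsPGroup p S → S ≠ ⊥ →
      (∀ W : Subgroup G, W ≠ ⊥ → W ≤ S → normalizer (S : Set G) ≤ normalizer (W : Set G) →
        HasNormalPComplement p (normalizer (W : Set G))) → C G S)
    (hquot : ∀ (G : Type u) [Group G] [Finite G] (S K : Subgroup G) [K.Normal], IsPGroup p S →
      (Nat.card K).Coprime p → C G S → C (G ⧸ K) (S.map (QuotientGroup.mk' K)))
    (hbase : ∀ (G : Type u) [Group G] [Finite G] (P : Sylow p G) (L : Subgroup G),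
      Involves G G₀ → MinConfig p (P : Subgroup G) L → C G P → HasNormalPComplement p G)
    (G : Type u) [Group G] [Finite G] (hG : Involves G G₀) :
    ∀ P : Sylow p G, C G P → HasNormalPComplement p G := by
  revert hG
  refine H2.card_induction (P := fun G _ _ => Involves G G₀ →
    ∀ P : Sylow p G, C G P → HasNormalPComplement p G) G ?_
  intro G _ _ ih hG P hC
  have hprop : ∀ H : Subgroup G, H ≠ ⊤ → ∀ S, IsSylowIn p S H → C G S →
      HasNormalPComplement p H := fun H hH S hS hCS =>
    ih H (H2.card_lt_of_ne_top hH) (inv_trans (inv_sub H) hG) hS.toSylow (hsub G S H hS.isPGroup hS.le hCS)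
  by_cases hO : pCore p G = ⊥
  · -- all `p`-local subgroups have normal `p`-complements
    have key : ∀ n : ℕ, ∀ Q S : Subgroup G, IsPGroup p Q → Q ≠ ⊥ →
        IsSylowIn p S (normalizer (Q : Set G)) → Nat.card G - Nat.card S = n →
        HasNormalPComplement p (normalizer (Q : Set G)) := by
      intro n
      induction n using Nat.strong_induction_on with
      | _ n ihn =>
      intro Q S hQ hQ1 hS hn
      obtain ⟨g, hg⟩ := exists_conj_mem_sylow hS.isPGroup P
      refine hasNormalPComplement_normalizer_conj g ?_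
      have hS' := hS.map_conj g
      rw [← normalizer_map_conj] at hS'
      have hle : S.map (MulAut.conj g).toMonoidHom ≤ P := by
        rintro _ ⟨x, hx, rfl⟩
        exact hg x hx
      have hQ1' : Q.map (MulAut.conj g).toMonoidHom ≠ ⊥ := by
        rwa [Ne, map_eq_bot_iff_of_injective _ (MulAut.conj g).injective]
      rw [← card_map_conj S g] at hn
      have hQ' := hQ.map (MulAut.conj g).toMonoidHom
      generalize Q.map (MulAut.conj g).toMonoidHom = Q' at *
      generalize S.map (MulAut.conj g).toMonoidHom = S' at *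
      refine hprop _ (fun h => hQ1' (eq_bot_iff.mpr (hO ▸ H22.le_pCore
        (normalizer_eq_top_iff.mp h) hQ'))) S' hS' ?_
      rcases hle.lt_or_eq with hlt | heq
      swap
      · rwa [heq]
      have hQS : Q' ≤ S' := by
        have := hS'.eq_of_le (hS'.isPGroup.to_sup_of_normal_right' hQ' hS'.le)
          (sup_le hS'.le le_normalizer) le_sup_left
        exact le_sup_right.trans this.le
      refine hloc G S' hS'.isPGroup (fun h => hQ1' (eq_bot_iff.mpr (h ▸ hQS))) ?_
      intro W hW1 hWS hW
      obtain ⟨T, hT, hT'⟩ := IsSylowIn.exists_le (K := normalizer (W : Set G))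
        (P.isPGroup'.to_inf_left (K := normalizer (S' : Set G))) (inf_le_right.trans hW)
      refine ihn _ ?_ W T (hS'.isPGroup.to_le hWS) hW1 hT rfl
      have h1 := H2.card_lt_of_lt ((lt_inf_normalizer P.isPGroup' hlt).trans_le hT')
      have h2 := T.card_le_card_group
      omega
    rw [H3.hasNormalPComplement_iff_local]
    intro Q hQ hQ1
    obtain ⟨S, hS, -⟩ := IsSylowIn.exists_le hQ (le_normalizer (H := Q))
    exact key _ Q S hQ hQ1 hS rfl
  by_cases hO' : pPrimeCore p G = ⊥
  swap
  · exact H3.hasNormalPComplement_of_quotient_coprime _ H22.coprime_card_pPrimeCore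
      (ih _ (H2.card_quotient_lt _ hO') (inv_trans (inv_quot _) hG)
        (P.mapSurjective (QuotientGroup.mk'_surjective _))
        (hquot G P _ P.isPGroup' H22.coprime_card_pPrimeCore hC))
  set Q := pCore p G with hQdef
  let f := QuotientGroup.mk' Q
  have hf : Function.Surjective f := QuotientGroup.mk'_surjective Q
  let P' := P.mapSurjective hf
  have hQP : Q ≤ P := H22.pCore_le_sylow P
  have hbar : HasNormalPComplement p (G ⧸ Q) := by
    by_cases hP' : (P' : Subgroup (G ⧸ Q)) = ⊥
    · exact H3.hasNormalPComplement_of_coprime (coprime_card_of_sylow_eq_bot P' hP')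
    refine ih _ (H2.card_quotient_lt _ hO) (inv_trans (inv_quot _) hG) P'
      (hloc _ _ P'.isPGroup' hP' fun W hW1 hWP hW => ?_)
    have h1 : (P : Subgroup G) ≤ (normalizer (W : Set (G ⧸ Q))).comap f :=
      map_le_iff_le_comap.mp (le_normalizer.trans hW)
    have h2 := hprop _ (fun h => hW1 (by
      have h3 : normalizer (W : Set (G ⧸ Q)) = ⊤ := by
        rw [← map_comap_eq_self_of_surjective hf (normalizer (W : Set (G ⧸ Q))), h,
          map_top_of_surjective f hf]
      exact eq_bot_iff.mpr (H22.pCore_quotient_pCore (p := p) (G := G) ▸ H22.le_pCore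
        (normalizer_eq_top_iff.mp h3) (P'.isPGroup'.to_le hWP)))) P
      (IsSylowIn.of_sylow_le P h1) hC
    have h3 := H3.hasNormalPComplement_map f h2
    rwa [map_comap_eq_self_of_surjective hf] at h3
  have hcent : centralizer (Q : Set G) ≤ Q :=
    H22.IsPSolvable.centralizer_pCore_le (H22.isPSolvable_of_normal_of_quotient Q
      (H22.isPSolvable_of_isPGroup H22.isPGroup_pCore)
      (H22.isPSolvable_of_hasNormalPComplement hbar)) hO'
  have hmax : ∀ H : Subgroup G, (P : Subgroup G) ≤ H → H = P ∨ H = ⊤ := by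
    intro H hPH
    refine or_iff_not_imp_right.mpr fun hH => P.is_maximal' ?_ hPH
    have h1 := hprop H hH P (IsSylowIn.of_sylow_le P hPH) hC
    rw [← H3.pResidual_eq_bot_iff, eq_bot_iff, H3.pResidual_le_iff]
    intro g hg
    have h2 := H3.mem_centralizer_of_hasNormalPComplement h1
      (H22.isPGroup_pCore.comap_subtype (K := H)) (g := g)
      (le_normalizer_of_normal (mem_top g)) hg
    have h3 : (g : G) ∈ Q := hcent fun x hx =>
      congrArg Subtype.val (h2 ⟨x, hPH (hQP hx)⟩ hx)
    obtain ⟨k, hk⟩ := (H22.isPGroup_pCore (p := p) (G := G)) ⟨(g : G), h3⟩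
    have h4 : g ^ p ^ k = 1 := Subtype.ext (by simpa using congrArg Subtype.val hk)
    rw [mem_bot, ← orderOf_eq_one_iff]
    exact Nat.eq_one_of_dvd_coprimes (hg.pow_right k) dvd_rfl (orderOf_dvd_of_pow_eq_one h4)
  have hK := H3.hasNormalPComplement_iff_coprime.mp hbar
  by_cases hK1 : pResidual p (G ⧸ Q) = ⊥
  · refine H3.hasNormalPComplement_of_isPGroup ?_
    have h1 := (H3.pResidual_eq_bot_iff.mp hK1).to_subgroup ⊤
    have h2 := h1.comap_of_ker_isPGroup f (by
      rw [QuotientGroup.ker_mk']; exact H22.isPGroup_pCore)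
    rw [comap_top] at h2
    exact h2.of_equiv topEquiv
  obtain ⟨q, hq, hqK⟩ := Nat.exists_prime_and_dvd (fun h => hK1 (card_eq_one.mp h))
  have := Fact.mk hq
  obtain ⟨R, hR⟩ := H46.exists_invariant_sylow P'.isPGroup'
    ((Nat.Prime.coprime_iff_not_dvd hp.out).mp hK.symm) le_normalizer_of_normal q
  set R' := (R : Subgroup (pResidual p (G ⧸ Q))).map (pResidual p (G ⧸ Q)).subtype with hR'
  have hR'q : IsPGroup q R' := R.isPGroup'.map _
  have hR'1 : R' ≠ ⊥ := by
    rw [hR', Ne, map_eq_bot_iff_of_injective _ (subtype_injective _)]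
    exact R.ne_bot_of_dvd_card hqK
  set Z := R' ⊓ centralizer (R' : Set (G ⧸ Q)) with hZ
  have hZ1 : Z ≠ ⊥ := by
    have : Nontrivial R' := (nontrivial_iff_ne_bot R').mpr hR'1
    have := hR'q.center_nontrivial
    obtain ⟨⟨z, hz⟩, hz1⟩ := exists_ne (1 : center R')
    intro h
    have h1 : (z : G ⧸ Q) ∈ Z := ⟨z.2, fun y hy =>
      congrArg Subtype.val (mem_center_iff.mp hz ⟨y, hy⟩)⟩
    rw [h, mem_bot] at h1
    exact hz1 (Subtype.ext (Subtype.ext h1))
  have hZK : Z ≤ pResidual p (G ⧸ Q) := inf_le_left.trans (map_subtype_le _)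
  have hZc : (Nat.card Z).Coprime p := hK.coprime_dvd_left (card_dvd_of_le hZK)
  have hPZ : (P' : Subgroup (G ⧸ Q)) ≤ normalizer (Z : Set (G ⧸ Q)) := by
    intro x hx
    rw [← map_conj_eq_iff, hZ, map_inf _ _ _ (MulAut.conj x).injective, ← centralizer_map_conj,
      map_conj_eq_iff.mpr (hR hx)]
  have htop : Z ⊔ (P' : Subgroup (G ⧸ Q)) = ⊤ := by
    rcases hmax ((Z ⊔ (P' : Subgroup (G ⧸ Q))).comap f)
      (map_le_iff_le_comap.mp le_sup_right) with h | h
    · exfalso
      have h1 : Z ≤ P' := by
        have := congrArg (map f) h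
        rw [map_comap_eq_self_of_surjective hf] at this
        exact le_sup_left.trans this.le
      exact hZ1 (H22.eq_bot_of_pgroup_coprime (P'.isPGroup'.to_le h1) hZc)
    · rw [← map_comap_eq_self_of_surjective hf (Z ⊔ _), h, map_top_of_surjective f hf]
  have hZn : Z.Normal := by
    rw [← normalizer_eq_top_iff, eq_top_iff, ← htop]
    exact sup_le le_normalizer hPZ
  have hker : f.ker = Q := QuotientGroup.ker_mk' Q
  have hQL : Q ≤ Z.comap f := (QuotientGroup.ker_mk' Q).ge.trans (ker_le_comap f Z)
  refine hbase G P (Z.comap f) hG ⟨hcent, hmax, inferInstance, hQL, ?_, ?_, ?_⟩ hC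
  · refine le_trans ?_ hker.le
    rw [← Subgroup.map_eq_bot_iff, map_commutator,
      map_comap_eq_self_of_surjective hf, commutator_eq_bot_iff_le_centralizer]
    exact inf_le_right.trans (centralizer_le inf_le_left)
  · have h1 : (P : Subgroup G) = (P' : Subgroup (G ⧸ Q)).comap f := by
      rw [Sylow.coe_mapSurjective, comap_map_eq, QuotientGroup.ker_mk', sup_eq_left.mpr hQP]
    rw [h1, comap_sup_eq f _ _ hf, htop, comap_top]
  · have h1 := relIndex_ker (Z.comap f) f
    rw [hker, map_comap_eq_self_of_surjective hf] at h1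
    exact h1 ▸ hZc

/-- Thompson's criterion for a functor that is normal in the minimal configurations among the
sections of `G`. -/
theorem npc_of_minConfig [Fact p.Prime] {W : ∀ (Q : Type u) [Group Q], Subgroup Q}
    (hW : IsCharPFunctor.{u} p W) {G : Type u} [Group G] [Finite G]
    (hbase : ∀ (X : Type u) [Group X] [Finite X] (P : Sylow p X) (L : Subgroup X), Involves X G →
      MinConfig p (P : Subgroup X) L → (P : Subgroup X) ≠ ⊤ →
        (inducedFunctor W (P : Subgroup X)).Normal)
    (P : Sylow p G)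
    (h : HasNormalPComplement p (normalizer (inducedFunctor W (P : Subgroup G) : Set G))) :
    HasNormalPComplement p G := by
  refine npc_of_reduction G
    (fun G _ _ S => HasNormalPComplement p (normalizer (inducedFunctor W S : Set G)))
    ?_ ?_ ?_ ?_ G (inv_refl G) P h
  · intro G _ _ S H hS hSH h
    refine npc_normalizer_of_injective H.subtype H.subtype_injective _ ?_
    rwa [ind_subgroupOf hW hS hSH]
  · intro G _ _ S hS hS1 h
    exact h _ (ind_ne_bot hW hS hS1) (ind_le W S) (norm_le_norm_ind hW hS)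
  · intro G _ _ S K _ hS hK h
    have hk : (Nat.card (QuotientGroup.mk' K).ker).Coprime p := by rwa [QuotientGroup.ker_mk']
    rw [ind_map hW _ hS (H22.inf_eq_bot_of_pgroup_coprime hS hk)]
    exact npc_normalizer_map_of_coprime _ (QuotientGroup.mk'_surjective K) hk
      (hS.to_le (ind_le W S)) h
  · intro X _ _ P L hX hL h
    by_cases hP : (P : Subgroup X) = ⊤
    · exact H3.hasNormalPComplement_of_isPGroup ((hP ▸ P.2 :).of_equiv topEquiv)
    have := hbase X P L hX hL hP
    rwa [normalizer_eq_top, H3.hasNormalPComplement_top_iff] at h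

theorem minConfig_npc_quot [Fact p.Prime] {X : Type*} [Group X] [Finite X] {P : Sylow p X}
    {L : Subgroup X} (h : MinConfig p (P : Subgroup X) L) :
    HasNormalPComplement p (X ⧸ pCore p X) := by
  have := h.normal
  have hs := QuotientGroup.mk'_surjective (pCore p X)
  have hn : (L.map (QuotientGroup.mk' (pCore p X))).Normal := this.map _ hs
  refine H3.hasNormalPComplement_of_normal (L.map (QuotientGroup.mk' (pCore p X))) ?_ ?_
  · rw [← relIndex_ker, QuotientGroup.ker_mk']; exact h.coprime
  · rw [H3.isPGroup_quotient_iff_pResidual_le, ← H3.map_pResidual_of_surjective _ hs]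
    exact map_mono (H3.pResidual_le_of_isPGroup_quotient L h.isPGroup_quotient)

theorem minConfig_isCoatom {X : Type*} [Group X] {P L : Subgroup X} (h : MinConfig p P L)
    (hP : P ≠ ⊤) : IsCoatom P :=
  ⟨hP, fun H hH => (h.max H hH.le).resolve_left hH.ne'⟩

end Cfsg.Agent.H62
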