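import Cfsg.Agent.H62.FrobSum
import Cfsg.Agent.H62.NPC

/-!
In a minimal configuration no `p`-element acts nontrivially with degree `≤ p - 1` on a chief factor.
-/

namespace Cfsg.Agent.H62

open Subgroup Cfsg.Agent.H49 Cfsg.Agent.H4
open scoped commutatorElement

variable {p : ℕ} {X : Type*} [Group X] [Finite X] [hp : Fact p.Prime]

/-- A normal subgroup inducing a `p`-group on a `p`-chief factor centralizes it. -/
theorem chief_le_cent_of_pow {U V R : Subgroup X} (h : IsChiefFactor U V) [V.Normal]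
    (hU : IsPGroup p U) [R.Normal]
    (hR : ∀ r ∈ R, ∃ k : ℕ, QuotientGroup.mk' V (r ^ p ^ k) ∈ 𝒞(U.map (QuotientGroup.mk' V))) :
    R.map (QuotientGroup.mk' V) ≤ 𝒞(U.map (QuotientGroup.mk' V)) := by
  have hUn := h.2.1
  set π := QuotientGroup.mk' V with hπ
  have hπs : Function.Surjective π := QuotientGroup.mk'_surjective V
  have hker : π.ker = V := QuotientGroup.ker_mk' V
  have hPn : (U.map π).Normal := hUn.map π hπs
  have hRn : (R.map π).Normal := Normal.map inferInstance π hπs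
  have hP1 : U.map π ≠ ⊥ := fun hb => by
    rw [Subgroup.map_eq_bot_iff, hker] at hb
    exact h.1.not_ge hb
  have h3 := inf_cent_ne_bot (R := R.map π) (hU.map π) hP1 (le_norm_of_normal _ _) (by
    rintro _ ⟨r, hr, rfl⟩
    obtain ⟨k, hk⟩ := hR r hr
    exact ⟨k, by rwa [← map_pow]⟩)
  have h4 : (U.map π ⊓ 𝒞(R.map π)).Normal := inferInstance
  rcases h.2.2.2 ((U.map π ⊓ 𝒞(R.map π)).comap π) (h4.comap π)
    (hker.ge.trans (ker_le_comap π _))
    ((comap_mono inf_le_left).trans (by rw [comap_map_eq, hker]; exact sup_le le_rfl h.1.le))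
    with h5 | h5
  · refine absurd ?_ h3
    rw [← map_comap_eq_self_of_surjective hπs (U.map π ⊓ _), h5, Subgroup.map_eq_bot_iff, hker]
  · refine cent_symm ?_
    rw [map_le_iff_le_comap, ← h5]; exact comap_mono inf_le_right

theorem comm_le_of_minConfig {P : Sylow p X} {L : Subgroup X} (hm : MinConfig p (P : Subgroup X) L)
    {U V : Subgroup X} (h : IsChiefFactor U V) (hU : U ≤ pCore p X) {g : X}
    (hg : g ∈ (P : Subgroup X)) (hq : iterCommutator U (zpowers g) (p - 1) ≤ V) :
    ⁅U, zpowers g⁆ ≤ V := by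
  classical
  have hUn := h.2.1
  have hVn := h.2.2.1
  have hLn := hm.normal
  have hUp : IsPGroup p U := H22.isPGroup_pCore.to_le hU
  set π := QuotientGroup.mk' V with hπ
  have hπs : Function.Surjective π := QuotientGroup.mk'_surjective V
  have hker : π.ker = V := QuotientGroup.ker_mk' V
  set A := U.map π with hA
  have hAn : A.Normal := hUn.map π hπs
  let ψ : X →* MulAut A := MulAut.conjNormal.comp π
  have hψ : ∀ x, ψ x = 1 ↔ π x ∈ 𝒞(A) := fun x => by
    constructor
    · intro hx a ha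
      have h1 : π x * a * (π x)⁻¹ = a := congrArg (fun f : MulAut A => (f ⟨a, ha⟩ : X ⧸ V)) hx
      exact (mul_inv_eq_iff_eq_mul.1 h1).symm
    · intro hx
      ext a
      change π x * a * (π x)⁻¹ = a
      rw [← hx a a.2, mul_inv_cancel_right]
  have hQ : (pCore p X).map π ≤ 𝒞(A) := by
    refine cent_symm (H49.commutator_eq_bot_iff.1 ?_)
    rw [← map_commutator, Subgroup.map_eq_bot_iff, hker]
    exact chief_comm_le h H22.isPGroup_pCore hU
  have hQ' : pCore p X ≤ ψ.ker := fun x hx => (hψ x).2 (hQ ⟨x, hx, rfl⟩)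
  suffices h1 : ψ g = 1 by
    rw [← hker, ← Subgroup.map_eq_bot_iff, map_commutator, MonoidHom.map_zpowers,
      H49.commutator_eq_bot_iff]
    exact cent_symm (zpowers_le.2 ((hψ g).1 h1))
  by_contra hne
  have hex : ∃ k, ψ (g ^ p ^ k) = 1 := by
    obtain ⟨k, hk⟩ := P.2 ⟨g, hg⟩
    exact ⟨k, by rw [show g ^ p ^ k = 1 from congrArg Subtype.val hk, map_one]⟩
  obtain ⟨k, hk⟩ : ∃ k, Nat.find hex = k + 1 := Nat.exists_eq_succ_of_ne_zero fun h0 => by
    have := Nat.find_spec hex
    rw [h0, pow_zero, pow_one] at this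
    exact hne this
  have hk1 : ψ (g ^ p ^ k) ≠ 1 := Nat.find_min hex (by omega)
  have hk2 : ψ (g ^ p ^ k) ^ p = 1 := by
    have := Nat.find_spec hex
    rwa [hk, pow_succ, pow_mul, map_pow] at this
  set t := g ^ p ^ k with ht
  letI : CommGroup A := { (inferInstance : Group A) with
    mul_comm := fun a b => Subtype.ext (hQ (map_mono hU b.2) a a.2) }
  have hc : ψ t ∈ 𝒞(L.map ψ) := by
    refine mem_cent_of_norm_zero (hUp.map π) (L.map ψ) ?_ ?_
      (le_normalizer_map ψ ⟨t, le_norm_of_normal ⊤ L (mem_top t), rfl⟩) hk2 ?_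
    · rintro _ ⟨a, ha, rfl⟩ _ ⟨b, hb, rfl⟩
      rw [← commutatorElement_eq_one_iff_mul_comm, ← map_commutatorElement]
      exact hQ' (hm.comm (commutator_mem_commutator ha hb))
    · rw [← relIndex_ker]
      exact hm.coprime.coprime_dvd_left (relIndex_dvd_of_le_left L hQ')
    · rintro ⟨_, x, hx, rfl⟩
      let β : X → A := fun y => if hy : y ∈ U then ⟨π y, y, hy, rfl⟩ else 1
      have hβ : ∀ y (hy : y ∈ U), β y = ⟨π y, y, hy, rfl⟩ := fun y hy => dif_pos hy
      have h1 := prod_conj_eq_one (p := p) (U := U) (V := V) (g := t⁻¹)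
        (le_norm_of_normal ⊤ U (mem_top _)) (le_norm_of_normal ⊤ V (mem_top _)) β
        (fun a ha b hb => by
          rw [hβ a ha, hβ b hb, hβ _ (U.mul_mem ha hb)]; exact Subtype.ext (map_mul π a b))
        (fun a ha => by
          rw [hβ a (h.1.le ha)]; exact Subtype.ext ((QuotientGroup.eq_one_iff a).2 ha))
        (fun a ha => chief_pow_mem h hUp ha)
        ((iterC_mono le_rfl (zpowers_le.2 (inv_mem (pow_mem (mem_zpowers g) _))) _).trans hq) hx
      rw [← h1]
      refine Finset.prod_congr rfl fun i _ => ?_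
      rw [hβ _ (by simpa using hUn.conj_mem x hx (t ^ i)), ← map_pow]
      refine Subtype.ext ?_
      change π (t ^ i) * π x * (π (t ^ i))⁻¹ = π _
      simp only [inv_pow, inv_inv, map_mul, map_inv]
  set D := (𝒞(L.map ψ)).comap ψ with hD
  have hDn : D.Normal := by
    rw [normal_iff_norm_eq_top, eq_top_iff]
    refine le_trans ?_ (le_normalizer_comap ψ)
    rw [← map_le_iff_le_comap]
    exact norm_cent ((map_mono (le_norm_of_normal ⊤ L)).trans (le_normalizer_map ψ))
  have hRn : (((P : Subgroup X) ⊓ D) ⊔ ψ.ker).Normal := by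
    rw [normal_iff_norm_eq_top, eq_top_iff, ← hm.sup]
    refine sup_le (le_normalizer_iff_commutator_le_left.2 (le_trans ?_ le_sup_right))
      (norm_sup (norm_inf le_normalizer (le_norm_of_normal _ _)) (le_norm_of_normal _ _))
    refine (commutator_mono (sup_le inf_le_right (ker_le_comap ψ _) : _ ≤ D) le_rfl).trans ?_
    rw [← Subgroup.map_eq_bot_iff, map_commutator, H49.commutator_eq_bot_iff]
    exact map_comap_le _ _
  have h2 := chief_le_cent_of_pow (R := ((P : Subgroup X) ⊓ D) ⊔ ψ.ker) h hUp (by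
    intro r hr
    rw [← SetLike.mem_coe, mul_normal] at hr
    obtain ⟨s, hs, c, hc, rfl⟩ := hr
    obtain ⟨n, hn⟩ := P.2 ⟨s, hs.1⟩
    refine ⟨n, (hψ _).1 ?_⟩
    rw [map_pow, map_mul, show ψ c = 1 from hc, mul_one, ← map_pow,
      show s ^ p ^ n = 1 from congrArg Subtype.val hn, map_one])
  exact hk1 ((hψ t).2 (h2 ⟨t, mem_sup_left ⟨pow_mem hg _, hc⟩, rfl⟩))

end Cfsg.Agent.H62
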