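import Cfsg.Agent.H62.NilSym1
import Cfsg.Agent.H92.SylIn
import Cfsg.Agent.H49.Core

/-! Orders of nilpotent subgroups of symmetric and alternating groups. -/

set_option autoImplicit false

namespace Cfsg.Agent.H62.NilSym

open MulAction Subgroup Equiv
open scoped Nat

theorem eq_one_of_odd {G : Type*} [Group G] {g : G} {k : ℕ} (h : g ^ 2 ^ k = 1) (ho : Odd (orderOf g)) :
    g = 1 := by
  rw [← orderOf_eq_one_iff]
  exact Nat.Coprime.eq_one_of_dvd ((Nat.coprime_two_right.2 ho).pow_right k) (orderOf_dvd_of_pow_eq_one h)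

theorem isPGroup_two {G : Type*} [Group G] [Finite G] (h : ∀ g : G, Odd (orderOf g) → g = 1) : IsPGroup 2 G := by
  intro g
  obtain ⟨k, m, hm, e⟩ := Nat.exists_eq_two_pow_mul_odd (orderOf_pos g).ne'
  refine ⟨k, h _ ?_⟩
  rw [orderOf_pow_of_dvd (by positivity) ⟨m, e⟩, e, Nat.mul_div_cancel_left _ (by positivity)]
  exact hm

theorem index_fix_le {G X : Type*} [Finite X] [Group G] [Finite G] [Group.IsNilpotent G] [MulAction G X]
    (n : ℕ) : ∀ s : Set X, s.ncard = n → (∀ g : G, ∀ x ∈ s, g • x ∈ s) →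
      (∀ x ∈ s, ∃ g : G, Odd (orderOf g) ∧ g • x ≠ x) → (fixingSubgroup G s).index ^ 2 ≤ H n := by
  induction n using Nat.strong_induction_on with
  | _ n ih =>
  intro s hs hinv hh
  rcases s.eq_empty_or_nonempty with rfl | ⟨x, hx⟩
  · rw [fixingSubgroup_empty, index_top, ← hs]; simp [H]
  have hO : orbit G x ⊆ s := by rintro _ ⟨a, rfl⟩; exact hinv a x hx
  have h1 := Set.ncard_diff_add_ncard_of_subset hO
  have h2 : 0 < (orbit G x).ncard := (Set.ncard_pos).2 ⟨x, mem_orbit_self x⟩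
  have h3 := ih _ (by omega) (s \ orbit G x) rfl (fun a y hy => ⟨hinv a y hy.1, fun h =>
    hy.2 (inv_smul_smul a y ▸ mem_orbit_of_mem_orbit a⁻¹ h)⟩) fun y hy => hh y hy.1
  set T := (toPermHom G (orbit G x)).range
  haveI : Group.IsNilpotent T := Group.nilpotent_of_surjective _ (MonoidHom.rangeRestrict_surjective _)
  haveI : IsPretransitive T (orbit G x) := ⟨fun a b => by
    obtain ⟨g, hg⟩ := exists_smul_eq G a b
    exact ⟨⟨_, g, rfl⟩, hg⟩⟩
  have h4 := card_trans_le (G := T) (⟨x, mem_orbit_self x⟩ : orbit G x) (by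
    intro hp
    obtain ⟨g, ho, hg⟩ := hh x hx
    obtain ⟨k, hk⟩ := hp ⟨_, g, rfl⟩
    have := eq_one_of_odd (congrArg Subtype.val hk) (ho.of_dvd_nat (orderOf_map_dvd _ g))
    exact hg (congrArg Subtype.val (Perm.congr_fun this ⟨x, mem_orbit_self x⟩)))
  have h5 : (toPermHom G (orbit G x)).ker = fixingSubgroup G (orbit G x) := by
    ext g
    rw [MonoidHom.mem_ker, mem_fixingSubgroup_iff]
    exact ⟨fun h y hy => congrArg Subtype.val (Perm.congr_fun h ⟨y, hy⟩),
      fun h => Perm.ext fun y => Subtype.ext (h y y.2)⟩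
  rw [← index_ker, h5, Nat.card_coe_set_eq] at h4
  rw [← Set.diff_union_of_subset hO, fixingSubgroup_union, ← hs, ← h1]
  refine (Nat.pow_le_pow_left index_inf_le 2).trans ?_
  rw [mul_pow]
  exact (Nat.mul_le_mul h3 h4).trans (H_mul _ _)

/-- the 2-part of `n!` -/
def S (n : ℕ) : ℕ := 2 ^ (n !).factorization 2

theorem S_pos (n : ℕ) : 0 < S n := Nat.two_pow_pos _

theorem le_S {n c k : ℕ} (hc : c = 2 ^ k) (h : c ∣ n !) : c ≤ S n := by
  subst hc
  exact Nat.pow_le_pow_right (by norm_num)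
    ((Nat.prime_two.pow_dvd_iff_le_factorization n.factorial_ne_zero).1 h)

theorem S_dvd (n : ℕ) : S n ∣ n ! := Nat.ordProj_dvd _ _

theorem S_mul (a b : ℕ) : S a * S b ≤ S (a + b) :=
  le_S (pow_add _ _ _).symm ((Nat.mul_dvd_mul (S_dvd a) (S_dvd b)).trans
    (Nat.factorial_mul_factorial_dvd_factorial_add a b))

theorem S_mono {a b : ℕ} (h : a ≤ b) : S a ≤ S b := le_S rfl ((S_dvd a).trans (Nat.factorial_dvd_factorial h))

theorem S_val (n : ℕ) (h : n < 32) : S n = 2 ^ (n / 2 + n / 4 + n / 8 + n / 16) := by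
  unfold S
  rw [Nat.factorization_def _ Nat.prime_two, padicValNat_factorial (b := 5)]
  · simp [Finset.sum_Ico_succ_top]
  · rcases Nat.eq_zero_or_pos n with rfl | hn
    · simp
    · exact Nat.log_lt_of_lt_pow hn.ne' h

theorem S_three (r : ℕ) : S (r + 3) = S r * 2 ^ ((r + 3) * (r + 2) * (r + 1)).factorization 2 := by
  unfold S
  rw [← pow_add, show (r + 3)! = r ! * ((r + 3) * (r + 2) * (r + 1)) by
    simp [Nat.factorial_succ]; ring, Nat.factorization_mul r.factorial_ne_zero (by positivity)]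
  rfl

theorem S_three_of_ne (r : ℕ) (h : (r + 3) % 4 ≠ 3) : 4 * S r ≤ S (r + 3) := by
  rw [S_three, mul_comm]
  refine Nat.mul_le_mul_left _ (Nat.pow_le_pow_right (n := 2) (i := 2) (by norm_num)
    ((Nat.prime_two.pow_dvd_iff_le_factorization (by positivity)).1 ?_))
  have : r % 4 = 1 ∨ r % 4 = 2 ∨ r % 4 = 3 := by omega
  rcases this with h | h | h
  · exact ((Nat.dvd_of_mod_eq_zero (by omega) : 2 ^ 2 ∣ r + 3).mul_right _).mul_right _
  · exact ((Nat.dvd_of_mod_eq_zero (by omega) : 2 ^ 2 ∣ r + 2).mul_left _).mul_right _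
  · exact (Nat.dvd_of_mod_eq_zero (by omega) : 2 ^ 2 ∣ r + 1).mul_left _

theorem S_three_of_eq (r : ℕ) (h : (r + 3) % 4 = 3) : S (r + 3) = 2 * S r := by
  obtain ⟨k, rfl⟩ : ∃ k, r = 4 * k := ⟨r / 4, by omega⟩
  rw [S_three, show (4 * k + 3) * (4 * k + 2) * (4 * k + 1) = 2 * ((4 * k + 3) * (2 * k + 1) * (4 * k + 1)) by ring,
    Nat.factorization_mul (by norm_num) (by positivity), Finsupp.add_apply, Nat.prime_two.factorization_self,
    Nat.factorization_eq_zero_of_not_dvd, mul_comm]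
  · rfl
  · rw [← even_iff_two_dvd, Nat.not_even_iff_odd]
    exact (Odd.mul ⟨2 * k + 1, by ring⟩ ⟨k, rfl⟩).mul ⟨2 * k, by ring⟩

theorem large (m : ℕ) (h : 24 ≤ m) : 4 * 3 ^ (m - 1) ≤ S m ^ 2 := by
  induction m using Nat.strong_induction_on with
  | _ m ih =>
  by_cases h' : m < 32
  · rw [S_val m h']; interval_cases m <;> norm_num
  obtain ⟨k, rfl⟩ : ∃ k, m = k + 8 := ⟨m - 8, by omega⟩
  have h1 := ih k (by omega) (by omega)
  have h2 := S_mul k 8
  rw [S_val 8 (by norm_num)] at h2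
  have h3 := Nat.pow_le_pow_left h2 2
  rw [show k + 8 - 1 = k - 1 + 8 by omega, pow_add]
  rw [mul_pow] at h3
  norm_num at h3 ⊢
  omega

theorem I1 (m : ℕ) (h : m ≠ 3) : H m ≤ S m ^ 2 := by
  by_cases h' : m < 24
  · rw [S_val m (by omega)]; interval_cases m <;> simp_all [H]
  · have := large m (by omega)
    have := H_le m (by omega)
    omega

theorem I3 (m r : ℕ) (hr : r ≤ 1) (h0 : m ≠ 0) (h : (m + r) % 4 ≠ 3) (h5 : m + r ≠ 5) (h6 : m + r ≠ 6)
    (h9 : m + r ≠ 9) : 4 * H m ≤ S (m + r) ^ 2 := by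
  by_cases h' : m < 24
  · rw [S_val _ (by omega)]; interval_cases m <;> interval_cases r <;> simp_all [H]
  · have := large m (by omega)
    have := H_le m (by omega)
    have := Nat.pow_le_pow_left (S_mono (Nat.le_add_right m r)) 2
    omega

theorem I4 (m r : ℕ) (hr : r ≤ 1) (h0 : m ≠ 0) (h : (m + r) % 4 = 3) (h7 : 7 ≤ m + r) :
    16 * H m < 9 * S (m + r) ^ 2 := by
  by_cases h' : m < 24
  · rw [S_val _ (by omega)]; interval_cases m <;> interval_cases r <;> simp_all [H]
  · have := large m (by omega)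
    have := H_le m (by omega)
    have := Nat.pow_le_pow_left (S_mono (Nat.le_add_right m r)) 2
    have := Nat.pow_pos (n := 2) (S_pos m)
    omega

variable {α : Type*} [Fintype α] [DecidableEq α]

theorem two_group_le {K : Type*} [Group K] (hK : IsPGroup 2 K) (f : K →* Perm α) (hf : Function.Injective f) :
    Nat.card K ≤ S (Fintype.card α) ∧
      ((∀ k, Perm.sign (f k) = 1) → 2 ≤ Fintype.card α → 2 * Nat.card K ≤ S (Fintype.card α)) := by
  haveI : Finite K := Finite.of_injective f hf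
  obtain ⟨k, hk⟩ := IsPGroup.iff_card.1 hK
  refine ⟨le_S hk ?_, fun h h2 => le_S (k := k + 1) (by rw [hk, pow_succ']) ?_⟩
  · have := card_dvd_of_injective f hf
    rwa [Nat.card_perm, Nat.card_eq_fintype_card (α := α)] at this
  · haveI : Nontrivial α := Fintype.one_lt_card_iff_nontrivial.1 h2
    have := card_dvd_of_injective (f.codRestrict (alternatingGroup α) h) fun a b hab => hf (congrArg Subtype.val hab)
    rw [← Nat.card_eq_fintype_card, ← Nat.card_perm, ← two_mul_nat_card_alternatingGroup]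
    exact Nat.mul_dvd_mul_left _ this

theorem struct (N : Subgroup (Perm α)) (hN : Group.IsNilpotent N) :
    ∃ m r c, m + r = Fintype.card α ∧ Nat.card N ^ 2 ≤ H m * c ^ 2 ∧ c ≤ S r ∧
      (N ≤ alternatingGroup α → 2 ≤ r → 2 * c ≤ S r) ∧
      (m = 3 → ∀ g ∈ N, Odd (orderOf g) → g ≠ 1 → g.IsThreeCycle) := by
  classical
  set Δ : Set α := {x | ∃ g : N, Odd (orderOf g) ∧ g • x ≠ x}
  have hinv : ∀ g : N, ∀ x ∈ Δ, g • x ∈ Δ := by
    rintro g x ⟨a, ha, hx⟩
    refine ⟨g * a * g⁻¹, by rwa [show orderOf (g * a * g⁻¹) = orderOf a from (MulAut.conj g).orderOf_eq a], ?_⟩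
    rwa [mul_smul, inv_smul_smul, mul_smul, Ne, smul_left_cancel_iff]
  have h1 := index_fix_le (G := N) _ Δ rfl hinv fun x hx => hx
  set K := fixingSubgroup N Δ
  have hK : IsPGroup 2 K := isPGroup_two fun g hg => by
    refine Subtype.ext (Subtype.ext (Perm.ext fun x => ?_))
    by_contra hx
    exact hx ((mem_fixingSubgroup_iff N).1 g.2 x ⟨g, by rwa [Subgroup.orderOf_coe], hx⟩)
  have hp : ∀ a : K, ∀ y, ((a : N) : Perm α) y ∉ Δ ↔ y ∉ Δ := fun a y => not_congr
    ⟨fun h => inv_smul_smul (a : N) y ▸ hinv (a : N)⁻¹ _ h, hinv a _⟩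
  have hfix : ∀ a : K, ∀ y, ((a : N) : Perm α) y ≠ y → y ∉ Δ := fun a y h hy =>
    h ((mem_fixingSubgroup_iff N).1 a.2 y hy)
  let f : K →* Perm {y // y ∉ Δ} :=
    MonoidHom.mk' (fun a => ((a : N) : Perm α).subtypePerm (hp a)) fun _ _ => rfl
  have hf : Function.Injective f := (injective_iff_map_eq_one f).2 fun a ha => by
    refine Subtype.ext (Subtype.ext (Perm.ext fun x => ?_))
    by_contra hx
    exact hx (congrArg Subtype.val (Perm.congr_fun ha ⟨x, hfix a x hx⟩))
  obtain ⟨h2, h3⟩ := two_group_le hK f hf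
  refine ⟨Δ.ncard, _, Nat.card K, ?_, ?_, h2, fun h => h3 fun k => ?_, fun h g hg ho hg1 => ?_⟩
  · rw [Fintype.card_subtype_compl, ← Nat.card_eq_fintype_card (α := {x // x ∈ Δ}), Nat.card_coe_set_eq,
      Nat.add_sub_cancel']
    rw [← Nat.card_eq_fintype_card, ← Set.ncard_univ]
    exact Set.ncard_le_ncard (Set.subset_univ _)
  · rw [← K.index_mul_card, mul_pow]
    exact Nat.mul_le_mul_right _ h1
  · exact (Perm.sign_subtypePerm _ (hp k) (hfix k)).trans (h (k : N).2)
  · have h4 : g.support.card ≤ 3 := by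
      rw [← h, ← Set.ncard_coe_finset]
      exact Set.ncard_le_ncard fun x hx => ⟨⟨g, hg⟩, by rwa [Subgroup.orderOf_mk], Perm.mem_support.1 hx⟩
    have h5 := Perm.two_le_card_support_of_ne_one hg1
    have h6 : g.support.card ≠ 2 := fun h => by
      obtain ⟨a, b, hab, rfl⟩ := Perm.card_support_eq_two.1 h
      rw [(Perm.isSwap_iff_cycleType.1 ⟨a, b, hab, rfl⟩ |> fun h => by
        rw [← Perm.lcm_cycleType, h]; simp : orderOf (swap a b) = 2)] at ho
      exact absurd ho (by decide)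
    exact card_support_eq_three_iff.1 (by omega)

theorem le_of_sq {a b : ℕ} (h : a ^ 2 ≤ b ^ 2) : a ≤ b := (Nat.pow_le_pow_iff_left two_ne_zero).1 h

theorem sym_ne (N : Subgroup (Perm α)) (hN : Group.IsNilpotent N) (hn : Fintype.card α % 4 ≠ 3) :
    Nat.card N ≤ S (Fintype.card α) := by
  obtain ⟨m, r, c, h1, h2, h3, -, -⟩ := struct N hN
  rw [← h1] at hn ⊢
  by_cases hm : m = 3
  · subst hm
    have := S_three_of_ne r (by omega)
    rw [show H 3 = 3 ^ 2 from rfl, ← mul_pow] at h2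
    have := le_of_sq h2
    rw [add_comm]; omega
  · refine le_trans (le_of_sq (h2.trans ?_)) (S_mul m r)
    rw [mul_pow]
    exact Nat.mul_le_mul (I1 m hm) (Nat.pow_le_pow_left h3 2)

theorem sym_eq (N : Subgroup (Perm α)) (hN : Group.IsNilpotent N) {r : ℕ} (hr : Fintype.card α = r + 3)
    (hn : (r + 3) % 4 = 3) : Nat.card N ≤ 3 * S r ∧
      (Nat.card N = 3 * S r → ∀ g ∈ N, Odd (orderOf g) → g ≠ 1 → g.IsThreeCycle) := by
  obtain ⟨m, r', c, h1, h2, h3, -, h4⟩ := struct N hN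
  by_cases hm : m = 3
  · subst hm
    obtain rfl : r' = r := by omega
    rw [show H 3 = 3 ^ 2 from rfl, ← mul_pow] at h2
    have := le_of_sq h2
    exact ⟨by omega, fun _ => h4 rfl⟩
  · have : Nat.card N ≤ S (m + r') := by
      refine le_trans (le_of_sq (h2.trans ?_)) (S_mul m r')
      rw [mul_pow]
      exact Nat.mul_le_mul (I1 m hm) (Nat.pow_le_pow_left h3 2)
    rw [h1, hr, S_three_of_eq r hn] at this
    have := S_pos r
    exact ⟨by omega, fun _ => by omega⟩

theorem S_le_one {r : ℕ} (h : r ≤ 1) : S r = 1 := by rw [S_val r (by omega)]; interval_cases r <;> rfl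

theorem alt_ne (N : Subgroup (Perm α)) (hN : Group.IsNilpotent N) (he : N ≤ alternatingGroup α)
    (hn : Fintype.card α % 4 ≠ 3) (h2' : 2 ≤ Fintype.card α) (h5 : Fintype.card α ≠ 5) (h6 : Fintype.card α ≠ 6)
    (h9 : Fintype.card α ≠ 9) : 2 * Nat.card N ≤ S (Fintype.card α) := by
  obtain ⟨m, r, c, h1, h2, h3, h4, -⟩ := struct N hN
  rw [← h1] at hn h5 h6 h9 h2' ⊢
  by_cases hr : 2 ≤ r
  · have h4 := h4 he hr
    by_cases hm : m = 3
    · subst hm
      have := S_three_of_ne r (by omega)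
      rw [show H 3 = 3 ^ 2 from rfl, ← mul_pow] at h2
      have := le_of_sq h2
      rw [add_comm]; omega
    · refine le_trans (le_of_sq ?_) (S_mul m r)
      calc (2 * Nat.card N) ^ 2 ≤ H m * (2 * c) ^ 2 := by rw [mul_pow, mul_pow]; nlinarith
        _ ≤ _ := by rw [mul_pow (S m)]; exact Nat.mul_le_mul (I1 m hm) (Nat.pow_le_pow_left h4 2)
  · have := I3 m r (by omega) (by omega) hn h5 h6 h9
    rw [S_le_one (by omega)] at h3
    have h7 : c ^ 2 ≤ 1 := by simpa using Nat.pow_le_pow_left h3 2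
    refine le_of_sq ?_
    rw [mul_pow]; nlinarith

theorem alt_eq (N : Subgroup (Perm α)) (hN : Group.IsNilpotent N) (he : N ≤ alternatingGroup α) {r : ℕ}
    (hr : Fintype.card α = r + 3) (hn : (r + 3) % 4 = 3) (h7 : 4 ≤ r) : 2 * Nat.card N ≤ 3 * S r ∧
      (2 * Nat.card N = 3 * S r → ∀ g ∈ N, Odd (orderOf g) → g ≠ 1 → g.IsThreeCycle) := by
  obtain ⟨m, r', c, h1, h2, h3, h4, h5⟩ := struct N hN
  have h0 := S_pos r
  by_cases hm : m = 3
  · subst hm
    obtain rfl : r' = r := by omega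
    rw [show H 3 = 3 ^ 2 from rfl, ← mul_pow] at h2
    have := le_of_sq h2
    have := h4 he (by omega)
    exact ⟨by omega, fun _ => h5 rfl⟩
  suffices 2 * Nat.card N < 3 * S r from ⟨this.le, fun _ => by omega⟩
  by_cases hr' : 2 ≤ r'
  · have h4 := h4 he hr'
    have : 2 * Nat.card N ≤ S (m + r') := by
      refine le_trans (le_of_sq ?_) (S_mul m r')
      calc (2 * Nat.card N) ^ 2 ≤ H m * (2 * c) ^ 2 := by rw [mul_pow, mul_pow]; nlinarith
        _ ≤ _ := by rw [mul_pow (S m)]; exact Nat.mul_le_mul (I1 m hm) (Nat.pow_le_pow_left h4 2)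
    rw [h1, hr, S_three_of_eq r hn] at this
    omega
  · have := I4 m r' (by omega) (by omega) (by omega) (by omega)
    rw [h1, hr, S_three_of_eq r hn] at this
    rw [S_le_one (by omega)] at h3
    have h7 : c ^ 2 ≤ 1 := by simpa using Nat.pow_le_pow_left h3 2
    refine lt_of_pow_lt_pow_left₀ 2 (Nat.zero_le _) ?_
    rw [mul_pow, mul_pow] at *; nlinarith

theorem card_sylow_sym (P : Sylow 2 (Perm α)) : Nat.card P = S (Fintype.card α) := by
  rw [P.card_eq_multiplicity, Nat.card_perm, Nat.card_eq_fintype_card]; rfl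

theorem card_sylow_alt (h : 2 ≤ Fintype.card α) (P : Sylow 2 (alternatingGroup α)) :
    2 * Nat.card P = S (Fintype.card α) := by
  haveI : Nontrivial α := Fintype.one_lt_card_iff_nontrivial.1 h
  rw [P.card_eq_multiplicity, S, ← Nat.card_eq_fintype_card, ← Nat.card_perm, ← two_mul_nat_card_alternatingGroup,
    Nat.factorization_mul two_ne_zero Nat.card_pos.ne', Finsupp.add_apply, Nat.prime_two.factorization_self,
    pow_add, pow_one]

theorem conj_of_max {G : Type*} [Group G] [Finite G] {k : ℕ}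
    (hmax : ∀ N : Subgroup G, Group.IsNilpotent N → Nat.card N ≤ 3 * 2 ^ k) (C : G → Prop)
    (hC : ∀ a b, C a → C b → IsConj a b) (N₁ N₂ : Subgroup G) (n1 : Group.IsNilpotent N₁)
    (n2 : Group.IsNilpotent N₂) (c1 : Nat.card N₁ = 3 * 2 ^ k) (c2 : Nat.card N₂ = 3 * 2 ^ k)
    (o1 : ∀ g ∈ N₁, Odd (orderOf g) → g ≠ 1 → C g) (o2 : ∀ g ∈ N₂, Odd (orderOf g) → g ≠ 1 → C g) :
    ∃ g : G, N₂ = N₁.map (MulAut.conj g).toMonoidHom := by
  have key : ∀ N : Subgroup G, Group.IsNilpotent N → Nat.card N = 3 * 2 ^ k →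
      ∃ c ∈ N, orderOf c = 3 ∧ ∃ P : Subgroup G, H92.SylIn 2 P (centralizer {c}) ∧ N = P ⊔ zpowers c := by
    intro N hN hc
    haveI : Fact (Nat.Prime 3) := ⟨Nat.prime_three⟩
    obtain ⟨c, hc3⟩ := exists_prime_orderOf_dvd_card' (G := N) 3 (hc ▸ dvd_mul_right _ _)
    obtain ⟨P⟩ : Nonempty (Sylow 2 N) := inferInstance
    have hP : Nat.card P = 2 ^ k := by
      rw [P.card_eq_multiplicity, hc, Nat.factorization_mul (by norm_num) (by positivity), Finsupp.add_apply,
        Nat.factorization_eq_zero_of_not_dvd (by norm_num), Nat.prime_two.factorization_pow]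
      simp
    have h3 : orderOf (c : G) = 3 := by rw [Subgroup.orderOf_coe, hc3]
    have cop : ∀ R : Subgroup G, IsPGroup 2 R → R ≤ centralizer {(c : G)} →
        Nat.card ↥(R ⊔ zpowers (c : G)) = 3 * Nat.card R ∧ Group.IsNilpotent ↥(R ⊔ zpowers (c : G)) := by
      intro R hR hRc
      have hz : IsPGroup 3 (zpowers (c : G)) := IsPGroup.of_card (n := 1) (by rw [Nat.card_zpowers, h3]; rfl)
      have hcc : R ≤ centralizer (zpowers (c : G) : Set G) := fun x hx => by
        rintro _ ⟨i, rfl⟩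
        exact (Commute.zpow_left (hRc hx c rfl) i).eq
      refine ⟨?_, H49.nilpotent_sup_of_cent hR.isNilpotent hz.isNilpotent hcc⟩
      have hd : Disjoint R (zpowers (c : G)) := IsPGroup.disjoint_of_ne 2 3 (by norm_num) _ _ hR hz
      have := H49.card_sup_mul_card_inf (H := R) (K := zpowers (c : G))
        (Or.inl (hcc.trans (centralizer_le_normalizer _)))
      rw [hd.eq_bot, card_bot, mul_one, Nat.card_zpowers, h3] at this
      rw [this, mul_comm]
    set P' := (P : Subgroup N).map N.subtype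
    have hP' : IsPGroup 2 P' := P.isPGroup'.map _
    have cP' : Nat.card P' = 2 ^ k := by rw [card_map_of_injective N.subtype_injective, hP]
    have hle : P' ≤ centralizer {(c : G)} := by
      rintro _ ⟨x, hx, rfl⟩ _ rfl
      obtain ⟨j, hj⟩ := IsPGroup.iff_orderOf.1 P.isPGroup' ⟨x, hx⟩
      rw [Subgroup.orderOf_mk] at hj
      exact congrArg Subtype.val (H3.commute_of_coprime_orderOf c x (by
        rw [hc3, hj]; exact Nat.Coprime.pow_right _ (by norm_num))).eq
    refine ⟨c, c.2, h3, P', ⟨hle, hP', fun R h2 hR h1 => ?_⟩, ?_⟩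
    · obtain ⟨e1, e2⟩ := cop R hR h2
      have := hmax _ e2
      exact (eq_of_le_of_card_ge h1 (by omega)).symm
    · refine (eq_of_le_of_card_ge (sup_le (map_subtype_le _) (zpowers_le.2 c.2)) ?_).symm
      rw [(cop P' hP' hle).1, cP', hc]
  obtain ⟨a, ha, a3, P, hP, rfl⟩ := key N₁ n1 c1
  obtain ⟨b, hb, b3, R, hR, rfl⟩ := key N₂ n2 c2
  have ne1 : ∀ x : G, orderOf x = 3 → x ≠ 1 := by rintro _ h rfl; simp at h
  obtain ⟨g, rfl⟩ := isConj_iff.1 (hC a b (o1 a ha (by rw [a3]; decide) (ne1 a a3))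
    (o2 b hb (by rw [b3]; decide) (ne1 b b3)))
  have h1 := hP.map (MulAut.conj g).toMonoidHom
  have h2 : (centralizer {a}).map (MulAut.conj g).toMonoidHom = centralizer {g * a * g⁻¹} := by
    ext x
    rw [mem_map_equiv, mem_centralizer_singleton_iff, mem_centralizer_singleton_iff, MulAut.conj_symm_apply]
    constructor <;> intro h
    · calc _ = g * (g⁻¹ * x * g * a) * g⁻¹ := by group
        _ = _ := by rw [h]; group
    · calc _ = g⁻¹ * (x * (g * a * g⁻¹)) * g := by group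
        _ = _ := by rw [h]; group
  rw [h2] at h1
  obtain ⟨h, hh, e⟩ := h1.exists_conj_eq hR
  rw [mem_centralizer_singleton_iff] at hh
  refine ⟨h⁻¹ * g, ?_⟩
  rw [Subgroup.map_sup, MonoidHom.map_zpowers]
  congr 1
  · ext x
    rw [e, mem_map_equiv, mem_map_equiv, MulAut.conj_symm_apply, MulAut.conj_symm_apply]
    simp [mul_assoc]
  · congr 1
    show _ = h⁻¹ * g * a * (h⁻¹ * g)⁻¹
    calc _ = h⁻¹ * (h * (g * a * g⁻¹)) := by group
      _ = _ := by rw [hh]; group

end Cfsg.Agent.H62.NilSym
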