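import Cfsg.Agent.H62.NilSym2

/-! The extremal nilpotent subgroups `P × C₃`. -/

set_option autoImplicit false

namespace Cfsg.Agent.H62.NilSym

open Subgroup Equiv

theorem exists_ext {K : Type*} [Group K] [Finite K] (hK : IsPGroup 2 K) {r : ℕ} (f : K →* Perm (Fin r))
    (hf : Function.Injective f) : ∃ M : Subgroup (Perm (Fin (r + 3))), Group.IsNilpotent M ∧
      Nat.card M = 3 * Nat.card K ∧ Nonempty (M ≃* K × Multiplicative (ZMod 3)) ∧
      ((∀ k, Perm.sign (f k) = 1) → M ≤ alternatingGroup _) := by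
  haveI : Fact (Nat.Prime 3) := ⟨Nat.prime_three⟩
  have hc : Nat.card (alternatingGroup (Fin 3)) = 3 := by rw [nat_card_alternatingGroup]; simp [Nat.factorial]
  let e : Multiplicative (ZMod 3) ≃* alternatingGroup (Fin 3) := mulEquivOfPrimeCardEq (p := 3) (by simp) hc
  let g : K × Multiplicative (ZMod 3) →* Perm (Fin (r + 3)) :=
    ((finSumFinEquiv.permCongrHom).toMonoidHom.comp (Perm.sumCongrHom _ _)).comp
      (f.prodMap ((alternatingGroup (Fin 3)).subtype.comp e.toMonoidHom))
  have hg : Function.Injective g :=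
    (finSumFinEquiv.permCongrHom.injective.comp Perm.sumCongrHom_injective).comp
      (hf.prodMap (Subtype.val_injective.comp e.injective))
  haveI := hK.isNilpotent
  refine ⟨g.range, Group.nilpotent_of_surjective _ (MonoidHom.rangeRestrict_surjective _), ?_,
    ⟨(MonoidHom.ofInjective hg).symm⟩, fun h => ?_⟩
  · rw [← Nat.card_congr (MonoidHom.ofInjective hg).toEquiv, Nat.card_prod]; simp [mul_comm]
  · rintro _ ⟨⟨a, b⟩, rfl⟩
    have := Perm.mem_alternatingGroup.1 (e b).2
    simp [g, Perm.mem_alternatingGroup, Perm.sign_sumCongr, h, this]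

end Cfsg.Agent.H62.NilSym
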