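import Cfsg.Agent.H62.Unitri
import Cfsg.Agent.H9.SLBasic

/-! Two-element generation of `SL_{n+1}(K)` (Steinberg). -/

namespace Cfsg.Agent.H62.SLGen

open Matrix Subgroup
open scoped MatrixGroups commutatorElement

variable {n : ℕ} {K : Type*} [Field K]

/-- sign of the cyclic monomial matrix -/
def sg (K : Type*) [Field K] (n : ℕ) (i : Fin (n + 1)) : K := if i.val = n then (-1) ^ n else 1

theorem sg_sq (i : Fin (n + 1)) : sg K n i * sg K n i = 1 := by
  unfold sg; split_ifs
  · rw [← pow_add, ← two_mul, pow_mul]; simp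
  · simp

/-- the cyclic monomial matrix -/
def IsW (w : SL(n + 1, K)) : Prop := ∀ i j, w i j = if j = i + 1 then sg K n i else 0

theorem isW_of (hn : 1 ≤ n) (w : SL(n + 1, K))
    (hw : (w : Matrix (Fin (n + 1)) (Fin (n + 1)) K) =
      Matrix.of (fun i j => if j.val = i.val + 1 then 1 else if i.val = n ∧ j.val = 0 then (-1) ^ n else 0)) :
    IsW w := by
  intro i j
  have h := congrFun (congrFun hw i) j
  rw [Matrix.of_apply] at h
  change w i j = _ at h
  rw [h]
  have hi := i.isLt
  have hj := j.isLt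
  have h1 : ((1 : Fin (n + 1)) : ℕ) = 1 := by
    rw [Fin.val_one']; exact Nat.mod_eq_of_lt (by omega)
  have key : j = i + 1 ↔ j.val = (i.val + 1) % (n + 1) := by
    rw [Fin.ext_iff, Fin.val_add, h1]
  unfold sg
  by_cases hin : i.val = n
  · have : (i.val + 1) % (n + 1) = 0 := by rw [hin]; simp
    rw [this] at key
    simp only [key, hin]
    rw [if_neg (by omega)]
    simp
  · have : (i.val + 1) % (n + 1) = i.val + 1 := Nat.mod_eq_of_lt (by omega)
    rw [this] at key
    simp only [key, hin]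
    simp

theorem w_tv {w : SL(n + 1, K)} (hw : IsW w) {i j : Fin (n + 1)} (hij : i ≠ j) (hij' : i + 1 ≠ j + 1)
    (b : K) : w * SpecialLinearGroup.transvection hij' (b * sg K n j * sg K n i) =
      SpecialLinearGroup.transvection hij b * w := by
  ext k l
  rw [mul_tv_apply, tv_mul_apply, hw k (i + 1), hw j l]
  congr 1
  by_cases h1 : l = j + 1 <;> by_cases h2 : k = i
  · subst h2; simp only [h1, if_true]; rw [mul_assoc (b * _), sg_sq, mul_one]
  · have : ¬ (i + 1 = k + 1) := fun h => h2 (add_right_cancel h).symm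
    simp [h1, h2, this]
  · simp [h1, h2]
  · simp [h1, h2]

theorem top_of_w (hn : 1 ≤ n) (H : Subgroup SL(n + 1, K)) {w : SL(n + 1, K)} (hw : IsW w) (hwH : w ∈ H)
    (h01 : (0 : Fin (n + 1)) ≠ 1) (hx : ∀ a, SpecialLinearGroup.transvection h01 a ∈ H) : H = ⊤ := by
  have h1 : ((1 : Fin (n + 1)) : ℕ) = 1 := by
    rw [Fin.val_one']; exact Nat.mod_eq_of_lt (by omega)
  -- shift
  have shift : ∀ (i j : Fin (n + 1)) (hij : i ≠ j) (hij' : i + 1 ≠ j + 1),
      (∀ a, SpecialLinearGroup.transvection hij a ∈ H) →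
      ∀ a, SpecialLinearGroup.transvection hij' a ∈ H := by
    intro i j hij hij' h a
    have e := w_tv hw hij hij' (a * sg K n i * sg K n j)
    have ea : a * sg K n i * sg K n j * sg K n j * sg K n i = a := by
      rw [mul_assoc (a * _), sg_sq, mul_one, mul_assoc, sg_sq, mul_one]
    rw [ea] at e
    have : SpecialLinearGroup.transvection hij' a =
        w⁻¹ * (SpecialLinearGroup.transvection hij (a * sg K n i * sg K n j) * w) := by
      rw [← e]; group
    rw [this]
    exact H.mul_mem (H.inv_mem hwH) (H.mul_mem (h _) hwH)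
  have succ_eq : ∀ (m : ℕ) (d : Fin (n + 1)) (hd : d.val = m + 1), d = ⟨m, by omega⟩ + 1 := by
    intro m d hd
    rw [Fin.ext_iff, Fin.val_add, h1, hd]
    exact (Nat.mod_eq_of_lt (by have := d.isLt; simpa [hd] using this)).symm
  have adj : ∀ (m : ℕ) (i : Fin (n + 1)), i.val = m → ∀ (j : Fin (n + 1)) (h : i ≠ j), j = i + 1 →
      ∀ a, SpecialLinearGroup.transvection h a ∈ H := by
    intro m
    induction m with
    | zero =>
      intro i hi j h hj a
      have : i = 0 := Fin.ext hi
      subst this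
      rw [zero_add] at hj
      subst hj
      exact hx a
    | succ m ih =>
      intro i hi j h hj a
      obtain ⟨i', hv, e⟩ : ∃ i' : Fin (n + 1), i'.val = m ∧ i = i' + 1 := ⟨_, rfl, succ_eq m i hi⟩
      subst hj e
      have hne : i' ≠ i' + 1 := fun h' => h (congrArg (· + 1) h')
      exact shift i' (i' + 1) hne h (ih i' hv _ hne rfl) a
  have all : ∀ (m : ℕ), 1 ≤ m → ∀ (d : Fin (n + 1)), d.val = m → ∀ (i j : Fin (n + 1)) (h : i ≠ j),
      j = i + d → ∀ a, SpecialLinearGroup.transvection h a ∈ H := by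
    intro m hm
    induction m, hm using Nat.le_induction with
    | base =>
      intro d hd i j h hj a
      have : d = 1 := Fin.ext (hd.trans h1.symm)
      subst this
      exact adj _ i rfl j h hj a
    | succ m hm ih =>
      intro d hd i j h hj a
      have e := succ_eq m d hd
      set d' : Fin (n + 1) := ⟨m, by omega⟩ with hd'
      have hik : i ≠ i + d' := by
        intro h'
        have : d' = 0 := by simpa using h'
        have := congrArg Fin.val this
        simp [hd'] at this; omega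
      have hkj : i + d' ≠ j := by
        rw [hj, e, ← add_assoc]
        intro h'
        have : (1 : Fin (n + 1)) = 0 := by simpa using h'
        exact h01 this.symm
      rw [← one_mul a, ← H9.commutator_transvection h hik hkj, commutatorElement_def]
      have m1 := ih d' rfl i _ hik rfl 1
      have m2 := adj _ (i + d') rfl j hkj (by rw [hj, e, add_assoc]) a
      exact H.mul_mem (H.mul_mem (H.mul_mem m1 m2) (H.inv_mem m1)) (H.inv_mem m2)
  refine H9.sl_subgroup_eq_top_of_transvection H fun i j hij c => ?_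
  refine all (j - i).val ?_ (j - i) rfl i j hij (by abel) c
  by_contra h0
  have : j - i = 0 := Fin.ext (by rw [Fin.val_zero]; omega)
  exact hij (sub_eq_zero.1 this).symm

theorem tv_eq {x : SL(n + 1, K)} (h01 : (0 : Fin (n + 1)) ≠ 1)
    (hx : (x : Matrix (Fin (n + 1)) (Fin (n + 1)) K) = Matrix.transvection (0 : Fin (n + 1)) (1 : Fin (n + 1)) 1) :
    x = SpecialLinearGroup.transvection h01 1 := Subtype.ext hx

theorem zero_ne_one' (hn : 1 ≤ n) : (0 : Fin (n + 1)) ≠ 1 := by
  intro h
  have := congrArg Fin.val h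
  rw [Fin.val_one', Nat.mod_eq_of_lt (by omega)] at this
  simp at this

/-- diagonal elements -/
def IsD (h : SL(n + 1, K)) (D : Fin (n + 1) → K) : Prop := ∀ i j, h i j = if i = j then D i else 0

theorem d_tv {h : SL(n + 1, K)} {D : Fin (n + 1) → K} (hD : IsD h D) {i j : Fin (n + 1)} (hij : i ≠ j)
    (a b : K) (hab : D i * a = b * D j) :
    h * SpecialLinearGroup.transvection hij a = SpecialLinearGroup.transvection hij b * h := by
  ext k l
  rw [mul_tv_apply, tv_mul_apply, hD k i, hD j l]
  congr 1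
  by_cases h1 : l = j <;> by_cases h2 : k = i
  · subst h1 h2; simp [← hab, mul_comm]
  · simp [h1, h2]
  · simp [h1, h2, Ne.symm h1]
  · simp [h1, h2]

theorem mul_apply' (g h : SL(n + 1, K)) (i j) : (g * h) i j = ∑ k, g i k * h k j := by
  show (g.1 * h.1) i j = _
  rw [Matrix.mul_apply]

theorem d_comm {h h' : SL(n + 1, K)} {D D' : Fin (n + 1) → K} (hD : IsD h D) (hD' : IsD h' D') :
    h * h' = h' * h := by
  ext k l
  rw [mul_apply', mul_apply']
  simp only [hD k, hD' k, ite_mul, zero_mul, Finset.sum_ite_eq, Finset.mem_univ, if_true, hD' k l, hD k l]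
  split_ifs <;> simp [mul_comm]

theorem isD_conj {w h : SL(n + 1, K)} (hw : IsW w) {D : Fin (n + 1) → K} (hD : IsD h D) :
    IsD (w * h * w⁻¹) (fun i => D (i + 1)) := by
  have key : ∀ i j, (w * h) i j = D (i + 1) * w i j := by
    intro i j
    rw [mul_apply']
    simp only [hw i, ite_mul, zero_mul, Finset.sum_ite_eq', Finset.mem_univ, if_true, hD (i + 1) j]
    by_cases h : j = i + 1
    · simp [h, mul_comm]
    · simp [h, Ne.symm h]
  intro i j
  rw [mul_apply']
  simp only [key, mul_assoc, ← Finset.mul_sum]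
  rw [← mul_apply', mul_inv_cancel]
  show D (i + 1) * (1 : Matrix _ _ K) i j = _
  rw [Matrix.one_apply]
  split_ifs <;> simp

theorem top_of_h [Fintype K] (hK : 3 < Fintype.card K) (hn : 1 ≤ n) (k : Kˣ)
    (hk : ∀ u : Kˣ, u ∈ Subgroup.zpowers k) (H : Subgroup SL(n + 1, K)) {h w : SL(n + 1, K)}
    (hD : IsD h (fun i => if i.val = 0 then (k : K) else if i.val = 1 then ((k⁻¹ : Kˣ) : K) else 1))
    (hw : IsW w) (hh : h ∈ H)
    (hy : SpecialLinearGroup.transvection (zero_ne_one' hn) 1 * w ∈ H) : H = ⊤ := by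
  classical
  set h01 := zero_ne_one' hn
  have h1 : ((1 : Fin (n + 1)) : ℕ) = 1 := by
    rw [Fin.val_one']; exact Nat.mod_eq_of_lt (by omega)
  set D : Fin (n + 1) → K := fun i => if i.val = 0 then (k : K) else if i.val = 1 then ((k⁻¹ : Kˣ) : K) else 1
    with hDdef
  have hD0 : D 0 = k := by simp [hDdef]
  have hD1 : D 1 = (k : K)⁻¹ := by simp only [hDdef, h1]; simp
  have hk0 : (k : K) ≠ 0 := k.ne_zero
  have hord : orderOf k = Fintype.card K - 1 := by
    rw [orderOf_eq_card_of_forall_mem_zpowers hk, Nat.card_units, Nat.card_eq_fintype_card]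
  have hk2 : (k : K) ^ 2 ≠ 1 := by
    intro h2
    have : k ^ 2 = 1 := Units.ext (by simpa using h2)
    have := Nat.le_of_dvd (by norm_num) (orderOf_dvd_of_pow_eq_one this)
    omega
  have hk1 : (k : K) ≠ 1 := fun h => hk2 (by rw [h]; simp)
  have hD2 : D (1 + 1) ≠ 0 ∧ D (1 + 1) ≠ (k : K)⁻¹ := by
    have hv : ((1 + 1 : Fin (n + 1)) : ℕ) ≠ 1 := by
      intro h'
      have : (1 + 1 : Fin (n + 1)) = 1 := Fin.ext (h'.trans h1.symm)
      have : (1 : Fin (n + 1)) = 0 := by simpa using this
      exact h01 this.symm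
    simp only [hDdef, hv, if_false]
    split_ifs
    · refine ⟨hk0, fun h' => hk2 ?_⟩
      rw [sq]; nth_rewrite 2 [h']; exact mul_inv_cancel₀ hk0
    · exact ⟨one_ne_zero, fun h' => hk1 (by rw [eq_comm, inv_eq_one] at h'; exact h')⟩
  set T : K → SL(n + 1, K) := fun a => SpecialLinearGroup.transvection h01 a with hT
  have Tadd : ∀ a b, T (a + b) = T a * T b := fun a b => SpecialLinearGroup.transvection_add _ _ _
  have Tinv : ∀ a, (T a)⁻¹ = T (-a) := fun a => SpecialLinearGroup.transvection_inv _ _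
  have hconj : ∀ a, h * T a * h⁻¹ = T ((k : K) ^ 2 * a) := by
    intro a
    rw [mul_inv_eq_iff_eq_mul]
    exact d_tv hD h01 _ _ (by rw [hD0, hD1]; field_simp)
  set h' := w * h * w⁻¹
  have hD' := isD_conj hw hD
  set c : K := 1 - (k : K)⁻¹ / D (1 + 1) with hc
  have hc0 : c ≠ 0 := by
    rw [hc, sub_ne_zero]
    intro h''
    apply hD2.2
    rw [eq_div_iff hD2.1, one_mul] at h''
    exact h''
  have e1 : T 1 * w * h * (T 1 * w)⁻¹ = T c * h' := by
    have : h' * T (-1) = T (-((k : K)⁻¹ / D (1 + 1))) * h' :=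
      d_tv hD' h01 _ _ (by
        simp only [zero_add]
        rw [hD1]; have := hD2.1; field_simp)
    rw [hc, sub_eq_add_neg, Tadd, mul_assoc (T 1) (T _), ← this, ← Tinv]
    simp only [h']; group
  have m1 : T c * h' ∈ H := by
    rw [← e1]
    exact H.mul_mem (H.mul_mem hy hh) (H.inv_mem hy)
  have m2 : T (((k : K) ^ 2 - 1) * c) ∈ H := by
    have : T (((k : K) ^ 2 - 1) * c) = h * (T c * h') * h⁻¹ * (T c * h')⁻¹ := by
      have hcm : h * h' = h' * h := d_comm hD hD'
      have : h * (T c * h') * h⁻¹ = (h * T c * h⁻¹) * h' := by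
        have : h' * h⁻¹ = h⁻¹ * h' := by
          rw [eq_inv_mul_iff_mul_eq, ← mul_assoc, hcm, mul_inv_cancel_right]
        rw [mul_assoc, mul_assoc, this]; group
      rw [this, hconj, sub_mul, one_mul, sub_eq_add_neg, Tadd, ← Tinv]; group
    rw [this]
    exact H.mul_mem (H.mul_mem (H.mul_mem hh m1) (H.inv_mem hh)) (H.inv_mem m1)
  set c0 := ((k : K) ^ 2 - 1) * c
  have hc00 : c0 ≠ 0 := mul_ne_zero (sub_ne_zero.2 hk2) hc0
  have hpow : ∀ m : ℕ, T (((k : K) ^ m) ^ 2 * c0) ∈ H := by
    intro m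
    induction m with
    | zero => simpa using m2
    | succ m ih =>
      have : ((k : K) ^ (m + 1)) ^ 2 * c0 = (k : K) ^ 2 * (((k : K) ^ m) ^ 2 * c0) := by ring
      rw [this, ← hconj]
      exact H.mul_mem (H.mul_mem hh ih) (H.inv_mem hh)
  have hsq : ∀ u : K, T (u ^ 2 * c0) ∈ H := by
    intro u
    by_cases hu : u = 0
    · subst hu; simp [hT, H.one_mem]
    · have := hk (Units.mk0 u hu)
      rw [← mem_powers_iff_mem_zpowers] at this
      obtain ⟨m, hm⟩ := this
      have : u = (k : K) ^ m := by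
        have := congrArg Units.val hm
        simpa using this.symm
      rw [this]; exact hpow m
  have hall : ∀ a, T a ∈ H := by
    intro a
    by_cases h2 : ringChar K = 2
    · obtain ⟨r, hr⟩ := FiniteField.isSquare_of_char_two h2 (a / c0)
      have : a = r ^ 2 * c0 := by rw [sq, ← hr]; field_simp
      rw [this]; exact hsq r
    · have h2' : (2 : K) ≠ 0 := Ring.two_ne_zero h2
      have : a = ((a / c0 + 1) / 2) ^ 2 * c0 + -(((a / c0 - 1) / 2) ^ 2 * c0) := by
        field_simp; ring
      rw [this, Tadd, ← Tinv]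
      exact H.mul_mem (hsq _) (H.inv_mem (hsq _))
  refine top_of_w hn H hw ?_ h01 hall
  have : w = (T 1)⁻¹ * (T 1 * w) := by group
  rw [this]
  exact H.mul_mem (H.inv_mem (hall 1)) hy

end Cfsg.Agent.H62.SLGen
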