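import Cfsg.Agent.H27.SkH
import Cfsg.Agent.H27.Hyp
import Cfsg.Agent.H62.SimpleCrit
import Cfsg.Agent.H62.Stable

/-! Flags, Borel subgroups and Sylow subgroups of symplectic and unitary groups, without
coordinates. -/

set_option autoImplicit false
set_option linter.unusedSectionVars false

namespace Cfsg.Agent.H62

open Module Cfsg.Agent.H27 Subgroup

variable {F V : Type*} [Field F] [AddCommGroup V] [Module F V] {σ : F →+* F}
  {G : Type*} [Group G] {m : ℕ}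

section MM
variable {e : Fin m → V}

/-- The span of the first `i` vectors. -/
def MM (F : Type*) [Field F] [Module F V] (e : Fin m → V) (i : ℕ) : Submodule F V :=
  Submodule.span F (e '' {j | (j : ℕ) < i})

theorem e_mem_MM {j : Fin m} {i : ℕ} (h : (j : ℕ) < i) : e j ∈ MM F e i :=
  Submodule.subset_span ⟨j, h, rfl⟩

theorem MM_le {i : ℕ} {W : Submodule F V} (h : ∀ j : Fin m, (j : ℕ) < i → e j ∈ W) :
    MM F e i ≤ W := Submodule.span_le.2 (by rintro _ ⟨j, hj, rfl⟩; exact h j hj)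

theorem MM_mono {i k : ℕ} (h : i ≤ k) : MM F e i ≤ MM F e k :=
  MM_le fun _ hj => e_mem_MM (hj.trans_le h)

theorem eq_zero_of_MM_zero {x : V} (h : x ∈ MM F e 0) : x = 0 :=
  (Submodule.mem_bot F).1 (MM_le (fun _ hj => absurd hj (Nat.not_lt_zero _)) h)

theorem MM_le_top (i : ℕ) : MM F e i ≤ MM F e m := MM_le fun j _ => e_mem_MM j.2

theorem exists_of_mem_succ (k : Fin m) {x : V} (hx : x ∈ MM F e (k + 1)) :
    ∃ c : F, x - c • e k ∈ MM F e k := by
  have : MM F e (k + 1) ≤ Submodule.span F {e k} ⊔ MM F e k := MM_le fun j hj => by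
    rcases (Nat.lt_succ_iff.1 hj).eq_or_lt with h | h
    · rw [Fin.ext h]; exact Submodule.mem_sup_left (Submodule.mem_span_singleton_self _)
    · exact Submodule.mem_sup_right (e_mem_MM h)
  obtain ⟨y, hy, z, hz, rfl⟩ := Submodule.mem_sup.1 (this hx)
  obtain ⟨c, rfl⟩ := Submodule.mem_span_singleton.1 hy
  exact ⟨c, by simpa using hz⟩

theorem map_MM_eq_zero {i : ℕ} (φ : V →ₗ[F] F) (h : ∀ j : Fin m, (j : ℕ) < i → φ (e j) = 0)
    {x : V} (hx : x ∈ MM F e i) : φ x = 0 := MM_le (W := LinearMap.ker φ) h hx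

end MM

variable (ρ : G →* V ≃ₗ[F] V)

theorem rho_mul (a b : G) (x : V) : ρ (a * b) x = ρ a (ρ b x) := by rw [map_mul]; rfl
theorem rho_one (x : V) : ρ 1 x = x := by rw [map_one]; rfl
theorem rho_inv (a : G) (x : V) : ρ a⁻¹ (ρ a x) = x := by
  rw [← rho_mul, inv_mul_cancel, rho_one]
theorem rho_inv' (a : G) (x : V) : ρ a (ρ a⁻¹ x) = x := by
  rw [← rho_mul, mul_inv_cancel, rho_one]

variable {ρ} in
theorem rho_inv_of {a : G} {x y : V} (h : ρ a x = y) : ρ a⁻¹ y = x := by rw [← h, rho_inv]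

variable {ρ} in
theorem rho_pow {a : G} {x y : V} (h : ρ a x = x + y) (h' : ρ a y = y) (n : ℕ) :
    ρ (a ^ n) x = x + (n : F) • y := by
  induction n with
  | zero => simp
  | succ n ih => rw [pow_succ', rho_mul, ih, map_add, map_smul, h, h', Nat.cast_succ]; module

/-- The unipotent radical of the stabiliser of `u`. -/
def QQ (B : V →ₛₗ[σ] V →ₗ[F] F) (u : V) : Subgroup G where
  carrier := {g | ρ g u = u ∧ ∀ x, B u x = 0 → ∃ c : F, ρ g x = x + c • u}
  one_mem' := ⟨rho_one ρ u, fun x _ => ⟨0, by simp⟩⟩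
  mul_mem' := fun {a b} ha hb => ⟨by rw [rho_mul, hb.1, ha.1], fun x hx => by
    obtain ⟨c, hc⟩ := ha.2 x hx
    obtain ⟨d, hd⟩ := hb.2 x hx
    exact ⟨c + d, by rw [rho_mul, hd, map_add, map_smul, hc, ha.1]; module⟩⟩
  inv_mem' := fun {a} ha => ⟨rho_inv_of ha.1, fun x hx => by
    obtain ⟨c, hc⟩ := ha.2 x hx
    exact ⟨-c, rho_inv_of (by rw [map_add, map_smul, hc, ha.1]; module)⟩⟩

/-- The stabiliser of the flag. -/
def Bor (e : Fin m → V) : Subgroup G := ⨅ i, (stab (MM F e i)).comap ρ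

variable {ρ} in
theorem Bor.apply {e : Fin m → V} {g : G} (h : g ∈ Bor ρ e) {i : ℕ} {x : V} (hx : x ∈ MM F e i) :
    ρ g x ∈ MM F e i := stab_apply (mem_iInf.1 h i) hx

/-- The unipotent radical of the stabiliser of the flag. -/
def UU (e : Fin m → V) : Subgroup G where
  carrier := {g | g ∈ Bor ρ e ∧ ∀ i, ∀ x ∈ MM F e (i + 1), ρ g x - x ∈ MM F e i}
  one_mem' := ⟨one_mem _, fun i x _ => by simp⟩
  mul_mem' := fun {a b} ha hb => ⟨mul_mem ha.1 hb.1, fun i x hx => by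
    have := add_mem (ha.2 i _ (Bor.apply hb.1 hx)) (hb.2 i x hx)
    rwa [sub_add_sub_cancel, ← rho_mul] at this⟩
  inv_mem' := fun {a} ha => ⟨inv_mem ha.1, fun i x hx => by
    have := neg_mem (ha.2 i _ (Bor.apply (inv_mem ha.1) hx))
    rwa [rho_inv', neg_sub] at this⟩

/-- The pointwise stabiliser of a set. -/
def FixS (X : Set V) : Subgroup G where
  carrier := {g | ∀ x ∈ X, ρ g x = x}
  one_mem' := fun x _ => rho_one ρ x
  mul_mem' := fun {a b} ha hb x hx => by rw [rho_mul, hb x hx, ha x hx]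
  inv_mem' := fun {_} ha x hx => rho_inv_of (ha x hx)

/-- The first `k` hyperbolic pairs. -/
def prs (e f : Fin m → V) (k : ℕ) : Set V := {x | ∃ j : Fin m, (j : ℕ) < k ∧ (x = e j ∨ x = f j)}

variable {ρ} [FiniteDimensional F V] {e f : Fin m → V}

theorem mem_Bor {g : G} (h : ∀ j : Fin m, ρ g (e j) ∈ MM F e (j + 1)) : g ∈ Bor ρ e :=
  mem_iInf.2 fun i => mem_stab_of_mapsTo fun _ hx =>
    MM_le (W := Submodule.comap (ρ g : V →ₗ[F] V) (MM F e i)) (fun j hj => MM_mono hj (h j)) hx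

theorem mem_UU {g : G} (h : ∀ j : Fin m, ρ g (e j) - e j ∈ MM F e j) : g ∈ UU ρ e :=
  ⟨mem_Bor fun j => by
    simpa using add_mem (MM_mono (Nat.le_succ _) (h j)) (e_mem_MM (Nat.lt_succ_self _)),
   fun i _ hx => by
    let L : V →ₗ[F] V := (ρ g).toLinearMap - LinearMap.id
    have hL : ∀ x, L x = ρ g x - x := fun _ => by simp [L]
    rw [← hL]
    exact MM_le (W := Submodule.comap L (MM F e i))
      (fun j hj => MM_mono (Nat.lt_succ_iff.1 hj) (hL _ ▸ h j)) hx⟩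

theorem conj_mem_UU {g u : G} (hg : g ∈ Bor ρ e) (hu : u ∈ UU ρ e) : g * u * g⁻¹ ∈ UU ρ e :=
  ⟨mul_mem (mul_mem hg hu.1) (inv_mem hg), fun i x hx => by
    have := Bor.apply hg (hu.2 i _ (Bor.apply (inv_mem hg) hx))
    rwa [map_sub, rho_inv', ← rho_mul, ← rho_mul] at this⟩

theorem Bor_le_normalizer [Finite G] : Bor ρ e ≤ normalizer (UU ρ e : Set G) :=
  fun _ hg => H91.mem_normalizer_of_conj_mem fun _ hu => conj_mem_UU hg hu

theorem mem_UU_of_QQ {B : V →ₛₗ[σ] V →ₗ[F] F} (hee : ∀ i j, B (e i) (e j) = 0) {k : Fin m} {g : G}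
    (hg : g ∈ QQ ρ B (e k)) (h : ∀ j : Fin m, j < k → ρ g (e j) = e j) : g ∈ UU ρ e :=
  mem_UU fun j => by
    rcases lt_trichotomy j k with hj | rfl | hj
    · rw [h j hj, sub_self]; exact zero_mem _
    · rw [hg.1, sub_self]; exact zero_mem _
    · obtain ⟨c, hc⟩ := hg.2 (e j) (hee k j)
      rw [hc, add_sub_cancel_left]
      exact Submodule.smul_mem _ _ (e_mem_MM hj)

theorem mem_normalizer_FixS [Finite G] {X : Set V} {g : G} (h : ∀ x ∈ X, ρ g⁻¹ x ∈ X) :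
    g ∈ normalizer (FixS ρ X : Set G) :=
  H91.mem_normalizer_of_conj_mem fun q hq x hx => by
    rw [rho_mul, rho_mul, hq _ (h x hx), rho_inv']

/-- A group acting as the special isometry group of a skew-Hermitian form. -/
structure Rp (ρ : G →* V ≃ₗ[F] V) (B : V →ₛₗ[σ] V →ₗ[F] F) : Prop where
  skh : SkH B
  inj : Function.Injective ρ
  mem : ∀ g, ρ g ∈ GG B
  surj : ∀ g ∈ GG B, ∃ x, ρ x = g

variable {B : V →ₛₗ[σ] V →ₗ[F] F}

namespace Rp
variable (R : Rp ρ B)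
include R

theorem iso (g : G) (x y : V) : B (ρ g x) (ρ g y) = B x y := (R.mem g).1 x y

theorem ext {a b : G} (h : ∀ x, ρ a x = ρ b x) : a = b := R.inj (LinearEquiv.ext h)

theorem exists_E {u v : V} {t : F} (hu : B u u = 0) (hv : B u v = 0) (ht : t - σ t = B v v) :
    ∃ g ∈ QQ ρ B u, ∀ z, ρ g z = z + B u z • v + (B v z + t * B u z) • u := by
  obtain ⟨g, hg, h⟩ := R.skh.exists_E hu hv ht
  obtain ⟨g, rfl⟩ := R.surj g hg
  exact ⟨g, ⟨by simp [h, hu, R.skh.zero_symm hv], fun x hx => ⟨B v x, by simp [h, hx]⟩⟩, h⟩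

theorem move {u x y : V} (hu : B u u = 0) (hx : B x x = 0) (hy : B y y = 0) (h : B u x = B u y)
    (h0 : B u x ≠ 0) : ∃ g ∈ QQ ρ B u, ρ g x = y ∧
      ∀ z, B u z = 0 → B x z = B y z → ρ g z = z := by
  have h1 : σ (B u x) ≠ 0 := (map_ne_zero σ).2 h0
  obtain ⟨g, hg, hf⟩ := R.exists_E (u := u) (v := (B u x)⁻¹ • (y - x))
    (t := -(B y x / (B u x * σ (B u x)))) hu (by simp [h]) (by
      simp only [map_smul, LinearMap.map_smulₛₗ, map_sub, LinearMap.sub_apply, hx, hy,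
        LinearMap.smul_apply, smul_eq_mul, map_neg, map_div₀, map_mul, R.skh.inv, map_inv₀,
        R.skh.skew y x]
      field_simp
      ring)
  refine ⟨g, hg, ?_, fun z h2 h3 => ?_⟩
  · rw [hf, smul_smul, mul_inv_cancel₀ h0, one_smul, add_sub_cancel]
    simp only [LinearMap.map_smulₛₗ, map_sub, LinearMap.sub_apply, hx, LinearMap.smul_apply,
      smul_eq_mul, map_inv₀]
    rw [show (σ (B u x))⁻¹ * (B y x - 0) + -(B y x / (B u x * σ (B u x))) * B u x = 0 by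
      field_simp; ring, zero_smul, add_zero]
  · simp [hf, h2, h3]

theorem conj_mem_QQ {u : V} {q : G} (hq : q ∈ QQ ρ B u) (g : G) :
    g * q * g⁻¹ ∈ QQ ρ B (ρ g u) :=
  ⟨by rw [rho_mul, rho_mul, rho_inv, hq.1], fun x hx => by
    obtain ⟨c, hc⟩ := hq.2 (ρ g⁻¹ x) (by rw [← R.iso g, rho_inv', hx])
    exact ⟨c, by rw [rho_mul, rho_mul, hc, map_add, map_smul, rho_inv']⟩⟩

theorem mem_normalizer_QQ [Finite G] {u : V} {g : G} (h : ρ g u = u) :
    g ∈ normalizer (QQ ρ B u : Set G) :=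
  H91.mem_normalizer_of_conj_mem fun q hq => by simpa [h] using R.conj_mem_QQ hq g

theorem pow_eq_one_of_QQ (p : ℕ) [CharP F p] {u : V} {g : G} (hg : g ∈ QQ ρ B u) :
    g ^ p ^ 2 = 1 := by
  have h1 : ∀ x, B u x = 0 → ρ (g ^ p) x = x := fun x hx => by
    obtain ⟨c, hc⟩ := hg.2 x hx
    rw [rho_pow hc (by rw [map_smul, hg.1]), CharP.cast_eq_zero, zero_smul, add_zero]
  refine R.ext fun x => ?_
  rw [sq, pow_mul, rho_pow (y := ρ (g ^ p) x - x) (by simp) (h1 _ ?_), CharP.cast_eq_zero,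
    zero_smul, add_zero, rho_one]
  rw [map_sub, sub_eq_zero]
  conv_lhs => rw [← (pow_mem hg p).1, R.iso]

theorem isPGroup_QQ (p : ℕ) [CharP F p] (u : V) : IsPGroup p (QQ ρ B u) :=
  fun g => ⟨2, Subtype.ext (R.pow_eq_one_of_QQ p g.2)⟩

theorem mem_of_perp {W : Submodule F V} {x : V} (h : ∀ v, (∀ w ∈ W, B w v = 0) → B v x = 0) :
    x ∈ W := by
  by_contra hx
  obtain ⟨b, hb, hb'⟩ := R.skh.exists_perp_one hx
  exact zero_ne_one ((h b hb).symm.trans hb')

theorem perp_MM {i : ℕ} {v : V} (h : ∀ j : Fin m, (j : ℕ) < i → B (e j) v = 0) {w : V}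
    (hw : w ∈ MM F e i) : B w v = 0 :=
  R.skh.zero_symm (map_MM_eq_zero (B v) (fun j hj => R.skh.zero_symm (h j hj)) hw)

variable (H : IsHyp B e f)
include H

theorem fe (i j : Fin m) : B (f i) (e j) = if i = j then -1 else 0 :=
  H.fe (fun x y => by rw [R.skh.skew, neg_one_mul]) i j

theorem f_MM {k : Fin m} {x : V} (hx : x ∈ MM F e k) : B (f k) x = 0 :=
  map_MM_eq_zero _ (fun j hj => by rw [R.fe H, if_neg (Fin.ne_of_gt hj)]) hx

theorem eq_zero_of_MM {i : ℕ} {x : V} (hx : x ∈ MM F e i)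
    (h : ∀ j : Fin m, (j : ℕ) < i → B (f j) x = 0) : x = 0 := by
  induction i with
  | zero => exact eq_zero_of_MM_zero hx
  | succ i ih =>
    refine ih ?_ fun j hj => h j (by omega)
    by_cases hi : i < m
    · obtain ⟨c, hc⟩ := exists_of_mem_succ ⟨i, hi⟩ hx
      have := R.f_MM H hc
      rw [map_sub, h _ (Nat.lt_succ_self _), map_smul, R.fe H, if_pos rfl] at this
      simpa [show c = 0 by simpa using this] using hc
    · exact MM_mono (by omega) (MM_le_top _ hx)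

theorem mem_succ_of_fix (k : Fin m) {x : V} (h : ∀ u ∈ UU ρ e, ρ u x - x ∈ MM F e k) :
    x ∈ MM F e (k + 1) := by
  have key : ∀ (v : V) (t : F), (∀ j : Fin m, (j : ℕ) < k + 1 → B (e j) v = 0) →
      t - σ t = B v v → B (e k) x * B (f k) v = B v x + t * B (e k) x := fun v t hv ht => by
    obtain ⟨g, hg, hf⟩ := R.exists_E (H.ee k k) (hv k (Nat.lt_succ_self _)) ht
    have := R.f_MM H (h g (mem_UU_of_QQ H.ee hg fun j hj => by
      simp [hf, H.ee, R.skh.zero_symm (hv j (Nat.lt_succ_of_lt hj))]))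
    simp only [hf, map_sub, map_add, map_smul, R.fe H, if_true, smul_eq_mul] at this
    linear_combination this
  have h1 : B (e k) x = 0 := by simpa using (key 0 1 (by simp) (by simp)).symm
  refine R.mem_of_perp fun v hv => ?_
  obtain ⟨d, hd⟩ := R.skh.tr v
  simpa [h1] using (key v d (fun j hj => hv _ (e_mem_MM hj)) hd.symm).symm

theorem normalizer_le : normalizer (UU ρ e : Set G) ≤ Bor ρ e := fun g hg => by
  have key : ∀ i ≤ m, ∀ x ∈ MM F e i, ρ g x ∈ MM F e i := fun i hi => by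
    induction i with
    | zero => intro x hx; rw [eq_zero_of_MM_zero hx, map_zero]; exact zero_mem _
    | succ i ih =>
      refine fun x hx => R.mem_succ_of_fix H ⟨i, hi⟩ fun u hu => ?_
      have := ih (by omega) _ (((mem_normalizer_iff''.1 hg u).1 hu).2 i x hx)
      rwa [map_sub, rho_mul, rho_mul, rho_inv'] at this
  exact mem_Bor fun j => key _ j.2 _ (e_mem_MM (Nat.lt_succ_self _))

theorem mem_UU_of_pow {p : ℕ} [hp : Fact p.Prime] [CharP F p] {g : G} (hg : g ∈ Bor ρ e) {v : ℕ}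
    (h : g ^ p ^ v = 1) : g ∈ UU ρ e := mem_UU fun j => by
  obtain ⟨c, hc⟩ := exists_of_mem_succ j (Bor.apply hg (e_mem_MM (Nat.lt_succ_self _)))
  have key : ∀ n : ℕ, ρ (g ^ n) (e j) - c ^ n • e j ∈ MM F e j := fun n => by
    induction n with
    | zero => simp
    | succ n ih =>
      have := add_mem (Bor.apply hg ih) (Submodule.smul_mem _ (c ^ n) hc)
      rw [map_sub, map_smul, ← rho_mul, ← pow_succ', smul_sub, smul_smul, ← pow_succ] at this
      simpa using this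
  have h1 := R.f_MM H (key (p ^ v))
  simp only [h, rho_one, map_sub, map_smul, R.fe H, if_true, smul_eq_mul] at h1
  have h2 : (c - 1) ^ p ^ v = 0 := by rw [sub_pow_char_pow, one_pow]; linear_combination h1
  simpa [sub_eq_zero.1 (pow_eq_zero_iff (pow_pos hp.out.pos v).ne' |>.1 h2)] using hc

theorem exists_smul {k : Fin m} {g : G} (hg : g ∈ Bor ρ e) (h : g ∈ FixS ρ (prs e f k)) :
    ∃ c : F, c ≠ 0 ∧ ρ g (e k) = c • e k := by
  obtain ⟨c, hc⟩ := exists_of_mem_succ k (Bor.apply hg (e_mem_MM (Nat.lt_succ_self _)))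
  have e1 := sub_eq_zero.1 (R.eq_zero_of_MM H hc fun j hj => by
    rw [map_sub, map_smul, ← h (f j) ⟨j, hj, Or.inr rfl⟩, R.iso, h (f j) ⟨j, hj, Or.inr rfl⟩,
      R.fe H, if_neg (Fin.ne_of_lt hj)]; simp)
  refine ⟨c, fun h0 => ?_, e1⟩
  have := R.iso g (e k) (f k)
  simp [e1, h0, H.ef] at this

theorem fact {k : Fin m} {g : G} (h : g ∈ FixS ρ (prs e f k)) {c : F} (hc : c ≠ 0)
    (hk : ρ g (e k) = c • e k) : ∃ E ∈ UU ρ e ⊓ QQ ρ B (e k), E ∈ FixS ρ (prs e f k) ∧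
      ρ (E⁻¹ * g) (e k) = c • e k ∧ ρ (E⁻¹ * g) (f k) = (σ c)⁻¹ • f k := by
  have h0 : σ c ≠ 0 := (map_ne_zero σ).2 hc
  have h1 : B (e k) ((σ c)⁻¹ • f k) = B (e k) (ρ g (f k)) := by
    have := R.iso g (e k) (f k)
    rw [hk, LinearMap.map_smulₛₗ, LinearMap.smul_apply, smul_eq_mul] at this
    rw [map_smul, ← this, smul_eq_mul, inv_mul_cancel_left₀ h0]
  obtain ⟨E, hE, e1, e2⟩ := R.move (H.ee k k) (by simp [H.ff]) ((R.iso g _ _).trans (H.ff k k)) h1
    (by simp [H.ef, h0])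
  have h2 : E ∈ FixS ρ (prs e f k) := by
    rintro x ⟨j, hj, rfl | rfl⟩
    · refine e2 _ (H.ee _ _) ?_
      conv_rhs => rw [← h (e j) ⟨j, hj, Or.inl rfl⟩, R.iso]
      simp [R.fe H, Fin.ne_of_gt hj]
    · refine e2 _ (by rw [H.ef, if_neg (Fin.ne_of_gt hj)]) ?_
      conv_rhs => rw [← h (f j) ⟨j, hj, Or.inr rfl⟩, R.iso]
      simp [H.ff]
  exact ⟨E, ⟨mem_UU_of_QQ H.ee hE fun j hj => h2 _ ⟨j, hj, Or.inl rfl⟩, hE⟩, h2,
    by rw [rho_mul, hk, map_smul, (inv_mem hE).1], by rw [rho_mul, rho_inv_of e1]⟩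

omit R H in
theorem mem_FixS_succ {k : Fin m} {g : G} (h : g ∈ FixS ρ (prs e f k)) (h1 : ρ g (e k) = e k)
    (h2 : ρ g (f k) = f k) : g ∈ FixS ρ (prs e f (k + 1)) := by
  rintro x ⟨j, hj, hx⟩
  rcases (Nat.lt_succ_iff.1 hj).eq_or_lt with hj | hj
  · rw [Fin.ext hj] at hx
    rcases hx with rfl | rfl
    exacts [h1, h2]
  · exact h x ⟨j, hj, hx⟩

theorem fact_one {k : Fin m} {g : G} (h : g ∈ FixS ρ (prs e f k)) (hk : ρ g (e k) = e k) :
    ∃ E ∈ UU ρ e ⊓ QQ ρ B (e k), E⁻¹ * g ∈ FixS ρ (prs e f (k + 1)) := by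
  obtain ⟨E, hE, h1, h2, h3⟩ := R.fact H h one_ne_zero (by rw [hk, one_smul])
  exact ⟨E, hE, mem_FixS_succ (mul_mem (inv_mem h1) h) (by simpa using h2) (by simpa using h3)⟩

theorem fact_UU {k : Fin m} {g : G} (hg : g ∈ UU ρ e) (h : g ∈ FixS ρ (prs e f k)) :
    ∃ E ∈ UU ρ e ⊓ QQ ρ B (e k), E⁻¹ * g ∈ FixS ρ (prs e f (k + 1)) := by
  refine R.fact_one H h (sub_eq_zero.1 (R.eq_zero_of_MM H
    (hg.2 k _ (e_mem_MM (Nat.lt_succ_self _))) fun j hj => ?_))
  rw [map_sub, ← h (f j) ⟨j, hj, Or.inr rfl⟩, R.iso, h (f j) ⟨j, hj, Or.inr rfl⟩, sub_self]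

end Rp

end Cfsg.Agent.H62
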