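import Cfsg.Agent.H62.SkFlag

/-! Strongly closed subgroups of the Sylow subgroups of symplectic and unitary groups in the
defining characteristic. -/

set_option autoImplicit false
set_option linter.unusedSectionVars false

namespace Cfsg.Agent.H62

open Module Cfsg.Agent.H27 Subgroup

variable {F V : Type*} [Field F] [AddCommGroup V] [Module F V] {σ : F →+* F}
  {G : Type*} [Group G] {m : ℕ} {ρ : G →* V ≃ₗ[F] V} [FiniteDimensional F V] {e f : Fin m → V}
  {B : V →ₛₗ[σ] V →ₗ[F] F}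

theorem es_iff {T : Subgroup G} {u v : V} {t : F} : ES B (T.map ρ) u v t ↔
    ∃ g ∈ T, ∀ z, ρ g z = z + B u z • v + (B v z + t * B u z) • u :=
  ⟨fun ⟨_, ⟨g, hg, rfl⟩, h⟩ => ⟨g, hg, h⟩, fun ⟨g, hg, h⟩ => ⟨_, ⟨g, hg, rfl⟩, h⟩⟩

theorem es_zero_iff {K : Subgroup (V ≃ₗ[F] V)} {u : V} {t : F} :
    ES B K u 0 t ↔ T1 K u (t • B u) :=
  ⟨fun h => Has.congr h fun z => by simp, fun h => Has.congr h fun z => by simp⟩

theorem QQ_le_UU (hee : ∀ i j, B (e i) (e j) = 0) {k : Fin m} (hk : (k : ℕ) = 0) :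
    QQ ρ B (e k) ≤ UU ρ e := fun _ hg => mem_UU_of_QQ hee hg fun j hj => by
  have : (j : ℕ) < k := hj
  omega

namespace Rp
variable (R : Rp ρ B)
include R

theorem decomp {u y : V} (hu : B u u = 0) (hy : B y y = 0) (h : B u y = 1) (x : V) :
    ∃ w, B u w = 0 ∧ B y w = 0 ∧ x = B u x • y - B y x • u + w :=
  ⟨x - (B u x • y - B y x • u), by simp [hu, h], by simp [hy, R.skh.one_symm h], by abel⟩

/-- elements of the Heisenberg group are Eichler elements -/
theorem eichler {u y : V} (hu : B u u = 0) (hy : B y y = 0) (h : B u y = 1) {g : G}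
    (hg : g ∈ QQ ρ B u) : ∃ v t, B u v = 0 ∧ t - σ t = B v v ∧
      ∀ z, ρ g z = z + B u z • v + (B v z + t * B u z) • u := by
  have h1 : B u (ρ g y) = 1 := by rw [← h, ← R.iso g u y, hg.1]
  have h2 : B (ρ g y) (ρ g y) = 0 := (R.iso g _ _).trans hy
  refine ⟨ρ g y - y, -B (ρ g y) y, by simp [h, h1], by
    simp only [map_sub, LinearMap.sub_apply, h2, hy, map_neg, R.skh.skew (ρ g y) y]; ring,
    fun z => ?_⟩
  obtain ⟨c, hc⟩ := hg.2 (z - B u z • y) (by simp [h])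
  have h3 := R.iso g y (z - B u z • y)
  rw [hc] at h3
  simp only [map_add, map_sub, map_smul, smul_eq_mul, hy, R.skh.one_symm h1] at h3
  rw [map_sub, map_smul, sub_eq_iff_eq_add] at hc
  rw [hc, show c = B (ρ g y) z - B y z - B (ρ g y) y * B u z by linear_combination -h3]
  simp only [map_sub, LinearMap.sub_apply]
  module

theorem eq_of_fix {u y : V} (hu : B u u = 0) (hy : B y y = 0) (h : B u y = 1) {g g' : G}
    (hg : g ∈ QQ ρ B u) (hg' : g' ∈ QQ ρ B u) (e : ρ g y = ρ g' y) : g = g' := by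
  have h1 := mul_mem (inv_mem hg') hg
  obtain ⟨v, t, a, -, c⟩ := R.eichler hu hy h h1
  have h2 := c y
  rw [rho_mul, e, rho_inv, h, one_smul, mul_one, add_assoc, left_eq_add] at h2
  refine (inv_mul_eq_one.1 (R.ext fun z => ?_)).symm
  have h3 : v = -((B v y + t) • u) := eq_neg_of_add_eq_zero_left h2
  have h4 := congrArg (B v) h2
  have h5 := congrArg (fun x => B x y) h2
  have h6 := congrArg (fun x => B x z) h2
  simp only [map_add, LinearMap.map_smulₛₗ, LinearMap.add_apply, LinearMap.smul_apply, h,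
    smul_eq_mul, map_zero, LinearMap.zero_apply, mul_one] at h5 h6
  rw [c, rho_one, add_assoc, add_eq_left]
  conv_lhs => enter [1]; rw [h3]
  rw [smul_neg, smul_smul, ← neg_smul, ← add_smul,
    show -(B u z * (B v y + t)) + (B v z + t * B u z) = 0 by linear_combination h6 - B u z * h5,
    zero_smul]

theorem cent_QQ {u y : V} (hu : B u u = 0) (h : B u y = 1) {g : G} (hg : ρ g u = u)
    (hc : g ∈ centralizer (QQ ρ B u : Set G)) : g ∈ QQ ρ B u := ⟨hg, fun x hx => by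
  obtain ⟨d, hd⟩ := R.skh.tr x
  obtain ⟨E, hE, hf⟩ := R.exists_E hu hx hd.symm
  have h1 := congrArg (fun a => ρ a y) (hc E hE)
  have h2 : B u (ρ g y) = 1 := by rw [← h, ← R.iso g u y, hg]
  simp only [rho_mul, hf, map_add, map_smul, h, h2, one_smul, hg, add_assoc, add_right_inj] at h1
  exact ⟨B x (ρ g y) + d * 1 - (B x y + d * 1), by
    rw [sub_smul, ← add_sub_assoc, h1]; abel⟩⟩

/-- transitivity on the vectors of a hyperbolic family -/
theorem exists_map (H : IsHyp B e f) {i j : Fin m} (h : i ≠ j) (a b : F) (hb : b ≠ 0) :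
    ∃ g : G, ρ g (e i) = a • e i + b • e j := by
  obtain ⟨g, -, hg, -⟩ := R.move (u := f i + σ ((1 - a) / b) • f j) (x := e i)
    (y := a • e i + b • e j) (by simp [H.ff]) (H.ee _ _) (by simp [H.ee])
    (by simp [R.fe H, h, h.symm, R.skh.inv]; field_simp; ring) (by simp [R.fe H, h.symm])
  exact ⟨g, hg⟩

section SC
variable {T : Subgroup G} (hT : ∀ x ∈ T, ∀ g, g * x * g⁻¹ ∈ UU ρ e → g * x * g⁻¹ ∈ T)
  (H : IsHyp B e f) {i₀ : Fin m} (h₀ : (i₀ : ℕ) = 0)
include hT H h₀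

theorem es_conj {v : V} {t : F} (hv : B (e i₀) v = 0) (h : ES B (T.map ρ) (e i₀) v t) {g : G}
    (hg : ρ g (e i₀) = e i₀) : ES B (T.map ρ) (e i₀) (ρ g v) t := by
  obtain ⟨x, hx, hf⟩ := es_iff.1 h
  have h1 : x ∈ QQ ρ B (e i₀) := ⟨by simp [hf, H.ee, R.skh.zero_symm hv],
    fun z hz => ⟨B v z, by simp [hf, hz]⟩⟩
  refine es_iff.2 ⟨_, hT x hx g (QQ_le_UU H.ee h₀ (by simpa [hg] using R.conj_mem_QQ h1 g)),
    fun z => ?_⟩
  rw [rho_mul, rho_mul, hf]
  simp only [map_add, map_smul, rho_inv', hg, ← R.iso g v]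
  conv_lhs => rw [← R.iso g (e i₀), hg, rho_inv']

omit h₀ in
theorem t1_conj {u : V} {c : F} (h : T1 (T.map ρ) u (c • B u)) (g : G)
    (hg : ρ g u ∈ MM F e m) : T1 (T.map ρ) (ρ g u) (c • B (ρ g u)) := by
  obtain ⟨_, ⟨x, hx, rfl⟩, hf⟩ := h
  have h1 : ∀ z, ρ (g * x * g⁻¹) z = z + (c • B (ρ g u)) z • ρ g u := fun z => by
    rw [rho_mul, rho_mul, hf, map_add, map_smul, rho_inv', LinearMap.smul_apply, ← R.iso g,
      rho_inv', LinearMap.smul_apply]
  exact ⟨_, ⟨_, hT x hx g (mem_UU fun j => by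
    rw [h1]; simp [R.perp_MM (fun k _ => H.ee k j) hg]), rfl⟩, h1⟩

theorem exists_t1 (hx : (∀ a, a + σ a = 0) → (∃ a : F, a ≠ 0 ∧ a ≠ 1) ∨ 5 < finrank F V)
    {z : G} (hz : z ∈ T) (hz' : z ∈ QQ ρ B (e i₀)) (hz1 : z ≠ 1) :
    ∃ c, c ≠ 0 ∧ σ c = c ∧ T1 (T.map ρ) (e i₀) (c • B (e i₀)) := by
  have S := R.skh
  have hu := H.ee i₀ i₀
  obtain ⟨v, t, hv, ht, hf⟩ := R.eichler hu (H.ff i₀ i₀) (by simp [H.ef]) hz'
  have hE : ES B (T.map ρ) (e i₀) v t := es_iff.2 ⟨z, hz, hf⟩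
  by_cases h1 : v ∈ Submodule.span F {e i₀}
  · obtain ⟨a, rfl⟩ := Submodule.mem_span_singleton.1 h1
    have h2 : ∀ x, ρ z x = x + ((a + σ a + t) • B (e i₀)) x • e i₀ := fun x => by
      simp only [hf, LinearMap.map_smulₛₗ, LinearMap.smul_apply, smul_eq_mul]; module
    refine ⟨a + σ a + t, fun h => hz1 (R.ext fun x => by simp [h2, h]), ?_, _, ⟨z, hz, rfl⟩, h2⟩
    simp only [LinearMap.map_smulₛₗ, LinearMap.smul_apply, hu, map_zero, smul_zero] at ht
    rw [map_add, map_add, S.inv]; linear_combination -ht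
  obtain ⟨b, hb, hbv⟩ := S.exists_perp_one h1
  have hb0 : B (e i₀) b = 0 := hb _ (Submodule.mem_span_singleton_self _)
  by_cases htr : ∀ a, a + σ a = 0
  · have hσ : ∀ a, σ a = a := fun a => by
      linear_combination htr a - a * htr 1 + a * map_one σ
    have halt : ∀ x, B x x = 0 := fun x => by
      obtain ⟨d, hd⟩ := S.tr x
      rw [hd, hσ, sub_self]
    have key : ∀ y u : V, B (e i₀) y = 0 → B (e i₀) u = 0 → B u v = B u y → B u v ≠ 0 →
        ES B (T.map ρ) (e i₀) y t := fun y u hy h3 h4 h5 => by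
      obtain ⟨g, -, rfl, hg⟩ := R.move (halt u) (halt v) (halt y) h4 h5
      exact R.es_conj hT H h₀ hv hE (hg _ (S.zero_symm h3)
        ((S.zero_symm hv).trans (S.zero_symm hy).symm))
    suffices ∃ y u, B (e i₀) y = 0 ∧ B b y = 0 ∧ B (e i₀) u = 0 ∧ B u v = 1 ∧ B u y = 1 ∧
        t + B v y ≠ 0 by
      obtain ⟨y, u, a1, a2, a3, a4, a5, a6⟩ := this
      have := S.t1_of_es hu (by simp [hv, a1]) (S.es_comp hu hv a1 hE
        (key y u a1 a3 (a4.trans a5.symm) (by simp [a4])))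
        (key (v + y) b (by simp [hv, a1]) hb0 (by simp [a2]) (by simp [hbv]))
      exact ⟨_, by rwa [show t + t + B v y - t = t + B v y by ring], hσ _, this⟩
    have hl : (∃ l : F, l ≠ 0 ∧ l ≠ t) → ∃ y u, B (e i₀) y = 0 ∧ B b y = 0 ∧ B (e i₀) u = 0 ∧
        B u v = 1 ∧ B u y = 1 ∧ t + B v y ≠ 0 := fun ⟨l, l0, lt⟩ =>
      ⟨l • b, b - l⁻¹ • v, by simp [hb0], by simp [halt], by simp [hb0, hv], by simp [hbv, halt],
        by simp [halt, hσ, S.one_symm hbv, l0], by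
          simpa [S.one_symm hbv, ← sub_eq_add_neg, sub_eq_zero] using lt.symm⟩
    by_cases ht0 : t = 0
    · exact hl ⟨1, one_ne_zero, by simp [ht0]⟩
    rcases hx htr with ⟨a, a0, a1⟩ | h5
    · by_cases ht1 : t = 1
      · exact hl ⟨a, a0, by rwa [ht1]⟩
      · exact hl ⟨1, one_ne_zero, Ne.symm ht1⟩
    obtain ⟨y, -, hy, hy'⟩ := exists_ker_list [B (e i₀), B v, B b] (W := ⊤)
      (S := Submodule.span F {e i₀, v}) (by
        classical
        have := finrank_span_le_card (R := F) ({e i₀, v} : Set V)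
        have h2 : ({e i₀, v} : Set V).toFinset.card ≤ 2 := by
          rw [Set.toFinset_insert, Set.toFinset_singleton]; exact Finset.card_le_two
        simp only [List.length_cons, List.length_nil, finrank_top]; omega)
    simp only [List.mem_cons, List.not_mem_nil, or_false, forall_eq_or_imp, forall_eq] at hy
    obtain ⟨y', hy1, hy2⟩ := S.exists_perp_one hy'
    have c1 := hy1 _ (Submodule.subset_span (Or.inl rfl))
    have c2 := hy1 _ (Submodule.subset_span (Or.inr rfl))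
    exact ⟨y, b + y', hy.1, hy.2.2, by simp [hb0, c1], by simp [hbv, S.zero_symm c2],
      by simp [hy.2.2, hy2], by simpa [hy.2.1] using ht0⟩
  · obtain ⟨a, ha⟩ := not_forall.1 htr
    obtain ⟨d, hd⟩ := S.tr (σ a • b)
    obtain ⟨g, hg, gf⟩ := R.exists_E hu (by simp [hb0]) hd.symm
    have h2 := R.es_conj hT H h₀ hv hE hg.1
    rw [gf, hv, zero_smul, add_zero, mul_zero, add_zero, LinearMap.map_smulₛₗ, S.inv,
      LinearMap.smul_apply, hbv, smul_eq_mul, mul_one] at h2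
    have h3 : ES B (T.map ρ) (e i₀) v (t + (a + σ a)) := Has.congr h2 fun x => by
      simp only [map_add, LinearMap.map_smulₛₗ, LinearMap.add_apply, LinearMap.smul_apply,
        smul_eq_mul]
      module
    exact ⟨a + σ a, ha, by rw [map_add, S.inv, add_comm], by
      simpa using S.t1_of_es hu hv h3 hE⟩

theorem QQ_le_of_t1 {i₁ : Fin m} (h₁ : i₁ ≠ i₀)
    (hN : (∀ a, σ a = a → ∃ d, a = d + σ d) ∨ ∀ a, σ a = a → ∃ d, a = σ d * d) {c : F}
    (hc0 : c ≠ 0) (hc : σ c = c) (h : T1 (T.map ρ) (e i₀) (c • B (e i₀))) :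
    QQ ρ B (e i₀) ≤ T := by
  have S := R.skh
  have hu := H.ee i₀ i₀
  have hM : ∀ j, e j ∈ MM F e m := fun j => e_mem_MM j.2
  have h1 : ∀ a b : F, b ≠ 0 → T1 (T.map ρ) (a • e i₀ + b • e i₁)
      (c • B (a • e i₀ + b • e i₁)) := fun a b hb => by
    obtain ⟨g, hg⟩ := R.exists_map H h₁.symm a b hb
    rw [← hg]
    exact R.t1_conj hT H h g (hg ▸ add_mem (Submodule.smul_mem _ _ (hM _))
      (Submodule.smul_mem _ _ (hM _)))
  have h2 : ∀ b : F, ∃ t, ES B (T.map ρ) (e i₀) (b • e i₁) t := fun b =>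
    ⟨b * σ b / c, Has.congr (Has.comp (h1 (σ b / c) 1 one_ne_zero)
      ((h1 0 1 one_ne_zero).neg_right (by simp [H.ee]))) fun x => by
        simp only [map_add, LinearMap.map_smulₛₗ, LinearMap.add_apply, LinearMap.smul_apply,
          smul_eq_mul, H.ee, map_div₀, S.inv, hc, LinearMap.neg_apply, map_one, map_zero,
          RingHom.id_apply]
        match_scalars <;> field_simp <;> ring⟩
  have h3 : ∀ y, B (e i₀) y = 0 → B (f i₁) y = 0 → B (e i₁ + y) (e i₁ + y) = 0 → ∀ b : F,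
      ∃ t, ES B (T.map ρ) (e i₀) (b • (e i₁ + y)) t := fun y a1 a2 a3 b => by
    obtain ⟨g, -, g1, g2⟩ := R.move (H.ff i₁ i₁) (H.ee i₁ i₁) a3 (by simp [a2])
      (by simp [R.fe H])
    obtain ⟨t, ht⟩ := h2 b
    refine ⟨t, ?_⟩
    rw [← g1, ← map_smul]
    exact R.es_conj hT H h₀ (by simp [H.ee]) ht (g2 _ (by simp [R.fe H, h₁])
      (by simp [H.ee, S.zero_symm a1]))
  have hadd : ∀ {v v'}, B (e i₀) v = 0 → B (e i₀) v' = 0 → (∃ t, ES B (T.map ρ) (e i₀) v t) →
      (∃ t, ES B (T.map ρ) (e i₀) v' t) → ∃ t, ES B (T.map ρ) (e i₀) (v + v') t :=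
    fun a1 a2 ⟨_, b1⟩ ⟨_, b2⟩ => ⟨_, S.es_comp hu a1 a2 b1 b2⟩
  have hef : B (e i₀) (f i₁) = 0 := by simp [H.ef, h₁.symm]
  have h4 : ∀ b : F, ∃ t, ES B (T.map ρ) (e i₀) (b • f i₁) t := fun b => by
    have := hadd (by simp [H.ee, hef]) (by simp [H.ee])
      (h3 (f i₁) hef (H.ff _ _) (by simp [H.ee, H.ff, H.ef, R.fe H]) b) (h2 (-b))
    rwa [show b • (e i₁ + f i₁) + -b • e i₁ = b • f i₁ by module] at this
  have h5 : ∀ v, B (e i₀) v = 0 → ∃ t, ES B (T.map ρ) (e i₀) v t := fun v hv => by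
    obtain ⟨s, hs⟩ := S.tr (v + (1 + B (f i₁) v) • e i₁)
    have a1 : B (f i₁) (v + (1 + B (f i₁) v) • e i₁) = -1 := by simp [R.fe H]
    have a2 : B (v + (1 + B (f i₁) v) • e i₁) (f i₁) = 1 := by rw [S.skew, a1]; simp
    have := hadd (by simp [H.ee, hef, hv]) (by simp [H.ee, hef]) (h3
      (v + B (f i₁) v • e i₁ - s • f i₁) (by simp [hv, H.ee, hef]) (by simp [R.fe H, H.ff]) (by
        rw [show e i₁ + (v + B (f i₁) v • e i₁ - s • f i₁) =
          (v + (1 + B (f i₁) v) • e i₁) - s • f i₁ by module]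
        generalize v + (1 + B (f i₁) v) • e i₁ = w at hs a1 a2
        simp only [map_sub, LinearMap.map_smulₛₗ, LinearMap.sub_apply, LinearMap.smul_apply,
          smul_eq_mul, hs, a1, a2, H.ff, RingHom.id_apply]
        ring) 1) (hadd (by simp [H.ee]) (by simp [hef]) (h2 (-(1 + B (f i₁) v))) (h4 s))
    rwa [show (1 : F) • (e i₁ + (v + B (f i₁) v • e i₁ - s • f i₁)) +
      (-(1 + B (f i₁) v) • e i₁ + s • f i₁) = v by module] at this
  have h6 : ∀ a, σ a = a → T1 (T.map ρ) (e i₀) (a • B (e i₀)) := by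
    rcases hN with hN | hN
    · obtain ⟨t, ht⟩ := h4 1
      rw [one_smul] at ht
      exact (S.as_of_es hN hu (H.ee i₀ i₁) hef (by simp [H.ef]) h2 ht).2
    · intro a ha
      obtain ⟨d, hd⟩ := hN (a / c) (by rw [map_div₀, ha, hc])
      by_cases hd0 : d = 0
      · rw [show a = 0 by simpa [hd0, hc0] using hd, zero_smul]; exact t1_zero_right _
      obtain ⟨g, hg⟩ := R.exists_map H h₁.symm 0 1 one_ne_zero
      obtain ⟨g', hg'⟩ := R.exists_map H h₁ 0 d hd0
      have e1 : ρ (g' * g) (e i₀) = d • e i₀ := by simpa [rho_mul, hg] using hg'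
      have := R.t1_conj hT H h (g' * g) (e1 ▸ Submodule.smul_mem _ _ (hM _))
      rw [e1, t1_smul, LinearMap.map_smulₛₗ, smul_smul, smul_smul] at this
      rwa [show a = d * c * σ d by field_simp at hd; linear_combination hd]
  intro g hg
  obtain ⟨v, t, hv, ht, hf⟩ := R.eichler hu (H.ff i₀ i₀) (by simp [H.ef]) hg
  obtain ⟨t', ht'⟩ := h5 v hv
  obtain ⟨x, hx, hx'⟩ := es_iff.1 ht'
  have a1 : t' - σ t' = B v v := by
    have := R.iso x (f i₀) (f i₀)
    simp only [hx', map_add, LinearMap.map_smulₛₗ, LinearMap.add_apply, LinearMap.smul_apply,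
      smul_eq_mul, H.ef, H.ff, R.fe H, if_true, hu, hv, S.zero_symm hv, map_one, map_mul,
      RingHom.id_apply, S.skew v (f i₀)] at this
    linear_combination -this
  have a2 := S.es_comp hu (v := 0) (by simp) hv (es_zero_iff.2 (h6 (t - t') (by
    rw [map_sub]; linear_combination a1 - ht))) ht'
  obtain ⟨y, hy, hy'⟩ := es_iff.1 a2
  rwa [R.ext (a := g) (b := y) fun z => by simp [hf, hy']]

end SC

end Rp

end Cfsg.Agent.H62
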