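import Cfsg.Agent.H62.SkFlag2

/-! The defining-characteristic fusion systems of symplectic and unitary groups are simple. -/

set_option autoImplicit false
set_option linter.unusedSectionVars false

namespace Cfsg.Agent.H62

open Module Cfsg.Agent.H27 Subgroup

variable {F V : Type*} [Field F] [AddCommGroup V] [Module F V] {σ : F →+* F}
  {G : Type*} [Group G] {m : ℕ} {ρ : G →* V ≃ₗ[F] V} [FiniteDimensional F V] {e f : Fin m → V}
  {B : V →ₛₗ[σ] V →ₗ[F] F}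

namespace Rp
variable (R : Rp ρ B) (H : IsHyp B e f) {w₀ : V} (hw : w₀ ∈ perpFam B (Sum.elim e f))
  (hs : ∀ x ∈ perpFam B (Sum.elim e f), ∃ c : F, x = c • w₀)
include R H hs

theorem ext_frame {a b : V →ₗ[F] V} (h1 : ∀ i, a (e i) = b (e i)) (h2 : ∀ i, a (f i) = b (f i))
    (h3 : a w₀ = b w₀) : a = b := LinearMap.ext fun x => by
  obtain ⟨s, t, w, hw, rfl⟩ := H.exists_decomp (ε := -1) (by simp)
    (fun x y => by rw [R.skh.skew, neg_one_mul]) x
  obtain ⟨c, rfl⟩ := hs w hw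
  simp [h1, h2, h3]

theorem det_eq_one (g : G) {b : V ≃ₗ[F] V} (h1 : ∀ i, ρ g (e i) = b (e i))
    (h2 : ∀ i, ρ g (f i) = b (f i)) (h3 : ρ g w₀ = b w₀) :
    LinearMap.det (b : V →ₗ[F] V) = 1 := by
  rw [← R.ext_frame H hs (a := (ρ g : V →ₗ[F] V)) (b := (b : V →ₗ[F] V)) h1 h2 h3]
  exact mem_SLV.1 (R.mem g).2

include hw

theorem w_ne (h0 : w₀ ≠ 0) : B w₀ w₀ ≠ 0 := fun h => h0 (R.skh.nd _ (H.radical (ε := -1) (by simp)
  (fun x y => by rw [R.skh.skew, neg_one_mul]) hw fun w hw' => by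
    obtain ⟨c, rfl⟩ := hs w hw'
    simp [h]))

theorem eq_one_of_fix {g : G} (hg : g ∈ FixS ρ (prs e f m)) : g = 1 := by
  have h1 : ∀ i, ρ g (e i) = e i := fun i => hg _ ⟨i, i.2, Or.inl rfl⟩
  have h2 : ∀ i, ρ g (f i) = f i := fun i => hg _ ⟨i, i.2, Or.inr rfl⟩
  have h3 : ρ g w₀ = w₀ := by
    by_cases h0 : w₀ = 0
    · rw [h0, map_zero]
    obtain ⟨c, hc⟩ := hs (ρ g w₀) (mem_perpFam.2 (by
      rintro (i | i)
      · rw [Sum.elim_inl, ← h1, R.iso]; exact mem_perpFam.1 hw (Sum.inl i)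
      · rw [Sum.elim_inr, ← h2, R.iso]; exact mem_perpFam.1 hw (Sum.inr i)))
    have h4 := R.w_ne H hw hs h0
    have h5 : 1 + (((c - 1) / B w₀ w₀) • B w₀) w₀ = c := by simp [h4]
    have h6 : c ≠ 0 := fun h => h0 ((ρ g).injective (by simp [hc, h]))
    have h7 := (det_dil w₀ (((c - 1) / B w₀ w₀) • B w₀) (h5.symm ▸ h6)).trans h5
    have w1 : ∀ j, B w₀ (e j) = 0 := fun j => R.skh.zero_symm (mem_perpFam.1 hw (Sum.inl j))
    have w2 : ∀ j, B w₀ (f j) = 0 := fun j => R.skh.zero_symm (mem_perpFam.1 hw (Sum.inr j))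
    rw [R.det_eq_one H hs g (fun i => by simp [dil_apply, h1, w1])
      (fun i => by simp [dil_apply, h2, w2])
      (by simp [dil_apply, hc, h4, sub_smul])] at h7
    rw [hc, ← h7, one_smul]
  exact R.ext fun x => (LinearMap.congr_fun (R.ext_frame H hs (a := (ρ g : V →ₗ[F] V))
    (b := LinearMap.id) h1 h2 h3) x).trans (rho_one ρ x).symm

/-- downward induction along the hyperbolic pairs -/
theorem induct {P K : Subgroup G} (h : ∀ k : Fin m, ∀ g ∈ P, g ∈ FixS ρ (prs e f k) →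
    ∃ x ∈ K, x ∈ P ∧ x⁻¹ * g ∈ FixS ρ (prs e f (k + 1))) : P ≤ K := by
  have key : ∀ d k, k + d = m → ∀ g ∈ P, g ∈ FixS ρ (prs e f k) → g ∈ K := fun d => by
    induction d with
    | zero => rintro k rfl g - hg; rw [R.eq_one_of_fix H hw hs hg]; exact one_mem _
    | succ d ih =>
      intro k hk g hg hg'
      obtain ⟨x, h1, h2, h3⟩ := h ⟨k, by omega⟩ g hg hg'
      simpa using mul_mem h1 (ih (k + 1) (by omega) _ (mul_mem (inv_mem h2) hg) h3)
  exact fun g hg => key m 0 (by simp) g hg fun x ⟨j, hj, _⟩ => absurd hj (Nat.not_lt_zero _)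

theorem isPGroup_UU [Finite G] (p : ℕ) [Fact p.Prime] [CharP F p] : IsPGroup p (UU ρ e) := by
  have key : ∀ d k, k + d = m → IsPGroup p ↥(UU ρ e ⊓ FixS ρ (prs e f k)) := fun d => by
    induction d with
    | zero =>
      rintro k rfl g
      exact ⟨0, Subtype.ext (by simpa using R.eq_one_of_fix H hw hs g.2.2)⟩
    | succ d ih =>
      intro k hk
      have hk' : k < m := by omega
      refine (IsPGroup.to_sup_of_normal_right' (ih (k + 1) (by omega))
        (R.isPGroup_QQ p (e ⟨k, hk'⟩)) fun g hg => R.mem_normalizer_QQ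
          (hg.2 _ ⟨⟨k, hk'⟩, Nat.lt_succ_self _, Or.inl rfl⟩)).to_le fun g hg => ?_
      obtain ⟨E, hE, h⟩ := R.fact_UU H (k := ⟨k, hk'⟩) hg.1 hg.2
      simpa using mul_mem (mem_sup_right hE.2)
        (mem_sup_left (S := UU ρ e ⊓ FixS ρ (prs e f (k + 1)))
          (mem_inf.2 ⟨(UU ρ e).mul_mem ((UU ρ e).inv_mem hE.1) hg.1, h⟩))
  exact (key m 0 (by simp)).to_le
    (le_inf le_rfl fun g _ x ⟨j, hj, _⟩ => absurd hj (Nat.not_lt_zero _))

theorem exists_sylow [Finite G] (p : ℕ) [Fact p.Prime] [CharP F p] :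
    ∃ U : Sylow p G, (U : Subgroup G) = UU ρ e := by
  obtain ⟨U, hU⟩ := (R.isPGroup_UU H hw hs p).exists_le_sylow
  refine ⟨U, (hU.eq_or_lt.resolve_right fun h => ?_).symm⟩
  obtain ⟨g, hg, hg'⟩ := SetLike.exists_of_lt (H91.lt_normalizerIn U.isPGroup' h)
  obtain ⟨v, hv⟩ := H91.pow_eq_one_of_mem_isPGroup U.isPGroup' hg.1
  exact hg' (R.mem_UU_of_pow H (R.normalizer_le H hg.2) hv)

omit hw in
theorem sigma_eq (h0 : w₀ = 0) {k : Fin m} {g : G} {c : F} (hc : c ≠ 0)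
    (h1 : ∀ j, j ≠ k → ρ g (e j) = e j ∧ ρ g (f j) = f j) (h2 : ρ g (e k) = c • e k)
    (h3 : ρ g (f k) = (σ c)⁻¹ • f k) : σ c = c := by
  have h4 : σ c ≠ 0 := (map_ne_zero σ).2 hc
  have a1 : 1 + ((1 - c) • B (f k)) (e k) = c := by simp [R.fe H]
  have a2 : 1 + (((σ c)⁻¹ - 1) • B (e k)) (f k) = (σ c)⁻¹ := by simp [H.ef]
  have := det_mul' (dil (e k) _ (a1.symm ▸ hc)) (dil (f k) _ (a2.symm ▸ inv_ne_zero h4))
  rw [(det_dil _ _ _).trans a1, (det_dil _ _ _).trans a2, R.det_eq_one H hs g (fun i => by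
      by_cases hi : i = k
      · subst hi; simp [le_mul_apply, dil_apply, h2, H.ee, R.fe H, sub_smul]
      · simp [le_mul_apply, dil_apply, (h1 i hi).1, H.ee, R.fe H, Ne.symm hi])
    (fun i => by
      by_cases hi : i = k
      · subst hi; simp [le_mul_apply, dil_apply, h3, H.ff, H.ef, sub_smul]
      · simp [le_mul_apply, dil_apply, (h1 i hi).2, H.ff, H.ef, Ne.symm hi])
    (by simp [h0])] at this
  field_simp at this
  exact this

omit hs in
theorem exists_torus {L : Subgroup G} {k : Fin m}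
    (hL : ∀ u g, g ∈ QQ ρ B u → (∀ j, j ≠ k → ρ g (e j) = e j ∧ ρ g (f j) = f j) → g ∈ L)
    {t d : F} (ht0 : t ≠ 0) (ht : t - σ t = σ d * d * B w₀ w₀) :
    ∃ g ∈ L, ρ g (e k) = -t • f k := by
  have S := R.skh
  have w1 : ∀ j, B (e j) w₀ = 0 := fun j => mem_perpFam.1 hw (Sum.inl j)
  have w2 : ∀ j, B (f j) w₀ = 0 := fun j => mem_perpFam.1 hw (Sum.inr j)
  have hy : B (e k - d • w₀ - t • f k) (e k - d • w₀ - t • f k) = 0 := by
    simp only [map_sub, LinearMap.map_smulₛₗ, LinearMap.sub_apply, LinearMap.smul_apply,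
      smul_eq_mul, H.ee, H.ef, H.ff, R.fe H, if_true, w1, w2, S.zero_symm (w1 _),
      S.zero_symm (w2 _), RingHom.id_apply]
    linear_combination -ht
  obtain ⟨a, ha, a1, a2⟩ := R.move (H.ff k k) (H.ee k k) hy (by simp [w2, H.ff])
    (by simp [R.fe H])
  obtain ⟨b, hb, b1, b2⟩ := R.move (y := -t • f k) (H.ee k k) hy (by simp [H.ff])
    (by simp [w1, H.ee]) (by simp [w1, H.ee, H.ef, ht0])
  refine ⟨b * a, mul_mem (hL _ _ hb fun j hj => ⟨b2 _ (H.ee _ _) ?_, b2 _ ?_ ?_⟩)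
    (hL _ _ ha fun j hj => ⟨a2 _ ?_ ?_, a2 _ (H.ff _ _) ?_⟩), by rw [rho_mul, a1, b1]⟩ <;>
  simp [H.ee, H.ef, H.ff, R.fe H, S.zero_symm (w1 _), S.zero_symm (w2 _), Ne.symm hj]

omit hw hs in
theorem exists_sl {L : Subgroup G} {i k : Fin m} (hik : i ≠ k)
    (hL : ∀ u g, g ∈ QQ ρ B u → (∀ j, ρ g (e j) ∈ MM F e m) →
      (∀ j, j ≠ i → j ≠ k → ρ g (e j) = e j ∧ ρ g (f j) = f j) → g ∈ L)
    {c : F} (hc : c ≠ 0) : ∃ g ∈ L, ρ g (e i) = c • e i := by
  have key : ∀ {i k : Fin m}, i ≠ k → ∀ a : F, ∃ g ∈ QQ ρ B (e k), (∀ j, ρ g (e j) ∈ MM F e m) ∧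
      (∀ j, j ≠ i → j ≠ k → ρ g (e j) = e j ∧ ρ g (f j) = f j) ∧ ρ g (e i) = e i + a • e k :=
    fun {i k} h a => by
      obtain ⟨g, hg, hf⟩ := R.exists_E (v := σ (-a) • f i) (t := 0) (H.ee k k)
        (by simp [H.ef, h.symm]) (by simp [H.ff])
      refine ⟨g, hg, fun j => ?_, fun j h1 h2 => ?_, by simp [hf, H.ee, R.fe H, R.skh.inv]⟩
      · rw [hf, H.ee, zero_smul, add_zero]
        exact add_mem (e_mem_MM j.2) (Submodule.smul_mem _ _ (e_mem_MM k.2))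
      · simp [hf, H.ee, H.ef, H.ff, R.fe H, h1.symm, h2.symm]
  obtain ⟨x, x0, x1, x2, x3⟩ := key hik 1
  obtain ⟨y, y0, y1, y2, y3⟩ := key hik.symm (c - 1)
  obtain ⟨z, z0, z1, z2, z3⟩ := key hik (-c⁻¹)
  refine ⟨z * y * x, mul_mem (mul_mem (hL _ _ z0 z1 z2) (hL _ _ y0 y1 fun j a b => y2 j b a))
    (hL _ _ x0 x1 x2), ?_⟩
  simp only [rho_mul, x3, map_add, map_smul, y3, y0.1, z3, z0.1]
  match_scalars <;> field_simp <;> ring

theorem simple_frame [Finite G] (p : ℕ) [Fact p.Prime] [CharP F p] (hm : 2 ≤ m)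
    (hN : (w₀ = 0 ∧ ∀ a, σ a = a → ∃ d, a = d + σ d) ∨ ∀ a, σ a = a → ∃ d, a = σ d * d)
    (hx : (∀ a, a + σ a = 0) → (∃ a : F, a ≠ 0 ∧ a ≠ 1) ∨ 5 < finrank F V) :
    ∃ U : Sylow p G, (U : Subgroup G) ⊓ center G = ⊥ ∧
      (groupFusionSystem (U : Subgroup G)).IsSimple p := by
  obtain ⟨U, hU⟩ := R.exists_sylow H hw hs p
  obtain ⟨n, rfl⟩ : ∃ n, m = n + 2 := ⟨m - 2, by omega⟩
  have hQ : QQ ρ B (e 0) ≤ UU ρ e := QQ_le_UU H.ee rfl
  have h0 : ∀ g ∈ UU ρ e, ρ g (e 0) = e 0 := fun g hg =>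
    sub_eq_zero.1 (eq_zero_of_MM_zero (hg.2 0 _ (e_mem_MM (Nat.lt_succ_self _))))
  have hcQ : UU ρ e ⊓ centralizer (QQ ρ B (e 0) : Set G) ≤ QQ ρ B (e 0) := fun g hg =>
    R.cent_QQ (H.ee 0 0) (y := f 0) (by simp [H.ef]) (h0 g hg.1) hg.2
  have htv : ∀ (u y : V) (g : G), B u u = 0 → B u y = 1 → (∀ x, (∀ z, ρ x z = z + B u z • u) →
      x * g = g * x) → ∃ c : F, ρ g u = c • u := fun u y g hu hy h => by
    obtain ⟨E, -, hf⟩ := R.exists_E (v := 0) (t := 1) hu (by simp) (by simp)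
    have := congrArg (fun a => ρ a y) (h E fun z => by simp [hf])
    simp only [rho_mul, hf, map_add, map_smul, hy, smul_zero, add_zero, map_zero,
      LinearMap.zero_apply, zero_add, one_mul, one_smul, add_right_inj] at this
    exact ⟨_, this.symm⟩
  have hfix : ∀ g ∈ UU ρ e, ∀ j, (∀ x, (∀ z, ρ x z = z + B (e j) z • e j) → x * g = g * x) →
      ρ g (e j) = e j := fun g hg j h => by
    obtain ⟨c, hc⟩ := htv (e j) (f j) g (H.ee _ _) (by simp [H.ef]) h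
    have := R.f_MM H (hg.2 j _ (e_mem_MM (Nat.lt_succ_self _)))
    simp only [hc, map_sub, map_smul, R.fe H, if_true, smul_eq_mul] at this
    rw [hc, show c = 1 by linear_combination -this, one_smul]
  refine ⟨U, ?_, simple_of_local U ?_ ?_ ?_⟩
  · rw [hU, eq_bot_iff]
    rintro z ⟨hz, hz'⟩
    have h1 := fun j => hfix z hz j fun x _ => mem_center_iff.1 hz' x
    refine R.eq_one_of_fix H hw hs ?_
    rintro _ ⟨j, -, rfl | rfl⟩
    · exact h1 j
    · obtain ⟨c, hc⟩ := htv (f j) (-e j) z (H.ff _ _) (by simp [R.fe H])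
        fun x _ => mem_center_iff.1 hz' x
      have := R.iso z (e j) (f j)
      rw [hc, h1, map_smul, H.ef, if_pos rfl, smul_eq_mul, mul_one] at this
      rw [hc, this, one_smul]
  · rw [hU]
    intro h
    obtain ⟨E, hE, hf⟩ := R.exists_E (v := 0) (t := 1) (H.ee 0 0) (by simp) (by simp)
    have := congrArg (B (f 0)) (hf (f 0))
    rw [show E = 1 from mem_bot.1 (h ▸ hQ hE), rho_one] at this
    simp [H.ef, H.ff, R.fe H] at this
  · intro T hT hsc h1
    have hn : (U : Subgroup G) ≤ normalizer (T : Set G) := fun g hg =>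
      H91.mem_normalizer_of_conj_mem fun x hx =>
        hsc x hx g (mul_mem (mul_mem hg (hT hx)) (inv_mem hg))
    obtain ⟨z, hz, hz1⟩ := (Subgroup.bot_or_exists_ne_one _).resolve_left
      (inf_cent_ne_bot (U.isPGroup'.to_le hT) h1 hn fun r hr => by
        obtain ⟨k, hk⟩ := H91.pow_eq_one_of_mem_isPGroup U.isPGroup' hr
        exact ⟨k, by rw [hk]; exact one_mem _⟩)
    rw [hU] at hT hsc hz ⊢
    obtain ⟨c, c0, c1, c2⟩ := R.exists_t1 hsc H (i₀ := 0) rfl hx hz.1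
      (hcQ ⟨hT hz.1, centralizer_le hQ hz.2⟩) hz1
    have h2 := R.QQ_le_of_t1 hsc H (i₀ := 0) rfl (i₁ := 1) one_ne_zero (hN.imp_left And.right)
      c0 c1 c2
    refine R.induct H hw hs fun k g hg hg' => ?_
    obtain ⟨E, hE, h⟩ := R.fact_UU H hg hg'
    refine ⟨E, ?_, hE.1, h⟩
    by_cases hk : k = 0
    · exact h2 (hk ▸ hE.2)
    obtain ⟨a, ha⟩ := R.exists_map H hk 0 1 one_ne_zero
    have := hsc _ (h2 (by simpa [ha] using R.conj_mem_QQ hE.2 a)) a⁻¹
    simpa [mul_assoc] using this (by simpa [mul_assoc] using hE.1)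
  · rw [hU]
    intro K hUK _ hK
    have hP : ∀ {u g} {Q : Subgroup G}, g ∈ QQ ρ B u → g ∈ normalizer (Q : Set G) →
        g ∈ pGenN p Q := fun h1 h2 => subset_closure ⟨h2, 2, R.pow_eq_one_of_QQ p h1⟩
    refine (R.normalizer_le H).trans (R.induct H hw hs fun k g hg hg' => ?_)
    obtain ⟨c, hc, hk⟩ := R.exists_smul H hg hg'
    suffices ∃ x ∈ K, x ∈ Bor ρ e ∧ x ∈ FixS ρ (prs e f k) ∧ ρ x (e k) = c • e k by
      obtain ⟨x, x1, x2, x3, x4⟩ := this
      obtain ⟨E, hE, h⟩ := R.fact_one H (mul_mem (inv_mem x3) hg')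
        (by rw [rho_mul, hk, rho_inv_of x4])
      exact ⟨x * E, mul_mem x1 (hUK hE.1), mul_mem x2 hE.1.1, by rwa [mul_inv_rev, mul_assoc]⟩
    by_cases hl : k = Fin.last _
    · have hlt : ∀ j, j ≠ k → (j : ℕ) < k := fun j hj => Fin.val_lt_last (hl ▸ hj) |>.trans_eq
        (by rw [hl, Fin.val_last])
      have hk0 : (0 : Fin (n + 2)) ≠ k := by rw [hl]; exact Fin.last_pos.ne
      have key : ∀ {t d : F}, t ≠ 0 → t - σ t = σ d * d * B w₀ w₀ →
          ∃ g ∈ pGenN p (QQ ρ B (e 0)) ⊓ FixS ρ (prs e f k), ρ g (e k) = -t • f k :=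
        R.exists_torus H hw fun u x h1 h2 => mem_inf.2
          ⟨hP h1 (R.mem_normalizer_QQ (h2 0 hk0).1), by
          rintro _ ⟨j, hj, rfl | rfl⟩
          exacts [(h2 j (Fin.ne_of_lt hj)).1, (h2 j (Fin.ne_of_lt hj)).2]⟩
      obtain ⟨d, hd⟩ : ∃ d, c - σ c = σ d * d * B w₀ w₀ := by
        by_cases hw0 : w₀ = 0
        · obtain ⟨E, -, e1, e2, e3⟩ := R.fact H hg' hc hk
          have e4 := mul_mem (inv_mem e1) hg'
          exact ⟨0, by rw [R.sigma_eq H hs hw0 hc (fun j hj => ⟨e4 _ ⟨j, hlt j hj, Or.inl rfl⟩,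
            e4 _ ⟨j, hlt j hj, Or.inr rfl⟩⟩) e2 e3]; simp⟩
        have h4 := R.w_ne H hw hs hw0
        obtain ⟨d, hd⟩ := (hN.resolve_left fun h => hw0 h.1) ((c - σ c) / B w₀ w₀) (by
          rw [map_div₀, map_sub, R.skh.inv, show σ (B w₀ w₀) = -B w₀ w₀ by
            linear_combination R.skh.skew w₀ w₀, div_neg, ← neg_div, neg_sub])
        exact ⟨d, by rw [← hd, div_mul_cancel₀ _ h4]⟩
      obtain ⟨a, a1, a2⟩ := key hc hd
      obtain ⟨b, b1, b2⟩ := key (d := 0) one_ne_zero (by simp)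
      have e1 : ρ (b⁻¹ * a) (e k) = c • e k := by
        rw [rho_mul, a2]
        exact rho_inv_of (by rw [map_smul, b2]; module)
      have e2 := mul_mem (inv_mem b1) a1
      have e3 : b⁻¹ * a ∈ Bor ρ e := mem_Bor fun j => by
        by_cases hj : j = k
        · rw [hj, e1]; exact Submodule.smul_mem _ _ (e_mem_MM (Nat.lt_succ_self _))
        · rw [e2.2 _ ⟨j, hlt j hj, Or.inl rfl⟩]; exact e_mem_MM (Nat.lt_succ_self _)
      exact ⟨_, hK _ hQ (fun x hx => R.mem_normalizer_QQ (h0 x hx)) hcQ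
        ⟨Bor_le_normalizer e3, e2.1⟩, e3, e2.2, e1⟩
    · obtain ⟨a, a1, a2⟩ := R.exists_sl H (L := pGenN p (FixS ρ (MM F e (n + 2))) ⊓
        (stab (MM F e (n + 2))).comap ρ ⊓
        FixS ρ {x | ∃ j, j ≠ k ∧ j ≠ Fin.last _ ∧ (x = e j ∨ x = f j)}) hl (fun u x h1 h2 h3 => by
          have h4 : x ∈ (stab (MM F e (n + 2))).comap ρ := mem_stab_of_mapsTo fun _ hx =>
            MM_le (W := Submodule.comap (ρ x : V →ₗ[F] V) (MM F e (n + 2))) (fun j _ => h2 j) hx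
          refine ⟨⟨hP h1 (mem_normalizer_FixS fun y hy =>
            stab_apply (mem_comap.1 (inv_mem h4)) hy), h4⟩, ?_⟩
          rintro _ ⟨j, b1, b2, rfl | rfl⟩
          exacts [(h3 j b1 b2).1, (h3 j b1 b2).2]) hc
      have e3 : a ∈ Bor ρ e := mem_Bor fun j => by
        by_cases hj : j = k
        · rw [hj, a2]; exact Submodule.smul_mem _ _ (e_mem_MM (Nat.lt_succ_self _))
        by_cases hj' : j = Fin.last _
        · rw [hj']; exact stab_apply a1.1.2 (e_mem_MM (Nat.lt_succ_self _))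
        · rw [a1.2 _ ⟨j, hj, hj', Or.inl rfl⟩]; exact e_mem_MM (Nat.lt_succ_self _)
      refine ⟨a, hK _ (fun x hx => mem_UU fun j => by simp [hx _ (e_mem_MM j.2)])
        (fun x hx => mem_normalizer_FixS fun y hy => Bor.apply (inv_mem hx.1) hy)
        (fun x hx y hy => ?_) ⟨Bor_le_normalizer e3, a1.1.1⟩, e3, ?_, a2⟩
      · refine MM_le (W := LinearMap.eqLocus (ρ x : V →ₗ[F] V) LinearMap.id)
          (fun j _ => hfix x hx.1 j fun y hy => hx.2 y fun z hz => ?_) hy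
        rw [hy, map_MM_eq_zero _ (fun i _ => H.ee j i) hz, zero_smul, add_zero]
      · rintro _ ⟨j, hj, h⟩
        exact a1.2 _ ⟨j, Fin.ne_of_lt hj, Fin.ne_of_lt (lt_of_lt_of_le hj (Fin.le_last k)), h⟩

end Rp

theorem Rp.simple [Finite G] (R : Rp ρ B) (p : ℕ) [Fact p.Prime] [CharP F p]
    (hV : 4 ≤ finrank F V)
    (hN : ((∀ x, B x x = 0) ∧ ∀ a, σ a = a → ∃ d, a = d + σ d) ∨ ∀ a, σ a = a → ∃ d, a = σ d * d)
    (hx : (∀ a, a + σ a = 0) → (∃ a : F, a ≠ 0 ∧ a ≠ 1) ∨ 5 < finrank F V)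
    (S : Sylow p (G ⧸ center G)) :
    (groupFusionSystem (S : Subgroup (G ⧸ center G))).IsSimple p := by
  have S' := R.skh
  have h1 : σ (-1) * -1 = 1 := by simp
  have h2 : ∀ x y, B y x = -1 * σ (B x y) := fun x y => by rw [S'.skew, neg_one_mul]
  obtain ⟨m, e, f, H, -, -, hmax⟩ := exists_maximal_hyp h1 h2 (fun x => B x x = 0) fun _ h => h
  have han : ∀ x ∈ perpFam B (Sum.elim e f), B x x = 0 → x = 0 := fun x hx h =>
    S'.nd x (H.radical h1 h2 hx fun w hw => by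
      by_contra h3
      obtain ⟨b, b1, b2, b3⟩ := S'.exists_partner h hx hw h3
      exact hmax x hx b b1 h b2 b3)
  obtain ⟨w₀, hw, hs, hN'⟩ : ∃ w₀ ∈ perpFam B (Sum.elim e f),
      (∀ x ∈ perpFam B (Sum.elim e f), ∃ c : F, x = c • w₀) ∧
      ((w₀ = 0 ∧ ∀ a, σ a = a → ∃ d, a = d + σ d) ∨ ∀ a, σ a = a → ∃ d, a = σ d * d) := by
    rcases hN with hN | hN
    · exact ⟨0, zero_mem _, fun x hx => ⟨0, by simp [han x hx (hN.1 x)]⟩, Or.inl ⟨rfl, hN.2⟩⟩
    by_cases h0 : ∀ x ∈ perpFam B (Sum.elim e f), x = 0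
    · exact ⟨0, zero_mem _, fun x hx => ⟨0, by simp [h0 x hx]⟩, Or.inr hN⟩
    push Not at h0
    obtain ⟨w, hw, hw0⟩ := h0
    have h3 : B w w ≠ 0 := fun h => hw0 (han w hw h)
    refine ⟨w, hw, fun x hx => ⟨B w x / B w w, ?_⟩, Or.inr hN⟩
    have h4 : x - (B w x / B w w) • w ∈ perpFam B (Sum.elim e f) :=
      sub_mem hx (Submodule.smul_mem _ _ hw)
    have h5 : B w (x - (B w x / B w w) • w) = 0 := by simp [h3]
    rw [← sub_eq_zero]
    generalize x - (B w x / B w w) • w = y at h4 h5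
    obtain ⟨d, hd⟩ := hN (-(B y y / B w w)) (by
      rw [map_neg, map_div₀, show σ (B w w) = -B w w by linear_combination S'.skew w w,
        show σ (B y y) = -B y y by linear_combination S'.skew y y, neg_div_neg_eq])
    have h6 := han (y + d • w) (add_mem h4 (Submodule.smul_mem _ _ hw)) (by
      simp only [map_add, LinearMap.map_smulₛₗ, LinearMap.add_apply, LinearMap.smul_apply,
        smul_eq_mul, h5, S'.zero_symm h5, RingHom.id_apply]
      field_simp at hd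
      linear_combination -hd)
    have h7 := congrArg (B w) h6
    simp only [map_add, h5, map_smul, smul_eq_mul, zero_add, map_zero, mul_eq_zero, h3,
      or_false] at h7
    simpa [h7] using h6
  have hm : 2 ≤ m := by
    have a := H.finrank_eq h1 h2
    have b : finrank F (perpFam B (Sum.elim e f)) ≤ 1 :=
      (Submodule.finrank_mono (t := Submodule.span F {w₀}) fun x hx => by
        obtain ⟨c, rfl⟩ := hs x hx
        exact Submodule.smul_mem _ _ (Submodule.mem_span_singleton_self _)).trans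
        (finrank_span_single_le w₀)
    rw [Fintype.card_fin] at a
    omega
  obtain ⟨U, h3, h4⟩ := R.simple_frame H hw hs p hm hN' hx
  exact simple_of_quot (QuotientGroup.mk' _) (QuotientGroup.mk'_surjective _) U
    (by rwa [QuotientGroup.ker_mk']) h4 S

end Cfsg.Agent.H62
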